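import Cfsg.Agent.H4.KW

/-! Averages of contributions over the generators of a cyclic `2`-group. -/

set_option autoImplicit false
open Cfsg MonoidAlgebra CfsgL0 CfsgH1 CfsgH4
open CfsgH3 hiding cj cj_cj
open scoped ComplexConjugate

namespace CfsgH4

/-- The odd powers of a complex number. -/
def opw (w : ℂ) : ℕ → ℂ := fun k => w ^ (2 * k + 1)

theorem opw_mul (v w : ℂ) : opw (v * w) = opw v * opw w := funext fun _ => mul_pow _ _ _

theorem opw_one : opw 1 = 1 := funext fun _ => one_pow _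

theorem opw_pow (w : ℂ) (n : ℕ) : opw (w ^ n) = opw w ^ n := funext fun _ => pow_right_comm _ _ _

theorem opw_neg_one : opw (-1) = -1 := funext fun k => (odd_two_mul_add_one k).neg_one_pow

theorem star_opw (w : ℂ) : star (opw w) = opw (conj w) := funext fun _ => map_pow conj _ _

/-- The ring generated by the functions `opw w`. -/
def RS (j : ℕ) : Subring (ℕ → ℂ) := Subring.closure (opw '' {w | w ^ 2 ^ j = 1})

/-- The average. -/
noncomputable def av (j : ℕ) : (ℕ → ℂ) →ₗ[ℂ] ℂ :=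
  ((2 : ℂ) ^ j)⁻¹ • ∑ k ∈ Finset.range (2 ^ j), LinearMap.proj k

variable {j : ℕ} {f g : ℕ → ℂ} {w : ℂ}

theorem av_apply (f : ℕ → ℂ) : av j f = ((2 : ℂ) ^ j)⁻¹ * ∑ k ∈ Finset.range (2 ^ j), f k := by
  simp [av]

theorem av_star (f : ℕ → ℂ) : av j (star f) = conj (av j f) := by
  simp [av_apply, map_ofNat]

theorem av_const (c : ℂ) : av j (fun _ => c) = c := by simp [av_apply]

theorem av_opw (h : w ^ 2 ^ j = 1) : av j (opw w) = if w ^ 2 = 1 then w else 0 := by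
  simp only [av_apply, opw, pow_succ, pow_mul, ← Finset.sum_mul, pow_zero, one_mul]
  split_ifs with h1
  · simp [h1]
  · rw [geom_sum_eq h1, mul_pow, h]; simp

theorem opw_mem (h : w ^ 2 ^ j = 1) : opw w ∈ RS j := Subring.subset_closure ⟨w, h, rfl⟩

theorem RS_ind {P : (ℕ → ℂ) → Prop} (h1 : ∀ w, w ^ 2 ^ j = 1 → P (opw w)) (h0 : P 0)
    (h2 : ∀ f ∈ RS j, ∀ g ∈ RS j, P f → P g → P (f + g)) (h3 : ∀ f ∈ RS j, P f → P (-f))
    (hf : f ∈ RS j) : P f := by
  let W : Submonoid (ℕ → ℂ) := ⟨⟨opw '' {w | w ^ 2 ^ j = 1}, by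
    rintro _ _ ⟨a, ha, rfl⟩ ⟨b, hb, rfl⟩
    exact ⟨a * b, by rw [Set.mem_setOf, mul_pow, ha, hb, one_mul], opw_mul a b⟩⟩, 1, one_pow _, opw_one⟩
  have h : ∀ f, f ∈ RS j ↔ f ∈ AddSubgroup.closure W := fun f =>
    Subring.mem_closure_iff.trans (by rw [show opw '' _ = W from rfl, Submonoid.closure_eq])
  rw [h] at hf
  induction hf using AddSubgroup.closure_induction with
  | mem x hx => obtain ⟨w, hw, rfl⟩ := hx; exact h1 w hw
  | zero => exact h0
  | add x y hx hy a b => exact h2 x ((h x).2 hx) y ((h y).2 hy) a b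
  | neg x hx a => exact h3 x ((h x).2 hx) a

theorem star_mem_RS (hf : f ∈ RS j) : star f ∈ RS j :=
  RS_ind (P := fun f => star f ∈ RS j) (fun w h => star_opw w ▸ opw_mem (by rw [← map_pow, h, map_one]))
    (by simp) (fun f _ g _ a b => star_add f g ▸ add_mem a b) (fun f _ a => star_neg f ▸ neg_mem a) hf

theorem exists_av_eq (hf : f ∈ RS j) : ∃ n : ℤ, av j f = n := by
  refine RS_ind (P := fun f => ∃ n : ℤ, av j f = n) (fun w h => ?_) ⟨0, by simp⟩
    (fun _ _ _ _ ⟨a, ha⟩ ⟨b, hb⟩ => ⟨a + b, by simp [ha, hb]⟩) (fun _ _ ⟨a, ha⟩ => ⟨-a, by simp [ha]⟩) hf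
  rw [av_opw h]
  split_ifs with h1
  · rcases sq_eq_one_iff.1 h1 with rfl | rfl
    exacts [⟨1, by simp⟩, ⟨-1, by simp⟩]
  · exact ⟨0, by simp⟩

theorem av_star_of_mem (hf : f ∈ RS j) : av j (star f) = av j f := by
  obtain ⟨n, hn⟩ := exists_av_eq hf
  rw [av_star, hn, map_intCast]

theorem isIntegral_of_mem_RS (hf : f ∈ RS j) (k : ℕ) : IsIntegral ℤ (f k) :=
  RS_ind (P := fun f => IsIntegral ℤ (f k)) (fun w h => (IsIntegral.of_pow (by positivity)
    (h ▸ isIntegral_one)).pow _) isIntegral_zero (fun _ _ _ _ a b => a.add b) (fun _ _ a => a.neg) hf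

open ComplexOrder in
theorem av_nonneg (h : ∀ k, 0 ≤ f k) : 0 ≤ av j f := by
  rw [av_apply]
  exact mul_nonneg (by positivity) (Finset.sum_nonneg fun k _ => h k)

open ComplexOrder in
theorem av_pos (h : ∀ k, 0 ≤ f k) (h0 : f 0 ≠ 0) : 0 < av j f := by
  rw [av_apply]
  exact mul_pos (by positivity) (Finset.sum_pos' (fun k _ => h k)
    ⟨0, by simp, lt_of_le_of_ne (h 0) h0.symm⟩)

section Two
variable {M : Ideal AlgInt} [hM : PMod 2 M]

theorem InP_two : MemLocalIdeal M 2 := by simpa using InP_p (M := M)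

theorem av_mem_Loc (hf : f ∈ RS j) : av j f ∈ Loc M := by
  obtain ⟨n, hn⟩ := exists_av_eq hf
  exact hn ▸ intCast_mem _ _

theorem InP_av_mul_star (hf : f ∈ RS j) : MemLocalIdeal M (av j (f * star f) - f 0) := by
  refine RS_ind (P := fun f => MemLocalIdeal M (av j (f * star f) - f 0)) (fun w h => ?_)
    (by simpa using InP.zero) (fun f hf g hg a b => ?_) (fun f hf a => ?_) hf
  · rw [star_opw, ← opw_mul, conj_eq_inv_of_pow (by positivity) h, mul_inv_cancel₀ (by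
      rintro rfl; simp at h), av_opw (one_pow _)]
    simpa [opw] using InP.symm (InP_sub_one_of_pow (M := M) h)
  · have h1 := av_star_of_mem (mul_mem hf (star_mem_RS hg))
    convert InP.add (InP.add a b) (InP.mul_right InP_two (av_mem_Loc (mul_mem hf (star_mem_RS hg))))
      using 1
    simp only [star_add, mul_add, add_mul, map_add, Pi.add_apply, star_mul', star_star] at h1 ⊢
    rw [mul_comm g (star f)]
    linear_combination h1
  · convert InP.add a (InP.mul_right InP_two (mem_Loc_of_isIntegral (isIntegral_of_mem_RS hf 0)))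
      using 1
    simp only [star_neg, neg_mul_neg, Pi.neg_apply]
    ring

theorem I_mem_RS : opw Complex.I ∈ RS (j + 2) := opw_mem (by
  rw [pow_add, mul_comm, pow_mul]; norm_num)

theorem InP_av_sq (hf : f ∈ RS (j + 2)) : MemLocalIdeal M
    (av (j + 2) (f * f) - av (j + 2) f - av (j + 2) (f * opw Complex.I)) := by
  refine RS_ind (P := fun f => MemLocalIdeal M (av (j + 2) (f * f) - av (j + 2) f -
    av (j + 2) (f * opw Complex.I))) (fun w h => ?_)
    (by simpa using InP.zero) (fun f hf g hg a b => ?_) (fun f hf a => ?_) hf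
  · have h1 : Complex.I ^ 2 ^ (j + 2) = 1 := by rw [pow_add, mul_comm, pow_mul]; norm_num
    rw [← opw_mul, ← opw_mul, av_opw h, av_opw (by rw [mul_pow, h, one_mul]),
      av_opw (by rw [mul_pow, h, h1, one_mul]), mul_pow w Complex.I, Complex.I_sq, ← pow_two]
    by_cases h2 : w ^ 2 = 1
    · rw [h2, if_pos (one_pow _), if_pos rfl, if_neg (by norm_num), sub_zero]
      exact InP.symm (InP_sub_one_of_pow (M := M) h)
    by_cases h3 : w ^ 2 = -1
    · rw [h3, if_pos (by norm_num), if_neg (by norm_num), if_pos (by norm_num)]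
      convert InP.neg (InP.add InP_two (InP_sub_one_of_pow (M := M) (ζ := w * Complex.I)
        (by rw [mul_pow, h, h1, one_mul]))) using 1
      ring
    · rw [if_neg h2, if_neg fun h => (sq_eq_one_iff.1 h).elim h2 h3,
        if_neg fun h => h3 (by linear_combination -h)]
      simpa using InP.zero
  · convert InP.add (InP.add a b) (InP.mul_right InP_two (av_mem_Loc (mul_mem hf hg))) using 1
    simp only [mul_add, add_mul, map_add, mul_comm g f]
    ring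
  · convert InP.add a (InP.mul_right InP_two (add_mem (av_mem_Loc hf)
      (av_mem_Loc (mul_mem hf I_mem_RS)))) using 1
    simp only [mul_neg, neg_neg, neg_mul, map_neg]
    ring

theorem InP_av_sub (hf : f ∈ RS (j + 2)) (h : star f = f) :
    MemLocalIdeal M (av (j + 2) f - f 0) := by
  have h1 := av_star_of_mem (mul_mem hf I_mem_RS)
  rw [star_mul', h, star_opw, Complex.conj_I, ← neg_one_mul, opw_mul, opw_neg_one, neg_one_mul,
    mul_neg, map_neg, neg_eq_self] at h1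
  have h2 := InP_av_sq (M := M) hf
  have h3 := InP_av_mul_star (M := M) hf
  rw [h1, sub_zero] at h2
  rw [h] at h3
  exact InP.trans (InP.symm h2) h3

omit hM in
theorem isIntegral_two_div (i : ℕ) : ∀ {w : ℂ}, w ^ 2 ^ i = -1 → IsIntegral ℤ (2 / (1 - w) ^ 2 ^ i) := by
  induction i with
  | zero => rintro w h; rw [pow_zero, pow_one] at h; norm_num [h, isIntegral_one]
  | succ i ih =>
    intro w h
    have h0 : IsIntegral ℤ w := IsIntegral.of_pow (by positivity) (h ▸ isIntegral_one.neg)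
    have h1 : 1 - w ≠ 0 := fun h1 => by norm_num [← sub_eq_zero.1 h1] at h
    have h2 : 1 + w ≠ 0 := fun h1 => by
      rw [eq_neg_of_add_eq_zero_right h1, Even.neg_one_pow ⟨2 ^ i, by ring⟩] at h; norm_num at h
    have h3 := mul_neg_geom_sum w (2 ^ (i + 1) + 1)
    rw [pow_succ w, h, neg_one_mul, sub_neg_eq_add] at h3
    have h4 : 2 / (1 - w) ^ 2 ^ (i + 1) = 2 / (1 - w ^ 2) ^ 2 ^ i *
        (∑ k ∈ Finset.range (2 ^ (i + 1) + 1), w ^ k) ^ 2 ^ i := by
      rw [← mul_div_cancel_left₀ (∑ k ∈ _, _) h1, h3, show 1 - w ^ 2 = (1 - w) * (1 + w) by ring,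
        pow_succ, pow_mul, mul_pow, div_pow]
      field_simp
    exact h4 ▸ (ih (w := w ^ 2) (by rw [← pow_mul, ← pow_succ', h])).mul
      ((IsIntegral.sum _ fun k _ => h0.pow k).pow _)

variable {ζ : ℂ} (hζ : IsPrimitiveRoot ζ (2 ^ (j + 1)))
include hζ

omit hM in
theorem prim_pow_eq : ζ ^ 2 ^ j = -1 :=
  (hζ.pow (by positivity) (pow_succ 2 j)).eq_neg_one_of_two_right

theorem exists_eq_pi_mul (hf : f ∈ RS (j + 1)) (h : MemLocalIdeal M (f 0)) :
    ∃ g ∈ RS (j + 1), f = (1 - opw ζ) * g := by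
  have hz := opw_mem hζ.pow_eq_one
  have h1 : ∀ n, ∃ g ∈ RS (j + 1), 1 - opw ζ ^ n = (1 - opw ζ) * g := fun n =>
    ⟨_, Subring.sum_mem _ fun k _ => pow_mem hz k, (mul_neg_geom_sum _ n).symm⟩
  obtain ⟨n, g, hg, rfl⟩ : ∃ n : ℤ, ∃ g ∈ RS (j + 1), f = n + (1 - opw ζ) * g := by
    refine RS_ind (P := fun f => ∃ n : ℤ, ∃ g ∈ RS (j + 1), f = n + (1 - opw ζ) * g)
      (fun w h => ?_) ⟨0, 0, zero_mem _, by simp⟩ ?_ ?_ hf
    · obtain ⟨n, -, rfl⟩ := hζ.eq_pow_of_pow_eq_one h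
      obtain ⟨g, hg, h⟩ := h1 n
      exact ⟨1, -g, neg_mem hg, by rw [opw_pow, mul_neg, ← h]; simp⟩
    · rintro _ - _ - ⟨a, f, hf, rfl⟩ ⟨b, g, hg, rfl⟩
      exact ⟨a + b, f + g, add_mem hf hg, by push_cast; ring⟩
    · rintro _ - ⟨a, f, hf, rfl⟩
      exact ⟨-a, -f, neg_mem hf, by push_cast; ring⟩
  obtain ⟨m, rfl⟩ := (InP_intCast_iff (M := M) n).1 (by
    simpa [opw] using InP.sub h (InP.mul_right (InP.symm (InP_sub_one_of_pow (M := M) hζ.pow_eq_one))
      (mem_Loc_of_isIntegral (isIntegral_of_mem_RS hg 0))))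
  obtain ⟨t, ht, h2⟩ := h1 (2 ^ j)
  rw [← opw_pow, prim_pow_eq hζ, opw_neg_one] at h2
  exact ⟨t * m + g, add_mem (mul_mem ht (intCast_mem _ _)) hg, by
    rw [mul_add, ← mul_assoc, ← h2]; push_cast; ring⟩

theorem exists_eq_pi_pow_mul (m : ℕ) : ∀ {f}, f ∈ RS (j + 1) → ∀ y ∈ Loc M, f 0 = (1 - ζ) ^ m * y →
    ∃ g ∈ RS (j + 1), f = (1 - opw ζ) ^ m * g := by
  induction m with
  | zero => exact fun hf _ _ _ => ⟨_, hf, by simp⟩
  | succ m ih =>
    intro f hf y hy h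
    have h1 := InP.symm (InP_sub_one_of_pow (M := M) hζ.pow_eq_one)
    obtain ⟨g, hg, rfl⟩ := exists_eq_pi_mul (M := M) hζ hf (by
      rw [h, pow_succ', mul_assoc]
      exact InP.mul_right h1 (mul_mem (pow_mem (InP.mem_Loc h1) _) hy))
    obtain ⟨t, ht, rfl⟩ := ih hg y hy (mul_left_cancel₀ (sub_ne_zero.2
      (hζ.ne_one (Nat.one_lt_pow j.succ_ne_zero one_lt_two)).symm)
      (by simpa [opw, pow_succ', mul_assoc] using h))
    exact ⟨t, ht, by ring⟩

omit hζ in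
theorem exists_eq_two_mul (hf : f ∈ RS (j + 1)) {y : ℂ} (hy : y ∈ Loc M) (h : f 0 = 2 * y) :
    ∃ g ∈ RS (j + 1), f = 2 * g := by
  have hζ := Complex.isPrimitiveRoot_exp (2 ^ (j + 1)) (by positivity)
  generalize Complex.exp _ = ζ at hζ
  have hz := opw_mem hζ.pow_eq_one
  obtain ⟨g, hg, rfl⟩ := exists_eq_pi_pow_mul hζ (2 ^ j) hf _ (mul_mem (mem_Loc_of_isIntegral
    (isIntegral_two_div j (prim_pow_eq hζ))) hy) (by
      have := sub_ne_zero.2 (hζ.ne_one (Nat.one_lt_pow j.succ_ne_zero one_lt_two)).symm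
      rw [h]; field_simp)
  have h1 : ∀ i, ∃ t ∈ RS (j + 1), (1 - opw ζ) ^ 2 ^ i = 1 - opw ζ ^ 2 ^ i + 2 * t := fun i => by
    induction i with
    | zero => exact ⟨0, zero_mem _, by simp⟩
    | succ i ih =>
      obtain ⟨t, ht, h⟩ := ih
      have := pow_mem hz (2 ^ i)
      refine ⟨_, add_mem (mul_mem this (sub_mem this (one_mem _))) (mul_mem (add_mem ht ht)
        (add_mem (sub_mem (one_mem _) this) ht)), ?_⟩
      rw [pow_succ, pow_mul, pow_mul, h]; ring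
  obtain ⟨t, ht, h2⟩ := h1 j
  rw [← opw_pow, prim_pow_eq hζ, opw_neg_one] at h2
  exact ⟨(1 + t) * g, mul_mem (add_mem (one_mem _) ht) hg, by rw [h2]; ring⟩

omit hζ in
theorem exists_eq_two_pow_mul (m : ℕ) : ∀ {f}, f ∈ RS (j + 1) → ∀ y ∈ Loc M, f 0 = 2 ^ m * y →
    ∃ g ∈ RS (j + 1), f = (2 : ℂ) ^ m • g ∧ g 0 = y := by
  induction m with
  | zero => exact fun hf _ _ h => ⟨_, hf, by simp, by simpa using h⟩
  | succ m ih =>
    intro f hf y hy h
    obtain ⟨g, hg, rfl⟩ := exists_eq_two_mul (M := M) hf (mul_mem (pow_mem (InP.mem_Loc InP_two) m) hy)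
      (by rw [h]; ring)
    obtain ⟨t, ht, rfl, h2⟩ := ih hg y hy (mul_left_cancel₀ two_ne_zero
      (by simpa [pow_succ', mul_assoc] using h))
    exact ⟨t, ht, by ext; simp; ring, h2⟩

end Two

section Blk
variable {G : Type*} [Group G] [Finite G] {M : Ideal AlgInt} [hM : PMod 2 M] {C : Subgroup G}
  [Fintype C] {u : G} {b : Set (IrrCharacter C)} {B : Set (IrrCharacter G)}

variable (u b) in
/-- The contributions of the odd powers of `u`. -/
noncomputable def ctA (χ ψ : IrrCharacter G) : ℕ → ℂ :=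
  fun k => (2 : ℕ) ^ blockDefect 2 b * ctr 2 C (u ^ (2 * k + 1)) b χ.1 ψ.1

variable (hC : C = Subgroup.centralizer ({u} : Set G)) (hu : orderOf u = 2 ^ j)
include hC hu

omit hM [Fintype C] in
theorem eq_cent_odd (k : ℕ) : C = Subgroup.centralizer {u ^ (2 * k + 1)} := by
  rw [hC, ← centralizer_zpowers, ← centralizer_zpowers, le_antisymm (Subgroup.zpowers_le.2
    (mem_zpowers_pow_iff.2 (by rw [hu]; exact Nat.Coprime.pow_right _ (by simp))))
    (Subgroup.zpowers_le.2 (Subgroup.npow_mem_zpowers u (2 * k + 1)))]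

omit hM hC in
theorem order_odd (k : ℕ) : ∃ i, orderOf (u ^ (2 * k + 1)) = 2 ^ i :=
  ((Nat.dvd_prime_pow Nat.prime_two).1 (hu ▸ orderOf_pow_dvd _)).imp fun _ h => h.2

omit hM [Fintype C] in
theorem cw_odd (ξ : IrrCharacter C) (k : ℕ) : cw (eq_cent_odd hC hu k) ξ = opw (cw hC ξ) k :=
  mul_right_cancel₀ ξ.2.apply_one_ne_zero ((apply_mul_cw _ ξ 1).symm.trans (by
    rw [mul_one]; exact centralChar_pow ξ.2 (mem_center_of_eq_cent hC) (2 * k + 1)))

include hM in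
variable (M) in
theorem ctA_mem (χ ψ : IrrCharacter G) : ctA u b χ ψ ∈ RS (j + 2) := by
  classical
  have h0 : ∀ ξ, opw (cw hC ξ) ∈ RS (j + 2) := fun ξ =>
    opw_mem (by rw [pow_add, pow_mul, ← hu, cw_pow, one_pow])
  choose m hm using fun (χ : IrrCharacter G) (ξ : IrrCharacter C) =>
    (χ.2.isGen.restrict C).exists_int_classInner ξ.2.isGen
  have : ctA u b χ ψ = ∑ ξ, ∑ ξ' : IrrCharacter C, if ξ ∈ b then opw (cw hC ξ) * star (opw (cw hC ξ')) *
      (m χ ξ * m ψ ξ' * dd 2 b ξ.1 ξ'.1 : ℤ) else 0 := by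
    ext k
    rw [ctA, pow_mul_ctr (M := M) (eq_cent_odd hC hu k) χ.2.isClassFunction ψ.2.isClassFunction]
    simp [cw_odd hC hu, hm, ite_apply]
  rw [this]
  refine Subring.sum_mem _ fun ξ _ => Subring.sum_mem _ fun ξ' _ => ?_
  split_ifs
  exacts [mul_mem (mul_mem (h0 _) (star_mem_RS (h0 _))) (intCast_mem _ _), zero_mem _]

theorem star_ctA (hb : fB b ∈ LG C M) (χ ψ : IrrCharacter G) : star (ctA u b χ ψ) = ctA u b ψ χ := by
  ext k
  simp [ctA, ← conj_ctr (eq_cent_odd hC hu k) hb χ.2.isClassFunction ψ.2.isClassFunction]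

theorem sum_ctA_mul (hb : fB b ∈ LG C M) (χ : IrrCharacter G) :
    ∑ ψ, ctA u b χ ψ * star (ctA u b χ ψ) = (2 : ℂ) ^ blockDefect 2 b • ctA u b χ χ := by
  ext k
  have := sum_ctr_mul_conj (M := M) (b := b) (eq_cent_odd hC hu k) (order_odd hu k) hb
    χ.2.isClassFunction χ.2.isClassFunction
  rw [Set.inter_self] at this
  simp only [ctA, ← this, Finset.sum_apply, Pi.mul_apply, Pi.star_apply, Pi.smul_apply, smul_eq_mul,
    Finset.mul_sum, RCLike.star_def, map_mul, map_pow, map_natCast, Nat.cast_ofNat]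
  exact Finset.sum_congr rfl fun _ _ => by simp [map_ofNat]; ring

theorem sum_ctA (hb : fB b ∈ LG C M) :
    ∑ χ, ctA u b χ χ = fun _ => (2 : ℂ) ^ blockDefect 2 b * blockRank 2 b := by
  ext k
  simp [ctA, ← Finset.mul_sum, sum_ctr_self (eq_cent_odd hC hu k) (order_odd hu k) hb]

open ComplexOrder in
omit hC hu hM in
theorem exists_av_norm (hf : f ∈ RS j) :
    ∃ n : ℤ, av j (f * star f) = n ∧ 0 ≤ n ∧ (f 0 ≠ 0 → 0 < n) := by
  obtain ⟨n, hn⟩ := exists_av_eq (mul_mem hf (star_mem_RS hf))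
  have h : ∀ k, 0 ≤ (f * star f) k := fun k => mul_star_self_nonneg (f k)
  exact ⟨n, hn, by exact_mod_cast hn ▸ av_nonneg h, fun h0 => by
    exact_mod_cast hn ▸ av_pos h (by simpa using h0)⟩

theorem _root_.Cfsg.IsInducedBlock.exists_av (h : IsInducedBlock M C b B) :
    ∃ (t : IrrCharacter G → ℤ) (s : IrrCharacter G → IrrCharacter G → ℤ),
      (∀ χ ψ, 0 ≤ s χ ψ) ∧ (∀ χ ψ, s χ ψ = s ψ χ) ∧ (∀ χ, ∑ ψ, s χ ψ = 2 ^ blockDefect 2 b * t χ) ∧
      ∑ χ, t χ = 2 ^ blockDefect 2 b * blockRank 2 b ∧ (∀ χ ∉ B, t χ = 0) ∧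
      (∀ χ, 0 ≤ 4 ^ blockDefect 2 b - 2 * 2 ^ blockDefect 2 b * t χ + s χ χ) ∧
      (∀ χ ∈ B, blockHeight 2 B χ.1 = 0 → Odd (t χ) ∧ (blockDefect 2 b ≠ 0 →
        0 < 4 ^ blockDefect 2 b - 2 * 2 ^ blockDefect 2 b * t χ + s χ χ) ∧
        ∀ ψ ∈ B, blockHeight 2 B ψ.1 = 0 → 0 < s χ ψ) ∧
      (blockDefect 2 b = blockDefect 2 B → ∀ χ ∈ B, (blockHeight 2 B χ.1 ≠ 0 →
        2 ^ (blockHeight 2 B χ.1 + 1) ∣ t χ) ∧
        ∀ ψ ∈ B, blockHeight 2 B ψ.1 = 0 → 4 ^ blockHeight 2 B χ.1 ≤ s χ ψ) := by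
  have hb := h.1.fB_mem
  have hA := ctA_mem M (b := b) hC hu
  have hu' : ∃ i, orderOf u = 2 ^ i := ⟨j, hu⟩
  choose t ht using fun χ => exists_av_eq (hA χ χ)
  choose s h1 h2 h3 using fun χ ψ => exists_av_norm (hA χ ψ)
  have h0 : ∀ χ ψ, ctA u b χ ψ 0 = (2 : ℕ) ^ blockDefect 2 b * ctr 2 C u b χ.1 ψ.1 := fun χ ψ => by
    simp [ctA]
  have h4 : ∀ χ, 0 ≤ 4 ^ blockDefect 2 b - 2 * 2 ^ blockDefect 2 b * t χ + s χ χ ∧
      ((2 : ℂ) ^ blockDefect 2 b ≠ ctA u b χ χ 0 →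
        0 < 4 ^ blockDefect 2 b - 2 * 2 ^ blockDefect 2 b * t χ + s χ χ) := fun χ => by
    obtain ⟨n, a1, a2, a3⟩ := exists_av_norm (sub_mem (natCast_mem _ (2 ^ blockDefect 2 b)) (hA χ χ))
    have a4 : n = 4 ^ blockDefect 2 b - 2 * 2 ^ blockDefect 2 b * t χ + s χ χ := by
      have := h1 χ χ
      rw [star_ctA hC hu hb] at this
      rw [star_sub, star_natCast, star_ctA hC hu hb, show (_ - ctA u b χ χ) * (_ - ctA u b χ χ) =
        (fun _ => (4 : ℂ) ^ blockDefect 2 b) - ((2 : ℂ) * 2 ^ blockDefect 2 b) • ctA u b χ χ +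
        ctA u b χ χ * ctA u b χ χ from by
          ext k; rw [show (4 : ℂ) = 2 * 2 by norm_num, mul_pow]; simp; ring,
        map_add, map_sub, av_const, map_smul, ht, this, smul_eq_mul] at a1
      exact_mod_cast a1.symm
    exact ⟨a4 ▸ a2, fun h => a4 ▸ a3 (by simpa [sub_eq_zero] using h)⟩
  refine ⟨t, s, h2, fun χ ψ => ?_, fun χ => ?_, ?_, fun χ hχ => ?_, fun χ => (h4 χ).1,
    fun χ hχ a1 => ?_, fun hd χ hχ => ⟨fun a1 => ?_, fun ψ hψ a1 => ?_⟩⟩
  · have := h1 χ ψ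
    rw [mul_comm, ← star_ctA hC hu hb ψ χ, star_star, h1] at this
    exact_mod_cast this.symm
  · have := congrArg (av (j + 2)) (sum_ctA_mul hC hu hb χ)
    simp only [map_sum, h1, map_smul, ht, smul_eq_mul] at this
    exact_mod_cast this
  · have := congrArg (av (j + 2)) (sum_ctA hC hu hb)
    simp only [map_sum, ht, av_const] at this
    exact_mod_cast this
  · have := ht χ
    rw [show ctA u b χ χ = 0 from funext fun k => by
      rw [ctA, h.ctr_eq_zero (eq_cent_odd hC hu k) (order_odd hu k) hχ, mul_zero]; rfl, map_zero] at this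
    exact_mod_cast this.symm
  · have a2 := fun ψ hψ a => (h.not_InP_ctr_iff hC hu' χ ψ).2 ⟨⟨hχ, a1⟩, hψ, a⟩
    simp only [← h0] at a2
    refine ⟨Int.not_even_iff_odd.1 fun a3 => a2 χ hχ a1 ?_, fun a3 => (h4 χ).2 fun a4 =>
      a2 χ hχ a1 ?_, fun ψ hψ a3 => h3 _ _ (ne_zero_of_not_InP (a2 ψ hψ a3))⟩
    · exact sub_sub_cancel (av (j + 2) _) (ctA u b χ χ 0) ▸ InP.sub (ht χ ▸ (InP_intCast_iff
        (M := M) _).2 a3.two_dvd) (InP_av_sub (hA χ χ) (star_ctA hC hu hb χ χ))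
    · exact a4 ▸ by simpa using (InP_natCast_iff (M := M) _).2 (dvd_pow_self 2 a3)
  · obtain ⟨T, hT⟩ := exists_pow_ctr hC hu' hb h.2.1 χ.2.isGen
    obtain ⟨ψ, hψ, a2⟩ := exists_height_zero (p := 2) h.2.1.nonempty
    obtain ⟨w, hw, a3, a4⟩ := hT χ hχ
    obtain ⟨w', -, a5, a6⟩ := hT ψ hψ
    rw [a2, pow_zero, one_mul, ← hd] at a5
    have a7 := a4.2 (a6.1 (by_contra fun a7 => a1 ((h.not_InP_ctr_iff hC hu' ψ χ).1 (a5 ▸ a7)).2.2))
    obtain ⟨g, hg, a8, rfl⟩ := exists_eq_two_pow_mul _ (hA χ χ) w hw (by rw [h0, hd, a3]; rfl)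
    obtain ⟨n, hn⟩ := exists_av_eq hg
    have a9 := star_ctA hC hu hb χ χ
    rw [a8, star_smul, star_pow, star_ofNat] at a9
    obtain ⟨m, rfl⟩ := (InP_intCast_iff (M := M) n).1 (by simpa [hn] using InP.add a7 (InP_av_sub hg
      (smul_right_injective _ (pow_ne_zero _ two_ne_zero) a9)))
    have := ht χ
    rw [a8, map_smul, hn, smul_eq_mul] at this
    exact ⟨m, by rw [pow_succ, mul_assoc]; exact_mod_cast this.symm⟩
  · obtain ⟨w, hw, a2, a3⟩ := h.exists_unit_ctr hC hu' hd hχ hψ a1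
    obtain ⟨g, hg, a8, rfl⟩ := exists_eq_two_pow_mul _ (hA χ ψ) w hw (by rw [h0, hd, a3]; rfl)
    obtain ⟨n, hn, -, a4⟩ := exists_av_norm hg
    have := h1 χ ψ
    rw [a8, star_smul, star_pow, star_ofNat, smul_mul_smul_comm, map_smul, hn, ← mul_pow,
      smul_eq_mul] at this
    rw [show s χ ψ = (2 * 2) ^ blockHeight 2 B χ.1 * n by exact_mod_cast this.symm]
    exact le_mul_of_one_le_right (by positivity) (a4 (ne_zero_of_not_InP a2))

end Blk

end CfsgH4
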