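import Cfsg.Agent.H3.Cd5

/-! Groups with three character degrees: the commutator subgroup is not perfect. -/

set_option autoImplicit false

open Cfsg CfsgH3 CfsgH1 CfsgCd Function Subgroup
open CfsgH2 hiding cj cj_apply isPGroup_pCore le_pCore isNilpotent_map card_mul_relIndex
open scoped ComplexConjugate commutatorElement CfsgH2

namespace CfsgH4

variable {G : Type*} [Group G] {χ ψ ξ θ : G → ℂ} {a b : ℕ}

def C3 (G : Type*) [Group G] (a b : ℕ) : Prop :=
  ∀ χ, IsIrrCharacter G χ → charDegree χ = 1 ∨ charDegree χ = a ∨ charDegree χ = b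

theorem C3.symm (h : C3 G a b) : C3 G b a := fun χ hχ => (h χ hχ).imp_right Or.symm

theorem C3.quot [Finite G] (h : C3 G a b) (N : Subgroup G) [N.Normal] : C3 (G ⧸ N) a b :=
  fun _ hβ => h _ (irr_inflate hβ)

theorem deg_mul3 [Finite G] (h1 : IsCharacter G χ) (h2 : IsCharacter G ψ) :
    charDegree (χ * ψ) = charDegree χ * charDegree ψ :=
  charDegree_eq (by rw [Nat.cast_mul, coe_charDegree h1, coe_charDegree h2]; rfl)

theorem deg_conj3 [Finite G] (h1 : IsCharacter G χ) : charDegree (fun g => conj (χ g)) = charDegree χ :=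
  charDegree_eq (by rw [conj_apply_one h1, coe_charDegree h1])

theorem comm_quot3 (K : Subgroup G) [K.Normal] :
    commutator (G ⧸ K) = (commutator G).map (QuotientGroup.mk' K) := by
  rw [_root_.commutator_def, _root_.commutator_def, map_commutator, ← MonoidHom.range_eq_map,
    QuotientGroup.range_mk']

variable [Fintype G]

theorem split3 (hθ : IsCharacter G θ)
    (h : ∀ φ, IsIrrCharacter G φ → classInner θ φ ≠ 0 → charDegree φ = a ∨ charDegree φ = b) :
    ∃ s t, charDegree θ = a * s + b * t ∧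
      (t = 0 → ∀ φ, IsIrrCharacter G φ → classInner θ φ ≠ 0 → charDegree φ = a) ∧
      (s = 0 → ∀ φ, IsIrrCharacter G φ → classInner θ φ ≠ 0 → charDegree φ = b) := by
  classical
  obtain ⟨m, m1, m2⟩ := hθ.exists_eq_sum_irr
  have k : ∀ φ (h : IsIrrCharacter G φ), classInner θ φ ≠ 0 → m ⟨φ, h⟩ ≠ 0 := fun φ h e c =>
    e ((m1 ⟨φ, h⟩).trans (by simp [c]))
  refine ⟨∑ φ with charDegree φ.1 = a, m φ, ∑ φ with charDegree φ.1 ≠ a, m φ, charDegree_eq ?_,
    fun e φ h1 h2 => by_contra fun c => k φ h1 h2 (Finset.sum_eq_zero_iff.1 e _ (by simpa using c)),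
    fun e φ h1 h2 => (h φ h1 h2).resolve_left fun c =>
      k φ h1 h2 (Finset.sum_eq_zero_iff.1 e _ (by simpa using c))⟩
  rw [congrFun m2 1, Finset.sum_apply, Finset.mul_sum, Finset.mul_sum, Finset.sum_filter,
    Finset.sum_filter, ← Finset.sum_add_distrib, Nat.cast_sum]
  refine Finset.sum_congr rfl fun φ _ => ?_
  rw [Pi.smul_apply, ← coe_charDegree φ.2.isCharacter, smul_eq_mul]
  by_cases c : m φ = 0
  · simp [c]
  by_cases d : charDegree φ.1 = a
  · simp [d, mul_comm]
  · simp [d, (h _ φ.2 (by rw [m1]; exact_mod_cast c)).resolve_left d ▸ d,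
      (h _ φ.2 (by rw [m1]; exact_mod_cast c)).resolve_left d, mul_comm]

theorem eq_of_lin3 (hχ : IsIrrCharacter G χ) (hψ : IsIrrCharacter G ψ) (hξ : IsIrrCharacter G ξ)
    (h1 : charDegree ξ = 1) (h : classInner (χ * ψ) ξ ≠ 0) : ψ = fun g => ξ g * conj (χ g) := by
  obtain ⟨l, rfl⟩ := hξ.isCharacter.exists_monoidHom ((charDegree_eq_one hξ.isCharacter).1 h1)
  rw [mul_comm, classInner_mul_left, mul_comm] at h
  exact hψ.eq_of_classInner_ne_zero (isIrr_lin_mul hχ.conj l) h

theorem norm_res3 {K : Subgroup G} [K.Normal] [Fintype K] (hχ : IsIrrCharacter G χ) :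
    ∃ n : ℕ, classInner (fun x : K => χ x) (fun x : K => χ x) = n ∧ n ∣ charDegree χ ^ 2 := by
  obtain ⟨ζ, h1, h2⟩ := hχ.exists_irr_under (H := K)
  obtain ⟨e, h3, -, h4⟩ := exists_mult_dvd h1 hχ h2
  refine ⟨e * ((inertia ζ).index * e), ?_, (inertia ζ).index * charDegree ζ ^ 2, ?_⟩
  · nth_rw 2 [clifford hχ h1 h2]
    rw [classInner_smul_right, classInner_sum_right, h3, Finset.sum_congr rfl (g := fun _ => (e : ℂ))
      fun φ hφ => by
        obtain ⟨g, rfl⟩ := mem_cjOrbit.1 hφ
        rw [classInner_restrict_cj hχ.isClassFunction, h3]]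
    simp [card_cjOrbit]
  · rw [charDegree_eq (n := e * (inertia ζ).index * charDegree ζ) (by
      rw [h4, ← coe_charDegree h1.isCharacter]; push_cast; ring)]
    ring

theorem sub1 (h : C3 G a b) (hab : a.Coprime b) (hlt : a < b) (ha : a ≠ 1)
    (hL : ⁅commutator G, commutator G⁆ = commutator G) (hχ : IsIrrCharacter G χ)
    (hψ : IsIrrCharacter G ψ) (h1 : charDegree χ = a) (h2 : charDegree ψ = b)
    (h3 : ∀ φ, IsIrrCharacter G φ → classInner (χ * ψ) φ ≠ 0 → charDegree φ = a) : False := by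
  classical
  have a0 := h1 ▸ charDegree_pos hχ
  have a1 : ∀ φ, IsIrrCharacter G φ → classInner (χ * ψ) φ ≠ 0 → ∀ x ∈ commutator G, φ x = χ x := by
    intro φ hφ c x hx
    have b1 := hχ.conj.isCharacter.mul hφ.isCharacter
    by_cases d : ∃ l, IsIrrCharacter G l ∧ classInner ((fun g => conj (χ g)) * φ) l ≠ 0 ∧
      charDegree l = 1
    · obtain ⟨l, d1, d2, d3⟩ := d
      rw [eq_of_lin3 hχ.conj hφ d1 d3 d2]
      simp [lin_comm d1.isCharacter ((charDegree_eq_one d1.isCharacter).1 d3) hx]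
    obtain ⟨s, t, e1, e2, -⟩ := split3 b1 fun l d1 d2 =>
      (h l d1).resolve_left fun d3 => d ⟨l, d1, d2, d3⟩
    rw [deg_mul3 hχ.conj.isCharacter hφ.isCharacter, deg_conj3 hχ.isCharacter, h1, h3 φ hφ c] at e1
    rw [mul_comm, classInner_mul_left] at c
    have e3 := hab.dvd_of_dvd_mul_left ((Nat.dvd_add_right (dvd_mul_right a s)).1
      (e1 ▸ dvd_mul_right a a))
    refine absurd (h2 ▸ e2 (Nat.eq_zero_of_dvd_of_lt e3 (by nlinarith)) ψ hψ fun e =>
      c (classInner_eq_zero_comm.1 e)) hlt.ne'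
  have a2 : ∀ x ∈ commutator G, χ x * ψ x = ψ 1 * χ x := fun x hx => by
    have b1 := (hχ.isCharacter.mul hψ.isCharacter).isClassFunction.apply_eq_sum_irr
    have b2 : ∀ y ∈ commutator G, χ y * ψ y = (∑ φ : IrrCharacter G, classInner (χ * ψ) φ) * χ y :=
      fun y hy => (b1 y).trans (by
        rw [Finset.sum_mul]
        refine Finset.sum_congr rfl fun φ _ => ?_
        by_cases c : classInner (χ * ψ) φ = 0
        · simp [c]
        · rw [a1 _ φ.2 c y hy])
    rw [b2 x hx, ← mul_left_cancel₀ hχ.apply_one_ne_zero ((b2 1 (one_mem _)).trans (mul_comm _ _))]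
  haveI := hψ.isCharacter.charKer_normal
  set L := commutator G
  set K := L ⊓ charKer ψ
  haveI := Fintype.ofFinite L
  haveI := Fintype.ofFinite K
  obtain ⟨n, b1, b2⟩ := norm_res3 (K := K) hχ
  obtain ⟨m, b3⟩ := (hχ.isCharacter.restrict L).exists_nat_classInner (hχ.isCharacter.restrict L)
  have b4 : ∑ x : K, χ x * conj (χ x) = ∑ x : L, χ x * conj (χ x) := by
    rw [← Finset.sum_subtype (Finset.univ.filter (· ∈ K)) (by simp) fun x => χ x * conj (χ x),
      ← Finset.sum_subtype (Finset.univ.filter (· ∈ L)) (by simp) fun x => χ x * conj (χ x)]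
    refine Finset.sum_subset (fun x hx => by simp only [Finset.mem_filter] at *; exact ⟨hx.1, hx.2.1⟩)
      fun x hx c => ?_
    have hx := (Finset.mem_filter.1 hx).2
    rw [mul_eq_zero_of_left (by_contra fun d => c (Finset.mem_filter.2 ⟨Finset.mem_univ _, hx,
      hψ.isCharacter.mem_charKer.2 (mul_left_cancel₀ d ((a2 x hx).trans (mul_comm _ _)))⟩))]
  have b5 : n = K.relIndex L * m := by
    rw [classInner, inv_mul_eq_iff_eq_mul₀ (natCard_ne_zero _)] at b1 b3
    rw [b1, b3, ← card_mul_relIndex (inf_le_left : K ≤ L)] at b4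
    exact Nat.eq_of_mul_eq_mul_left (Nat.card_pos (α := K)) (by rw [← mul_assoc]; exact_mod_cast b4)
  obtain ⟨ϑ, c1, c2⟩ := hψ.exists_irr_under (H := L)
  have c3 : charDegree ϑ ∣ K.relIndex L := (deg_dvd_index_ker c1).trans (index_dvd_of_le fun x hx =>
    c1.isCharacter.mem_charKer.2 ((hψ.isCharacter.restrict L).apply_eq_of_constituent c1 c2
      (hψ.isCharacter.mem_charKer.1 hx.2)))
  have c4 := (charDegree_eq_one c1.isCharacter).1 (Nat.eq_one_of_dvd_coprimes (hab.pow_left 2)
    (c3.trans ((b5 ▸ dvd_mul_right _ _ :).trans (h1 ▸ b2)))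
    ((dvd_mul_left _ _).trans (h2 ▸ (deg_dvd_of_over c1 hψ c2).1)))
  have c5 : ϑ = fun _ => 1 := funext fun x => lin_comm c1.isCharacter c4 (by
    obtain ⟨y, hy, e⟩ : (x : G) ∈ (commutator L).map L.subtype := by
      rw [map_subtype_commutator, hL]; exact x.2
    rwa [← (Subtype.ext e : y = x)])
  have := (charDegree_eq_one hψ.isCharacter).2 (lin_of_comm hψ fun g hg =>
    apply_eq_of_classInner_one hψ (c5 ▸ c2) hg)
  omega

theorem sub2 (h : C3 G a b) (hb : b ≠ 1) (hχ : IsIrrCharacter G χ) (h1 : charDegree χ = a)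
    (h3 : ∀ χ ψ φ, IsIrrCharacter G χ → IsIrrCharacter G ψ → IsIrrCharacter G φ →
      charDegree χ = a → charDegree ψ = b → classInner (χ * ψ) φ ≠ 0 → charDegree φ = b)
    (hψ : IsIrrCharacter G ψ) (h2 : charDegree ψ = b) (h4 : ∀ g, χ g = χ 1 → ψ g = ψ 1) : False := by
  classical
  let Θ : G → ℂ := ∑ φ : IrrCharacter G, (if charDegree φ.1 = b then φ.1 1 else 0) • φ.1
  have a1 : IsClassFunction G Θ := fun x y => by
    simp only [Θ, Finset.sum_apply, Pi.smul_apply]
    exact Finset.sum_congr rfl fun φ _ => by rw [φ.2.isClassFunction]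
  have a2 : ∀ φ : IrrCharacter G, classInner Θ φ = if charDegree φ.1 = b then φ.1 1 else 0 :=
    classInner_sum_irr _
  have a3 : ∀ g, Θ g * χ g = χ 1 * Θ g := fun g => by
    have b1 : IsClassFunction G (Θ * χ) := fun x y => by
      rw [Pi.mul_apply, Pi.mul_apply, a1, hχ.isClassFunction]
    rw [← Pi.mul_apply, b1.apply_eq_sum_irr, a1.apply_eq_sum_irr g, Finset.mul_sum]
    refine Finset.sum_congr rfl fun φ _ => ?_
    rw [← mul_assoc, a2, classInner_mul_left, classInner_sum_left]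
    have b2 := hχ.conj.isCharacter.mul φ.2.isCharacter
    congr 1
    split_ifs with c
    · rw [← conj_apply_one hχ.isCharacter, show conj (χ 1) * φ.1 1 = _ from
        b2.isClassFunction.apply_eq_sum_irr 1]
      refine Finset.sum_congr rfl fun η _ => ?_
      rw [classInner_smul_left, η.2.isCharacter.classInner_comm b2, mul_comm]
      split_ifs with d
      · rfl
      · rw [mul_zero, of_not_not fun e => d (h3 _ _ _ hχ.conj φ.2 η.2
          ((deg_conj3 hχ.isCharacter).trans h1) c e), zero_mul]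
    · rw [mul_zero]
      refine Finset.sum_eq_zero fun η _ => ?_
      rw [classInner_smul_left, ← classInner_mul_left, mul_comm η.1]
      split_ifs with d
      · rw [of_not_not fun e => c (h3 _ _ _ hχ η.2 φ.2 h1 d e), mul_zero]
      · rw [zero_mul]
  have a4 : classInner Θ ψ = classInner Θ (ψ 1 • fun _ => 1) := by
    unfold classInner
    refine congrArg _ (Finset.sum_congr rfl fun g _ => ?_)
    by_cases c : Θ g = 0
    · simp [c]
    · simp [h4 g (mul_left_cancel₀ c ((a3 g).trans (mul_comm _ _)))]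
  rw [classInner_smul_right, a2 ⟨ψ, hψ⟩, a2 ⟨_, isIrr_one⟩, if_pos h2, if_neg (deg_one.trans_ne hb.symm),
    mul_zero] at a4
  exact hψ.apply_one_ne_zero a4

theorem comm_eq_bot3 (h : C3 G a b) (hab : a.Coprime b) (hlt : a < b)
    (hL : ⁅commutator G, commutator G⁆ = commutator G) : commutator G = ⊥ := by
  by_cases c : ∃ χ, IsIrrCharacter G χ ∧ charDegree χ = a ∧ a ≠ 1
  swap
  · refine hL ▸ der2_of_cd_two (m := b) fun χ hχ => (h χ hχ).elim .inl fun d => d.imp_left fun e =>
      by_contra fun f => c ⟨χ, hχ, e, e ▸ f⟩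
  obtain ⟨χ, hχ, h1, ha⟩ := c
  have a0 := h1 ▸ charDegree_pos hχ
  haveI := hχ.isCharacter.charKer_normal
  have a1 := der2_of_cd_two (G := G ⧸ charKer χ) (m := a) fun β hβ => (h.quot _ β hβ).imp_right
    fun d => d.resolve_right fun e => sub2 h (by omega) hχ h1 (fun χ ψ φ hχ hψ hφ h1 h2 h3 => by
      obtain ⟨s, t, e1, e2, e3⟩ := split3 (hχ.isCharacter.mul hψ.isCharacter) fun l d1 d2 =>
        (h l d1).resolve_left fun d3 => hlt.ne' (by
          rw [← h2, eq_of_lin3 hχ hψ d1 d3 d2, ← h1, ← deg_conj3 hχ.isCharacter, ← one_mul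
            (charDegree fun g => conj (χ g)), ← d3]
          exact deg_mul3 d1.isCharacter hχ.conj.isCharacter)
      rw [deg_mul3 hχ.isCharacter hψ.isCharacter, h1, h2] at e1
      refine e3 (by_contra fun c => sub1 h hab hlt ha hL hχ hψ h1 h2 (e2 ?_)) φ hφ h3
      have := Nat.le_of_dvd (Nat.pos_of_ne_zero c) (hab.symm.dvd_of_dvd_mul_left
        ((Nat.dvd_add_left (dvd_mul_right b t)).1 (e1 ▸ dvd_mul_left b a)))
      by_contra f
      have := Nat.pos_of_ne_zero f
      nlinarith) (irr_inflate hβ) e fun g hg => by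
        rw [(QuotientGroup.eq_one_iff g).2 (hχ.isCharacter.mem_charKer.2 hg)]; rfl
  refine absurd (h1 ▸ (charDegree_eq_one hχ.isCharacter).2 (lin_of_comm hχ fun g hg =>
    hχ.isCharacter.mem_charKer.1 ((QuotientGroup.eq_one_iff g).1 (mem_bot.1 (a1 ▸ ?_))))) ha
  rw [comm_quot3, ← map_commutator, hL]
  exact mem_map_of_mem _ hg

end CfsgH4
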