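import Cfsg.Agent.H4.Cd3a

/-! Just non-abelian quotients, split extensions and Taketa's argument. -/

set_option autoImplicit false

open Cfsg CfsgH3 CfsgH1 CfsgCd Function Subgroup
open CfsgH2 hiding cj cj_apply isPGroup_pCore le_pCore isNilpotent_map card_mul_relIndex
open scoped ComplexConjugate commutatorElement CfsgH2

namespace CfsgH4

variable {G : Type*} [Group G] [Finite G] {χ ψ ξ θ : G → ℂ} {a b : ℕ} {H K D Y : Subgroup G}

theorem cases3 (h0 : ¬ commutator G ≤ ⁅commutator G, commutator G⁆) : ∃ p : ℕ, p.Prime ∧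
    ((p ∣ (commutator G).index ∧ ∃ k ≠ 0, ∀ χ, IsIrrCharacter G χ → ¬ p ∣ charDegree χ →
      ∃ ξ, IsIrrCharacter G ξ ∧ charDegree ξ = p ^ k * charDegree χ) ∨
    ∃ N : Subgroup G, N.Normal ∧ commutator G ≤ N ∧ N ≠ ⊤ ∧ ¬ p ∣ N.index ∧
      ∀ ψ, IsIrrCharacter N ψ → ¬ p ∣ charDegree ψ →
        ∃ ξ, IsIrrCharacter G ξ ∧ charDegree ξ = N.index * charDegree ψ) := by
  haveI := Fintype.ofFinite G
  obtain ⟨K, ⟨hK, h00, h01⟩, hm⟩ := (wellFounded_gt (α := Subgroup G)).has_min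
    {K | K.Normal ∧ ⁅commutator G, commutator G⁆ ≤ K ∧ ¬ commutator G ≤ K}
    ⟨_, inferInstance, le_rfl, h0⟩
  have h1 : commutator (G ⧸ K) ≠ ⊥ := fun c => h01 (by
    rwa [comm_quot3, Subgroup.map_eq_bot_iff, QuotientGroup.ker_mk'] at c)
  have h2 : ∀ M : Subgroup (G ⧸ K), M.Normal → M ≠ ⊥ → commutator (G ⧸ K) ≤ M := fun M hM hM0 => by
    rw [comm_quot3, map_le_iff_le_comap]
    by_contra c
    have e := (QuotientGroup.ker_mk' K).ge.trans (ker_le_comap (QuotientGroup.mk' K) M)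
    refine hm _ ⟨hM.comap _, h00.trans e, c⟩ (lt_of_le_of_ne e fun c => hM0 ?_)
    rw [← map_comap_eq_self_of_surjective (QuotientGroup.mk'_surjective K) M, ← c,
      Subgroup.map_eq_bot_iff, QuotientGroup.ker_mk']
  haveI : Group.IsSolvable (G ⧸ K) := ⟨2, by
    rw [← map_derivedSeries_eq (QuotientGroup.mk'_surjective K), Subgroup.map_eq_bot_iff,
      QuotientGroup.ker_mk']
    exact h00⟩
  obtain ⟨hab, p, hp, hpV, h3⟩ := just_nonab h1 h2
  haveI := Fact.mk hp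
  let N := (commutator (G ⧸ K)).comap (QuotientGroup.mk' K)
  have hKN : K ≤ N := (QuotientGroup.ker_mk' K).ge.trans (ker_le_comap _ _)
  haveI : Nontrivial (G ⧸ K) := not_subsingleton_iff_nontrivial.1 fun _ => h1 (Subsingleton.elim _ _)
  have hi : N.index = (commutator (G ⧸ K)).index :=
    index_comap_of_surjective _ (QuotientGroup.mk'_surjective K)
  have hi1 : N.index ≠ 1 := by
    rw [hi, Ne, index_eq_one]
    exact (IsSolvable.commutator_lt_top_of_nontrivial _).ne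
  have hc : commutator G ≤ N := commutator_le.2 fun a _ b _ =>
    commutator_mem_commutator (mem_top (a : G ⧸ K)) (mem_top (b : G ⧸ K))
  refine ⟨p, hp, ?_⟩
  rcases h3 with ⟨h3, -⟩ | h3
  · obtain ⟨v, hv, hv1⟩ := (bot_or_exists_ne_one _).resolve_left h1
    obtain ⟨β, hβ, hv2⟩ := exists_irr_ne hv1
    obtain ⟨k, hk⟩ := deg_pow_of_pgroup h3 hβ
    obtain ⟨j, hj⟩ := h3.index (commutator (G ⧸ K))
    refine .inl ⟨((dvd_pow_self p fun e => hi1 (by rw [hi, hj, e, pow_zero])).trans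
      (hi.trans hj).symm.dvd).trans (index_dvd_of_le hc), k, fun h => hv2 ?_, fun χ hχ hd => ?_⟩
    · have h6 := (charDegree_eq_one hβ.isCharacter).1 (by rw [hk, h, pow_zero])
      rw [lin_comm hβ.isCharacter h6 hv, h6]
    refine ⟨_, isIrr_mul_of_restrict_irr hχ.isCharacter (restrict_irr_of_coprime (N := K) hχ
      (coe_charDegree hχ.isCharacter).symm (coprime_of_pgroup h3 hd)) (irr_inflate hβ) fun n hn => by
        rw [(QuotientGroup.eq_one_iff n).2 hn, QuotientGroup.mk_one], charDegree_eq ?_⟩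
    rw [Nat.cast_mul, ← hk, coe_charDegree hβ.isCharacter, coe_charDegree hχ.isCharacter]; rfl
  refine .inr ⟨N, inferInstance, hc, mt index_eq_one.2 hi1, fun e => ?_, fun ψ hψ hd => ?_⟩
  · have a1 : IsPGroup p (commutator (G ⧸ K)) := isPGroup_of_exp hpV
    obtain ⟨S, a2, a3⟩ := exists_syl_ge a1 le_top
    obtain ⟨x, a4, a5⟩ := SetLike.exists_of_lt (a3.lt_of_ne fun c => a2.nd (by
      rwa [← c, relIndex_top_right, ← hi]))
    obtain ⟨v, hv, a6⟩ := (bot_or_exists_ne_one _).resolve_left (inf_cent_ne_bot' a2.pg a1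
      (le_top.trans (normalizer_eq_top _).ge) h1)
    let F : commutator (G ⧸ K) → commutator (G ⧸ K) := fun w =>
      ⟨w * x * w⁻¹ * x⁻¹, commutator_mem_commutator (mem_top _) (mem_top _)⟩
    refine a6 (congrArg Subtype.val (Finite.injective_iff_surjective.2 (fun v => ?_ : Surjective F)
      (Subtype.ext ?_ : F ⟨v, hv.1⟩ = F 1)))
    · obtain ⟨w, hw, e⟩ := h3 x a5 v v.2
      exact ⟨⟨w, hw⟩, Subtype.ext e.symm⟩
    · simp [F, ← hv.2 x a4]
  exact frob_deg (K := K) (N := N) hc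
    (fun c => h1 (eq_bot_iff.2 fun v hv => by
      obtain ⟨v, rfl⟩ := QuotientGroup.mk_surjective v
      exact (QuotientGroup.eq_one_iff v).2 (c hv)))
    (fun a ha b hb => (QuotientGroup.eq_one_iff _).1
      (commutatorElement_eq_one_iff_mul_comm.2 (hab _ ha _ hb)))
    (fun x hx v hv => by
      obtain ⟨w, hw, e⟩ := h3 x hx v hv
      obtain ⟨w, rfl⟩ := QuotientGroup.mk_surjective w
      exact ⟨w, hw, QuotientGroup.eq.1 e⟩) hψ
    (restrict_irr_of_coprime hψ (coe_charDegree hψ.isCharacter).symm (coprime_of_pgroup (fun v => ⟨1, by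
      obtain ⟨v, rfl⟩ := QuotientGroup.mk_surjective v
      rw [pow_one]
      exact (QuotientGroup.eq_one_iff (v ^ p)).2
        ((QuotientGroup.eq_one_iff ((v : G) ^ p)).1 (hpV _ v.2))⟩) hd))

theorem le_of_index3 (h : ∀ χ, IsIrrCharacter G χ → charDegree χ < H.index → ∀ x ∈ K, χ x = χ 1) :
    K ≤ H := by
  haveI := Fintype.ofFinite G
  haveI := Fintype.ofFinite H
  intro x hx
  have hI : IsCharacter G (indFun H fun _ => 1) := isCharacter_one.ind
  refine (mem_of_indFun_apply_eq isCharacter_one one_ne_zero ?_).1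
  rw [hI.isClassFunction.apply_eq_sum_irr, hI.isClassFunction.apply_eq_sum_irr 1]
  refine Finset.sum_congr rfl fun ψ _ => ?_
  by_cases h1 : classInner (indFun H fun _ => 1) ψ = 0
  · rw [h1, zero_mul, zero_mul]
  rcases lt_or_ge (charDegree ψ.1) H.index with h2 | h2
  · rw [h _ ψ.2 h2 x hx]
  have h4 := indFun_eq_of_le isCharacter_one ψ.2 (by
    rwa [classInner_indFun_left _ ψ.2.isClassFunction, classInner_eq_zero_comm] at h1)
    (by rwa [deg_one, mul_one])
  rw [ψ.2.eq_of_classInner_ne_zero isIrr_one (by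
    rw [← h4, classInner_indFun_left _ (isClassFunction_const 1), isIrr_one.classInner_self]
    exact one_ne_zero)]

theorem lin_ker3 (hχ : IsIrrCharacter G χ) (h : charDegree χ = 1) : ∀ x ∈ commutator G, χ x = χ 1 :=
  fun _ hx => have := (charDegree_eq_one hχ.isCharacter).1 h
    (lin_comm hχ.isCharacter this hx).trans this.symm

theorem tak_step [Fintype G] [K.Normal] (hχ : IsMonomial χ)
    (h : ∀ ψ, IsIrrCharacter G ψ → charDegree ψ < charDegree χ → ∀ x ∈ K, ψ x = ψ 1) :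
    ∀ x ∈ ⁅K, K⁆, χ x = χ 1 := by
  obtain ⟨H, l, rfl⟩ := hχ
  have hl := (isIrr_of_unitsHom l).isCharacter
  refine fun x => der2_le_ker hl (by simp) (le_of_index3 fun ψ hψ e => h ψ hψ ?_)
  rwa [deg_indFun hl, (charDegree_eq_one hl).2 (by simp), mul_one]

theorem tak3 [Fintype G] (h : C3 G a b) (hm : ∀ χ : G → ℂ, IsIrrCharacter G χ → IsMonomial χ) :
    derivedSeries G 3 = ⊥ := by
  wlog hab : a ≤ b generalizing a b
  · exact this h.symm (by omega)
  refine eq_bot_iff.2 fun x hx => eq_one_of_forall_irr fun χ hχ => tak_step (hm χ hχ)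
    (fun ψ hψ e => tak_step (hm ψ hψ) fun φ hφ e' => lin_ker3 hφ ?_) x hx
  have := h χ hχ
  have := h ψ hψ
  have := h φ hφ
  have := charDegree_pos hφ
  omega

theorem nsq3 {p : ℕ} [hp : Fact p.Prime] [D.Normal] (h : IsPGroup p (G ⧸ D)) : NSq D := by
  intro H K L h1 h2 h3 h4 h5 h6
  have a1 : H ≤ N[L] := fun x hx => mem_normalizer_fintype (h5 x hx)
  have a2 : H ≤ N[K] := fun x hx => mem_normalizer_fintype (h4 x hx)
  have a3 : ∀ X, IsPGroup p (qt L X) := fun X => isPGroup_of_forall fun y hy => by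
    obtain ⟨x, -, rfl⟩ := mem_qt.1 hy
    obtain ⟨k, hk⟩ := h (x : G)
    exact ⟨k, by rw [← map_pow, qmk_eq_one]; exact h1 ((QuotientGroup.eq_one_iff _).1 hk)⟩
  obtain ⟨z, a4⟩ := exists_prime_orderOf_dvd_card' p (dvd_card_of_pgroup ((a3 K).to_inf_left)
    (inf_cent_ne_bot' (a3 H) (a3 K) (qt_le_norm a2) (mt (qt_eq_bot (h3.trans a1)).1 h2.not_ge)))
  have a5 : H ≤ N[qc L (zpowers z.1)] := le_norm_qc a1 (le_norm_of_le_cent
    (Subgroup.le_centralizer_iff.1 (zpowers_le.2 z.2.2)))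
  have a6 : L.relIndex (qc L (zpowers z.1)) = p := by rw [relIndex_qc, Nat.card_zpowers, orderOf_coe, a4]
  rcases h6 _ le_qc (qc_le (h3.trans a1) h2.le (zpowers_le.2 z.2.1))
    fun x hx m hm => conj_mem_of_mem_normalizer (a5 hx) hm with e | e
  · rw [e, relIndex_self] at a6; exact absurd a6 hp.out.one_lt.ne
  · rw [← e, a6]; exact hp.out.prime.not_isSquare

theorem index_split3 [hD : D.Normal] (h1 : D ⊓ Y = ⊥) (h2 : D ⊔ Y = ⊤) (μ : D →* ℂˣ) :
    ∃ ν : inertia (fun d => (μ d : ℂ)) →* ℂˣ,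
      ∀ d : D, ν ⟨d, le_inertia (isIrr_of_unitsHom μ).isClassFunction d.2⟩ = μ d := by
  have a1 : ∀ g : G, ∃ d : D, (d : G)⁻¹ * g ∈ Y := fun g => by
    obtain ⟨d, hd, y, hy, rfl⟩ := (mem_sup_of_norm' (le_top.trans (normalizer_eq_top D).ge)).1
      (h2.ge (mem_top g))
    exact ⟨⟨d, hd⟩, by simpa using hy⟩
  choose c hc using a1
  have a2 : ∀ (g : G) (d : D), (d : G)⁻¹ * g ∈ Y → c g = d := fun g d h => by
    have : ((c g : G)⁻¹ * d) ∈ D ⊓ Y := ⟨D.mul_mem (D.inv_mem (c g).2) d.2, by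
      simpa [mul_assoc] using mul_mem (hc g) (inv_mem h)⟩
    exact Subtype.ext (inv_mul_eq_one.1 (mem_bot.1 (h1 ▸ this)))
  refine ⟨MonoidHom.mk' (fun t => μ (c t)) fun s t => ?_, fun d => congrArg μ (a2 _ _ (by simp))⟩
  have a3 := mem_inertia'.1 (mul_mem (inv_mem (le_inertia (isIrr_of_unitsHom μ).isClassFunction
    (c s).2)) s.2) (c t)
  rw [← Units.val_injective a3, ← map_mul]
  refine congrArg μ (a2 _ _ ?_)
  convert mul_mem (hc s) (hc t) using 1
  simp only [coe_mul]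
  group

variable {g : ℕ}

theorem index_eq3 [hD : D.Normal] (h1 : D ⊓ Y = ⊥) (h2 : D ⊔ Y = ⊤)
    (h : ∀ χ, IsIrrCharacter G χ → (∃ x ∈ D, χ x ≠ χ 1) → charDegree χ = g) {μ : D →* ℂˣ}
    (h3 : μ ≠ 1) : (inertia fun d => (μ d : ℂ)).index = g := by
  haveI := Fintype.ofFinite G
  haveI := Fintype.ofFinite D
  obtain ⟨ν, a1⟩ := index_split3 h1 h2 μ
  have a2 := isIrr_of_unitsHom μ
  have a3 := isIrr_of_unitsHom ν
  obtain ⟨x, hx⟩ := DFunLike.ne_iff.1 h3
  rw [← h _ (isIrr_indFun_of_over_inertia a2 rfl (le_inertia a2.isClassFunction) a3 (by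
    rw [show resLE _ _ = fun d => (μ d : ℂ) from funext fun d => congrArg _ (a1 d), a2.classInner_self]
    exact one_ne_zero)) ⟨x, x.2, fun e => hx (Units.val_injective (by
      simpa [a1] using (mem_of_indFun_apply_eq a3.isCharacter a3.apply_one_ne_zero e).2))⟩,
    deg_indFun a3.isCharacter, (charDegree_eq_one a3.isCharacter).2 (by simp), mul_one]

theorem comm_split3 [hD : D.Normal] [Group.IsSolvable D] (h1 : D ⊓ Y = ⊥) (h2 : D ⊔ Y = ⊤)
    (h : ∀ χ, IsIrrCharacter G χ → (∃ x ∈ D, χ x ≠ χ 1) → charDegree χ = g) :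
    commutator D = ⊥ := by
  haveI := Fintype.ofFinite G
  haveI := Fintype.ofFinite D
  by_contra h0
  obtain ⟨s, hs, a1, ω, a2, a3⟩ : ∃ s : ℕ, s.Prime ∧ s ∣ (commutator D).index ∧
      ∃ ω, IsIrrCharacter D ω ∧ s ∣ charDegree ω := by
    obtain ⟨p, hp, ⟨b1, k, b2, b3⟩ | ⟨N, -, b1, b2, -, b3⟩⟩ :=
      cases3 (IsSolvable.commutator_lt_of_ne_bot h0).not_ge
    · obtain ⟨ξ, c1, c2⟩ := b3 _ isIrr_one (by rw [deg_one]; exact hp.not_dvd_one)
      exact ⟨p, hp, b1, ξ, c1, c2 ▸ (dvd_pow_self p b2).mul_right _⟩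
    · obtain ⟨ξ, c1, c2⟩ := b3 _ isIrr_one (by rw [deg_one]; exact hp.not_dvd_one)
      obtain ⟨s, hs, c3⟩ := Nat.exists_prime_and_dvd (mt index_eq_one.1 b2)
      exact ⟨s, hs, c3.trans (index_dvd_of_le b1), ξ, c1, c2 ▸ c3.mul_right _⟩
  haveI := Fact.mk hs
  obtain ⟨χ, b1, b2⟩ := a2.exists_irr_over
  have b3 := (deg_dvd_of_over a2 b1 b2).1
  rw [h χ b1 (by
    by_contra! c
    rw [a2.eq_one_of_forall_eq fun x => (b1.isCharacter.restrict D).apply_eq_of_constituent a2 b2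
      (c x x.2), deg_one] at a3
    exact hs.not_dvd_one a3)] at b3
  obtain ⟨S, b4⟩ := exists_syl (p := s) (inertia ω)
  letI : MulAction S (D →* ℂˣ) :=
    { smul := fun x μ => μ.comp (MulAut.conjNormal (x : G)⁻¹).toMonoidHom
      one_smul := fun μ => MonoidHom.ext fun d => congrArg μ (Subtype.ext (by simp))
      mul_smul := fun x y μ => MonoidHom.ext fun d => congrArg μ (Subtype.ext (by simp [mul_assoc])) }
  obtain ⟨μ, c1, c2⟩ := b4.pg.exists_fixed_point_of_prime_dvd_card_of_fixed_point (D →* ℂˣ)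
    (card_unitsHom (G := D) ▸ a1) (a := 1) fun _ => rfl
  have c3 : S ≤ inertia fun d => (μ d : ℂ) := fun x hx => inv_mem_iff.1 (mem_inertia'.2 fun d =>
    congrArg Units.val (DFunLike.congr_fun (c1 ⟨x, hx⟩) d))
  have c4 := b3.trans (index_eq3 h1 h2 h c2.symm ▸ index_dvd_of_le c3)
  rw [← relIndex_mul_index b4.le, mul_comm] at c4
  exact b4.nd (a3.trans (Nat.dvd_of_mul_dvd_mul_right (Nat.pos_of_ne_zero index_ne_zero_of_finite) c4))

end CfsgH4
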