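import Cfsg.Agent.H4.Cy1
import Cfsg.Agent.H4.KW

/-! Fusion classes, orthogonality of contributions, columns of nilpotent blocks. -/

set_option autoImplicit false
open Cfsg MonoidAlgebra CfsgL0 CfsgH1 CfsgH4
open CfsgH3 hiding cj cj_cj
open scoped ComplexConjugate Pointwise

namespace CfsgH4

local notation "C[" Q "]" => Subgroup.centralizer (SetLike.coe (Q : Subgroup _))
local notation "N[" Q "]" => Subgroup.normalizer (SetLike.coe (Q : Subgroup _))
local notation "Z[" u "]" => Subgroup.zpowers u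

variable {G H : Type*} [Group G] [Finite G] [Group H] [Finite H] {p : ℕ} [hp : Fact p.Prime]

section Field
variable {F : Type*} [Field F] [CharP F p] {P : Subgroup G} {e : F[G]} {u v w : G}

variable (p P e) in
/-- Conjugacy of Brauer elements below a Brauer pair. -/
def FCl (u v : G) : Prop := ∃ g, Fuses p P e Z[u] g ∧ g * u * g⁻¹ = v

theorem FCl.mem (h : FCl p P e u v) : v ∈ P := let ⟨_, h1, h2⟩ := h; h2 ▸ h1.conj_mem

theorem FCl.symm (h : FCl p P e u v) : FCl p P e v u := by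
  obtain ⟨g, h1, rfl⟩ := h
  exact ⟨g⁻¹, cj_zpowers g u ▸ h1.inv, by group⟩

theorem FCl.trans (hP : Pr p P e) (h : FCl p P e u v) (h' : FCl p P e v w) : FCl p P e u w := by
  obtain ⟨g, h1, rfl⟩ := h
  obtain ⟨k, h2, rfl⟩ := h'
  exact ⟨k * g, h1.mul hP (by rwa [cj_zpowers]), by group⟩

theorem Pr.fCl_conj (hP : Pr p P e) (hu : u ∈ P) (hv : v ∈ P) : FCl p P e u (v * u * v⁻¹) :=
  ⟨v, hP.fuses (Subgroup.zpowers_le.2 hu) (hP.le_stab hv), rfl⟩

theorem Pr.fCl_refl (hP : Pr p P e) (hu : u ∈ P) : FCl p P e u u := by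
  simpa using hP.fCl_conj hu P.one_mem

theorem FCl.apply_eq {η : G → ℂ} (h : FCl p P e u v) (hη : FSt p P e η) : η v = η u :=
  let ⟨g, h1, h2⟩ := h; h2 ▸ hη u g h1

open Classical in
theorem Pr.fSt_ind (hP : Pr p P e) (u : G) :
    FSt p P e fun v => if FCl p P e u v then 1 else 0 := fun v g h => by
  have h1 : FCl p P e v (g * v * g⁻¹) := ⟨g, h, rfl⟩
  simp only [show FCl p P e u (g * v * g⁻¹) ↔ FCl p P e u v from
    ⟨fun h2 => h2.trans hP h1.symm, fun h2 => h2.trans hP h1⟩]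

open Classical in
theorem Pr.sum_fw [Fintype G] (hP : Pr p P e) {z : G} (hz : z ∈ P) :
    ∑ u with FCl p P e z u, fw p P e u = 1 := by
  rw [Finset.sum_congr rfl (g := fun _ => fw p P e z) fun u hu =>
    (Finset.mem_filter.1 hu).2.apply_eq hP.fSt_fw, Finset.sum_const, nsmul_eq_mul, fw,
    ← mul_div_assoc, div_eq_one_iff_eq
      (Nat.cast_ne_zero.2 (have : Nonempty {x // Fuses p P e Z[z] x} :=
        ⟨1, hP.fuses_of_cent (Subgroup.zpowers_le.2 hz) (one_mem _)⟩; Nat.card_pos.ne'))]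
  norm_cast
  rw [Nat.card_eq_fintype_card (α := {x // Fuses p P e Z[z] x}), Fintype.card_subtype,
    Finset.card_eq_sum_card_fiberwise (s := Finset.univ.filter fun x => Fuses p P e Z[z] x)
    (f := fun x => x * z * x⁻¹) (t := Finset.univ.filter fun u => FCl p P e z u)
    (fun x hx => by simpa using ⟨x, by simpa using hx, rfl⟩), ← smul_eq_mul, ← Finset.sum_const]
  refine Finset.sum_congr rfl fun u hu => ?_
  obtain ⟨x, h1, rfl⟩ := (Finset.mem_filter.1 hu).2
  rw [Nat.card_eq_fintype_card, Fintype.card_subtype]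
  refine Finset.card_bij (fun c _ => x * c) (fun c hc => ?_) (fun _ _ _ _ h => mul_left_cancel h)
    fun y hy => ⟨x⁻¹ * y, ?_, by simp⟩
  · have hc : c ∈ C[Z[z]] := (Finset.mem_filter.1 hc).2
    simp only [Finset.mem_filter, Finset.mem_univ, true_and]
    refine ⟨(hP.fuses_of_cent h1.le hc).mul hP ?_, ?_⟩
    · rwa [mem_normalizer_iff_cj.1 (cent_le_norm _ hc)]
    · rw [mul_assoc x, mem_cent_zpowers.1 hc]; group
  · simp only [Finset.mem_filter, Finset.mem_univ, true_and] at hy ⊢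
    refine mem_cent_zpowers.2 ?_
    calc x⁻¹ * y * z = x⁻¹ * (y * z * y⁻¹) * y := by group
      _ = _ := by rw [hy.2]; group

theorem Pr.fuses_of_inc {φ : H →* G} (hφ : Function.Injective φ) {S R : Subgroup H} {g : F[H]}
    (hS : Pr p S g) {x : H} (h1 : C[R.map φ] ≤ φ.range)
    (h : Fuses p (S.map φ) (inc φ g) (R.map φ) (φ x)) : Fuses p S g R x := by
  have h2 := (Subgroup.map_le_map_iff_of_injective hφ).1 h.le
  have h3 := (Subgroup.map_le_map_iff_of_injective hφ).1 (map_cj' φ x R ▸ h.cj_le)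
  have h4 : C[(cj x R).map φ] ≤ φ.range := by
    rw [map_cj']
    intro c hc
    have := mul_mem (mul_mem (⟨x, rfl⟩ : φ x ∈ φ.range) (h1 (conj_mem_cent_cj' _ _ c hc)))
      (inv_mem (⟨x, rfl⟩ : φ x ∈ φ.range))
    simpa [mul_assoc] using this
  have hP : Pr p (S.map φ) (inc φ g) :=
    (pr_inc_iff hφ ((cent_anti (Subgroup.map_mono h2)).trans h1)).2 hS
  obtain ⟨f, h5, h6⟩ := h
  refine ⟨_, hS.ple_dn h2, (hS.ple_iff h3).2 (inc_injective hφ ?_)⟩
  rw [← cnj_inc, hS.inc_dn h2 hφ h1, hS.inc_dn h3 hφ h4, ← h5.eq_dn hP, map_cj', ← h6.eq_dn hP]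

end Field

section PM
variable {M : Ideal AlgInt} [hM : PMod p M] [Fintype G] {P : Subgroup G} {e : (Res M)[G]}
  {B : Set (IrrCharacter G)} {χ : IrrCharacter G} {u v : G} {a c : G → ℂ}
include hM

open Classical in
theorem Pr.classInner_ind (hP : Pr p P e) (hu : u ∈ P) (ha : IsClassFunction G a)
    (hc : IsClassFunction G c) :
    classInner (bs p P e (fun v => if FCl p P e u v then 1 else 0) a) c = cP p P e a c u := by
  conv_rhs => rw [← one_mul (cP p P e a c u), ← hP.sum_fw hu, Finset.sum_mul, Finset.sum_filter]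
  rw [hP.classInner_bs (hP.fSt_ind u) ha hc, Finset.sum_filter]
  refine Finset.sum_congr rfl fun v _ => ?_
  by_cases h : FCl p P e u v
  · simp [h, h.mem, h.apply_eq (hP.fSt_cP ha hc)]
  · simp [h]

open Classical in
theorem Pr.sum_cP_mul (hP : Pr p P e) (hu : u ∈ P) (hv : v ∈ P) (ha : IsClassFunction G a)
    (hc : IsClassFunction G c) : ∑ ψ : IrrCharacter G, cP p P e a ψ.1 u * cP p P e ψ.1 c v =
      if FCl p P e u v then cP p P e a c u else 0 := by
  have h1 := (hP.fSt_ind u).isClassFunction ha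
  have h2 := (hP.fSt_ind v).isClassFunction hc
  have h3 := CfsgH3.Cfsg.IsClassFunction.classInner_eq_sum_irr h1
    (bs p P e (fun w => if FCl p P e v w then 1 else 0) c)
  rw [Finset.sum_congr rfl fun ψ _ => by
    rw [hP.classInner_ind hu ha ψ.2.isClassFunction, ← conj_classInner,
      hP.classInner_ind hv hc ψ.2.isClassFunction, hP.conj_cP hv hc ψ.2.isClassFunction]] at h3
  rw [← h3, (hP.fSt_ind v).classInner_adj h1 hc, (hP.fSt_ind u).bs_bs _ ha]
  split_ifs with h
  · rw [← hP.classInner_ind hu ha hc]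
    congr 2
    funext w
    by_cases h4 : FCl p P e u w
    · simp [h4, h.symm.trans hP h4]
    · simp [h4]
  · rw [show ((fun g => conj (if FCl p P e v g then (1 : ℂ) else 0)) *
      fun w => if FCl p P e u w then (1 : ℂ) else 0) = (0 : ℂ) • (1 : G → ℂ) from ?_, bs_smul_left,
      zero_smul, classInner_zero_left]
    funext w
    by_cases h4 : FCl p P e u w
    · simp [h4, show ¬ FCl p P e v w from fun h5 => h (h4.trans hP h5.symm)]
    · simp [h4]

theorem MaxPr.card_mul_cP_of_nil (hm : MaxPr p (eB M B) P e) (hn : Nil p (eB M B))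
    (hB : IsPBlock M B) (hχ : χ ∈ B) (h0 : blockHeight p B χ.1 = 0) (hu : u ∈ P) :
    Nat.card (P ⊓ C[Z[u]] : Subgroup G) * cP p P e χ.1 χ.1 u = 1 := by
  have h1 := hm.fw_mul_cP_of_nil hn hB hχ h0 hu
  rw [hm.fw_of_nil hn hu, div_mul_eq_mul_div, div_eq_iff (Nat.cast_ne_zero.2 Nat.card_pos.ne'),
    inv_mul_cancel₀ (Nat.cast_ne_zero.2 Nat.card_pos.ne')] at h1
  exact h1

theorem MaxPr.exists_theta (hm : MaxPr p (eB M B) P e) (hn : Nil p (eB M B)) (hB : IsPBlock M B)
    (hχ : χ ∈ B) (h0 : blockHeight p B χ.1 = 0) (ha : IsClassFunction G a) :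
    ∃ θ : P → ℂ, IsClassFunction P θ ∧ (IsGeneralizedCharacter G a → IsGeneralizedCharacter P θ) ∧
      ∀ c (u : P), cP p P e a c u = θ u * cP p P e χ.1 c u := by
  classical
  have := Fintype.ofFinite P
  obtain ⟨Φ, h⟩ := hm.nil_structure hn hB hχ h0
  refine ⟨∑ η : IrrCharacter P, classInner a (Φ η).1.1 • η.1, fun x y => by
    simp only [Finset.sum_apply, Pi.smul_apply, fun η : IrrCharacter P => η.2.isClassFunction x y],
    fun hg => isGen_sum _ _ fun η _ => ?_,
    fun c u => ?_⟩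
  · obtain ⟨n, hn⟩ := hg.exists_int_classInner (Φ η).1.2.isGen
    rw [hn]
    exact η.2.isGen.intCast_smul n
  conv_lhs => rw [ha.eq_sum_irr]
  rw [cP_sum_left, Finset.sum_apply, Finset.sum_mul, ← Finset.sum_subset (Finset.filter_subset
    (· ∈ B) _) fun ψ _ h1 => by
      rw [hm.cP_of_notMem hB (by simpa using h1) u.2, mul_zero],
    Finset.sum_subtype (p := (· ∈ B)) _ (by simp), ← Φ.sum_comp]
  refine Finset.sum_congr rfl fun η _ => ?_
  rw [(h η).1, hm.pr.cP_left (hm.fSt_ext_of_nil hn η.2.isClassFunction) u.2 χ.2.isClassFunction,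
    extendByZero_coe, Pi.smul_apply, smul_eq_mul, mul_assoc]

end PM

end CfsgH4
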