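import Cfsg.Agent.H4.Di0
import Cfsg.Agent.H4.Cy4
import Cfsg.Agent.H4.G2

/-! Blocks with dihedral defect groups: the columns on the cyclic maximal subgroup. -/

set_option autoImplicit false
open Cfsg MonoidAlgebra CfsgL0 CfsgH1 CfsgH4
open CfsgH3 hiding cj cj_cj
open scoped ComplexConjugate Pointwise

namespace CfsgH4

local notation "C[" Q "]" => Subgroup.centralizer (SetLike.coe (Q : Subgroup _))
local notation "N[" Q "]" => Subgroup.normalizer (SetLike.coe (Q : Subgroup _))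
local notation "Z[" u "]" => Subgroup.zpowers u

variable {G H : Type*} [Group G] [Group H] {P Q : Subgroup G} {x y u v g : G} {n : ℕ}

/-- `P` is dihedral of order `2 ^ (n + 3)` with rotation subgroup generated by `x`. -/
structure Dh (P : Subgroup G) (x : G) (n : ℕ) : Prop where
  mem : x ∈ P
  ord : orderOf x = 2 ^ (n + 1 + 1)
  idx : (Z[x]).relIndex P = 2
  out : ∀ y ∈ P, y ∉ Z[x] → y * y = 1 ∧ y * x * y⁻¹ = x⁻¹

theorem dh_of_equiv [Finite G] (e : P ≃* DihedralGroup (2 ^ (n + 1 + 1))) (hx : x ∈ P)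
    (ho : orderOf x = 2 ^ (n + 1 + 1)) : Dh P x n := by
  haveI : NeZero (2 ^ (n + 1 + 1)) := ⟨by positivity⟩
  have hc : Nat.card P = 2 ^ (n + 1 + 1) * 2 := by
    rw [Nat.card_congr e.toEquiv, DihedralGroup.nat_card, mul_comm]
  have hi : (Z[x]).relIndex P = 2 := by
    have := CfsgH2.card_mul_relIndex (Subgroup.zpowers_le.2 hx)
    rw [Nat.card_zpowers, ho, hc] at this
    exact Nat.eq_of_mul_eq_mul_left (by positivity) this
  obtain ⟨i, hi'⟩ : ∃ i, e ⟨x, hx⟩ = DihedralGroup.r i := by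
    rcases he : e ⟨x, hx⟩ with i | i
    · exact ⟨i, rfl⟩
    · have := e.orderOf_eq ⟨x, hx⟩
      rw [he, DihedralGroup.orderOf_sr, Subgroup.orderOf_mk, ho, pow_succ, pow_succ] at this
      have := Nat.one_le_two_pow (n := n)
      omega
  have h2 : ∀ j, DihedralGroup.r j ∈ Z[DihedralGroup.r i] := by
    have h3 : Z[DihedralGroup.r i] = Z[(DihedralGroup.r 1 : DihedralGroup (2 ^ (n + 1 + 1)))] := by
      refine Subgroup.eq_of_le_of_card_ge (Subgroup.zpowers_le.2 ?_) ?_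
      · obtain ⟨k, rfl⟩ := ZMod.natCast_zmod_surjective i
        rw [← DihedralGroup.r_one_pow]
        exact pow_mem (Subgroup.mem_zpowers _) _
      · rw [Nat.card_zpowers, Nat.card_zpowers, DihedralGroup.orderOf_r_one, ← hi',
          e.orderOf_eq, Subgroup.orderOf_mk, ho]
    intro j
    obtain ⟨k, rfl⟩ := ZMod.natCast_zmod_surjective j
    rw [h3, ← DihedralGroup.r_one_pow]
    exact pow_mem (Subgroup.mem_zpowers _) _
  refine ⟨hx, ho, hi, fun y hy h => ?_⟩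
  rcases he : e ⟨y, hy⟩ with j | j
  · obtain ⟨k, hk⟩ := h2 j
    refine absurd ⟨k, congrArg Subtype.val (e.injective (a₁ := ⟨x, hx⟩ ^ k) (a₂ := ⟨y, hy⟩) ?_)⟩ h
    rw [map_zpow, hi', he]
    exact hk
  · have e1 : (⟨y, hy⟩ : P) * ⟨y, hy⟩ = 1 := e.injective (by rw [map_mul, he]; simp)
    have e2 : (⟨y, hy⟩ : P) * ⟨x, hx⟩ * (⟨y, hy⟩ : P)⁻¹ = (⟨x, hx⟩ : P)⁻¹ := e.injective (by
      rw [map_mul, map_mul, map_inv, map_inv, he, hi']; simp)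
    exact ⟨congrArg Subtype.val e1, congrArg Subtype.val e2⟩

theorem exists_dh [Finite G] (e : P ≃* DihedralGroup (2 ^ (n + 1 + 1))) : ∃ x, Dh P x n := by
  haveI : NeZero (2 ^ (n + 1 + 1)) := ⟨by positivity⟩
  exact ⟨_, dh_of_equiv e (e.symm (DihedralGroup.r 1)).2 (by
    rw [Subgroup.orderOf_coe, MulEquiv.orderOf_eq, DihedralGroup.orderOf_r_one])⟩

namespace Dh
variable (h : Dh P x n)
include h

theorem le : Z[x] ≤ P := Subgroup.zpowers_le.2 h.mem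

theorem z_mem : x ^ 2 ^ (n + 1) ∈ Z[x] := pow_mem (Subgroup.mem_zpowers x) _

theorem z_sq : x ^ 2 ^ (n + 1) * x ^ 2 ^ (n + 1) = 1 := CfsgH2.half_sq h.ord

theorem z_ne : x ^ 2 ^ (n + 1) ≠ 1 := CfsgH2.half_ne_one h.ord

theorem eq_z (hu : u ∈ Z[x]) (h1 : u ≠ 1) (h2 : u * u = 1) : u = x ^ 2 ^ (n + 1) :=
  (CfsgH2.eq_half_of_sq h.ord hu h2).resolve_left h1

theorem ord_z : orderOf (x ^ 2 ^ (n + 1)) = 2 := orderOf_eq_prime (by rw [sq, h.z_sq]) h.z_ne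

theorem mem_of_sq (hu : u ∈ P) (h1 : u * u ≠ 1) : u ∈ Z[x] :=
  by_contra fun h2 => h1 (h.out u hu h2).1

theorem inverts (hy : y ∈ P) (h1 : y ∉ Z[x]) (hu : u ∈ Z[x]) : y * u * y⁻¹ = u⁻¹ := by
  obtain ⟨k, rfl⟩ := hu
  simp only [← conj_zpow, (h.out y hy h1).2, inv_zpow]

omit h in
theorem comm (hy : y ∈ Z[x]) (hu : u ∈ Z[x]) : y * u * y⁻¹ = u := by
  obtain ⟨k, rfl⟩ := hu
  obtain ⟨l, rfl⟩ := hy
  group

theorem conj_or (hy : y ∈ P) (hu : u ∈ Z[x]) : y * u * y⁻¹ = u ∨ y * u * y⁻¹ = u⁻¹ := by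
  by_cases h1 : y ∈ Z[x]
  exacts [Or.inl (comm h1 hu), Or.inr (h.inverts hy h1 hu)]

theorem le_cent : P ≤ C[Z[x ^ 2 ^ (n + 1)]] := fun y hy => mem_cent_zpowers.2 (by
  rw [← mul_inv_eq_iff_eq_mul]
  exact (h.conj_or hy h.z_mem).elim id fun h1 => h1.trans (inv_eq_of_mul_eq_one_right h.z_sq))

theorem exists_out : ∃ y ∈ P, y ∉ Z[x] := SetLike.not_le_iff_exists.1 fun l => by
  have := h.idx
  rw [Subgroup.relIndex_eq_one.2 l] at this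
  omega

theorem inf_cent (hu : u ∈ Z[x]) (h1 : u * u ≠ 1) : P ⊓ C[Z[u]] = Z[x] := by
  refine le_antisymm (fun y hy => by_contra fun h2 => h1 ?_) (le_inf h.le fun y hy =>
    mem_cent_zpowers.2 (mul_inv_eq_iff_eq_mul.1 (comm hy hu)))
  have := h.inverts hy.1 h2 hu
  rw [mem_cent_zpowers.1 hy.2, mul_inv_cancel_right] at this
  exact mul_eq_one_iff_eq_inv.2 this

theorem subgroupOf {K : Subgroup G} (hK : P ≤ K) : Dh (P.subgroupOf K) ⟨x, hK h.mem⟩ n := by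
  have h1 : ∀ y : K, y ∈ Z[(⟨x, hK h.mem⟩ : K)] ↔ (y : G) ∈ Z[x] := fun y =>
    ⟨fun ⟨k, hk⟩ => ⟨k, by simpa using congrArg Subtype.val hk⟩,
      fun ⟨k, hk⟩ => ⟨k, Subtype.ext (by simpa using hk)⟩⟩
  refine ⟨h.mem, by rw [Subgroup.orderOf_mk, h.ord], ?_, fun y hy h2 => ?_⟩
  · rw [show Z[(⟨x, hK h.mem⟩ : K)] = (Z[x]).subgroupOf K from Subgroup.ext h1,
      Subgroup.relIndex_subgroupOf hK, h.idx]
  · have := h.out y hy fun h3 => h2 ((h1 y).2 h3)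
    exact ⟨Subtype.ext this.1, Subtype.ext this.2⟩

variable [Finite G]

theorem card : Nat.card P = 2 ^ (n + 3) := by
  rw [← CfsgH2.card_mul_relIndex h.le, Nat.card_zpowers, h.ord, h.idx, ← pow_succ]

theorem pgrp : IsPGroup 2 P := IsPGroup.of_card h.card

theorem z_le (hu : u ∈ Z[x]) (h1 : u ≠ 1) : Z[x ^ 2 ^ (n + 1)] ≤ Z[u] :=
  zpowers_le_of_cyclic (h.pgrp.to_le h.le) inferInstance h.z_mem h.ord_z hu h1

theorem cent_le (hu : u ∈ Z[x]) (h1 : u ≠ 1) : C[Z[u]] ≤ C[Z[x ^ 2 ^ (n + 1)]] :=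
  cent_anti (h.z_le hu h1)

theorem mem_cent_of_conj (hu : u ∈ Z[x]) (h1 : u ≠ 1) (h2 : g * u * g⁻¹ ∈ Z[x]) :
    g ∈ C[Z[x ^ 2 ^ (n + 1)]] := by
  obtain ⟨k, hk⟩ := h.z_le hu h1 (Subgroup.mem_zpowers _)
  refine mem_cent_zpowers.2 (mul_inv_eq_iff_eq_mul.1 (h.eq_z ?_ ?_ ?_))
  · rw [← hk, ← conj_zpow]
    exact zpow_mem h2 _
  · simpa using h.z_ne
  · rw [conj_mul, h.z_sq]; simp

theorem mem_cent_of_odd (hQ : Q ≤ P) (hg : Odd (orderOf g)) (hn : g ∈ N[Q])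
    (hz : g ∈ C[Z[x ^ 2 ^ (n + 1)]]) : g ∈ C[Q] := by
  have h1 : ∀ u ∈ Q, u ∈ Z[x] → g * u * g⁻¹ ∈ Z[x] := fun u hu h2 => by
    by_cases h3 : u * u = 1
    · by_cases h4 : u = 1
      · simp [h4]
      · rw [h.eq_z h2 h4 h3, mem_cent_zpowers.1 hz, mul_inv_cancel_right]
        exact h.z_mem
    · refine h.mem_of_sq (hQ ((Subgroup.mem_normalizer_iff.1 hn u).1 hu)) ?_
      rw [conj_mul]
      simpa using h3
  have h2 : g ∈ C[Q ⊓ Z[x]] := mem_cent_of_odd_cyclic (h.pgrp.to_le (inf_le_left.trans hQ))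
    (Subgroup.isCyclic_of_le inf_le_right) hg (CfsgH2.mem_norm_of_conj fun u hu =>
      ⟨(Subgroup.mem_normalizer_iff.1 hn u).1 hu.1, h1 u hu.1 hu.2⟩)
  refine mem_cent_iff_conj.2 fun u hu => ?_
  by_cases h3 : u ∈ Z[x]
  · exact mem_cent_iff_conj.1 h2 u ⟨hu, h3⟩
  have h4 := (Subgroup.mem_normalizer_iff.1 hn u).1 hu
  have h5 : g * u * g⁻¹ * u⁻¹ ∈ Q ⊓ Z[x] := ⟨Q.mul_mem h4 (Q.inv_mem hu),
    mul_inv_mem_of_relIndex_two h.idx (hQ h4) (hQ hu) (fun h5 => h3 (by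
      have := mem_cent_iff_conj.1 (Subgroup.inv_mem _ h2) _ ⟨h4, h5⟩
      rw [inv_inv, show g⁻¹ * (g * u * g⁻¹) * g = u by group] at this
      rwa [this])) h3⟩
  obtain ⟨k, hk⟩ := h.pgrp ⟨_, hQ h5.1⟩
  exact mul_inv_eq_iff_eq_mul.2 (commute_of_odd_of_conj_eq (w := g * u * g⁻¹ * u⁻¹) hg (by group)
    (mul_inv_eq_iff_eq_mul.1 (mem_cent_iff_conj.1 h2 _ h5)) (congrArg Subtype.val hk)).eq

theorem nil {F : Type*} [Field F] [CharP F 2] {b e : F[G]} (hm : MaxPr 2 b P e)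
    (hz : ∀ g, g ∈ C[Z[x ^ 2 ^ (n + 1)]]) : Nil 2 b := fun Q f h1 h2 g hg h3 => by
  obtain ⟨t, ht⟩ := hm.exists_cnj_ple h1 h2
  have := conj_mem_cent_cj' Q t _ (h.mem_cent_of_odd (g := t * g * t⁻¹) ht.le (by
    rwa [show t * g * t⁻¹ = MulAut.conj t g from rfl, MulEquiv.orderOf_eq, Nat.odd_iff,
      ← Nat.two_dvd_ne_zero]) (mem_normalizer_iff_cj.2 (by
      rw [cj_cj, inv_mul_cancel_right, ← cj_cj, mem_normalizer_iff_cj.1 hg.1])) (hz _))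
  simpa [mul_assoc] using this

end Dh

section Pow
variable {N : ℕ} [NeZero N]

/-- The cyclic group of order `N` mapped onto the powers of an element. -/
def powHom (N : ℕ) [NeZero N] {x : G} (hx : x ^ N = 1) : Multiplicative (ZMod N) →* G :=
  MonoidHom.mk' (fun j => x ^ j.toAdd.val) fun i j => by
    rw [toAdd_mul, ZMod.val_add, ← pow_eq_pow_mod _ hx, pow_add]

theorem pow_val_add (hx : orderOf x = N) (i j : ZMod N) :
    x ^ (i + j).val = x ^ i.val * x ^ j.val := by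
  rw [ZMod.val_add, ← pow_eq_pow_mod _ (hx ▸ pow_orderOf_eq_one x), pow_add]

theorem pow_val_neg (hx : orderOf x = N) (i : ZMod N) : x ^ (-i).val = (x ^ i.val)⁻¹ :=
  eq_inv_of_mul_eq_one_left (by rw [← pow_val_add hx]; simp)

theorem pow_val_inj (hx : orderOf x = N) {i j : ZMod N} (h : x ^ i.val = x ^ j.val) : i = j :=
  ZMod.val_injective N (pow_injOn_Iio_orderOf (by simpa [hx] using i.val_lt)
    (by simpa [hx] using j.val_lt) h)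

theorem pow_val_ne (hx : orderOf x = N) {i : ZMod N} (h : i ≠ 0) : x ^ i.val ≠ 1 := fun h1 =>
  h (pow_val_inj hx (by simpa using h1))

theorem pow_val_natCast (hx : orderOf x = N) (k : ℕ) : x ^ (k : ZMod N).val = x ^ k := by
  rw [ZMod.val_natCast, ← hx, pow_mod_orderOf]

theorem exists_pow_val [Finite G] (hx : orderOf x = N) (hu : u ∈ Z[x]) :
    ∃ i : ZMod N, x ^ i.val = u := by
  obtain ⟨k, rfl⟩ := (mem_powers_iff_mem_zpowers).2 hu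
  exact ⟨k, pow_val_natCast hx k⟩

theorem pow_val_mem (i : ZMod N) : x ^ i.val ∈ Z[x] := pow_mem (Subgroup.mem_zpowers x) _

end Pow

variable [Finite G] {M : Ideal AlgInt} [hM : PMod 2 M] {e : (Res M)[G]} {B : Set (IrrCharacter G)}

variable (P e B x n) in
/-- The nilpotent block of the centralizer of the central involution. -/
structure DiL (β : Set (IrrCharacter C[Z[x ^ 2 ^ (n + 1)]]))
    (e' : (Res M)[C[Z[x ^ 2 ^ (n + 1)]]]) : Prop where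
  hm : MaxPr 2 (eB M B) P e
  hB : IsPBlock M B
  dh : Dh P x n
  hβ : IsPBlock M β
  ie_eq : ie M _ β = dn 2 Z[x ^ 2 ^ (n + 1)] P e
  inc_e : inc (C[Z[x ^ 2 ^ (n + 1)]]).subtype e' = e
  hm' : MaxPr 2 (eB M β) (P.subgroupOf C[Z[x ^ 2 ^ (n + 1)]]) e'

theorem Dh.exists_diL (h : Dh P x n) (hm : MaxPr 2 (eB M B) P e) (hB : IsPBlock M B) :
    ∃ β e', DiL P x n e B β e' := by
  obtain ⟨f', e', h1, h2, hm', -⟩ := hm.exists_loc (Subgroup.zpowers_le.2 (h.le h.z_mem)) h.le_cent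
  obtain ⟨β, hβ, rfl⟩ := hm'.blk.exists_eq_eB
  exact ⟨β, e', hm, hB, h, hβ, h1, h2, hm'⟩

variable (P e B x n) in
/-- The columns of generalized decomposition numbers on the rotation subgroup. -/
structure DiD [Fintype G] (f : (G → ℂ) → ZMod (2 ^ (n + 1 + 1)) → ℂ) : Prop where
  hm : MaxPr 2 (eB M B) P e
  hB : IsPBlock M B
  dh : Dh P x n
  sym : ∀ a, IsClassFunction G a → ∀ j, f a (-j) = f a j
  gen : ∀ a, IsGeneralizedCharacter G a →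
    IsGeneralizedCharacter (Multiplicative (ZMod (2 ^ (n + 1 + 1)))) fun j => f a j.toAdd
  cP_eq : ∀ a c, IsClassFunction G a → IsClassFunction G c → ∀ j, j ≠ 0 →
    Nat.card (P ⊓ C[Z[x ^ j.val]] : Subgroup G) * cP 2 P e a c (x ^ j.val) = f a j * conj (f c j)
  fcl : ∀ u ∈ Z[x], u ≠ 1 → ∀ v ∈ Z[x], FCl 2 P e u v → v = u ∨ v = u⁻¹
  isDef : ∀ u ∈ Z[x], u ≠ 1 → IsDef 2 C[Z[u]] (dn 2 Z[u] P e) (P ⊓ C[Z[u]])

namespace DiL
variable {β : Set (IrrCharacter C[Z[x ^ 2 ^ (n + 1)]])} {e' : (Res M)[C[Z[x ^ 2 ^ (n + 1)]]]}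
  (h : DiL P x n e B β e')
include h

theorem nil : Nil 2 (eB M β) := (h.dh.subgroupOf h.dh.le_cent).nil h.hm' fun g =>
  mem_cent_zpowers.2 (Subtype.ext (by simpa using mem_cent_zpowers.1 g.2))

theorem map_eq : (P.subgroupOf C[Z[x ^ 2 ^ (n + 1)]]).map (C[Z[x ^ 2 ^ (n + 1)]]).subtype = P :=
  Subgroup.map_subgroupOf_eq_of_le h.dh.le_cent

theorem fcl (hu : u ∈ Z[x]) (h1 : u ≠ 1) (hv : v ∈ Z[x]) (h2 : FCl 2 P e u v) :
    v = u ∨ v = u⁻¹ := by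
  obtain ⟨g, h2, rfl⟩ := h2
  have h3 := h.hm'.pr.fuses_of_inc (C[Z[x ^ 2 ^ (n + 1)]]).subtype_injective
    (R := Z[⟨u, h.dh.le_cent (h.dh.le hu)⟩]) (x := ⟨g, h.dh.mem_cent_of_conj hu h1 hv⟩)
    (by simpa [MonoidHom.map_zpowers] using h.dh.cent_le hu h1)
    (by rwa [h.map_eq, h.inc_e, MonoidHom.map_zpowers])
  obtain ⟨y, hy, h4⟩ := h.hm'.fuses_of_nil h.nil h3
  have h5 : g * u * g⁻¹ = y * u * (y : G)⁻¹ :=
    congrArg Subtype.val (h4 _ (Subgroup.mem_zpowers _))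
  exact h5 ▸ h.dh.conj_or hy hu

theorem cP_eq [Fintype G] [Fintype C[Z[x ^ 2 ^ (n + 1)]]] {u : C[Z[x ^ 2 ^ (n + 1)]]}
    (hu : (u : G) ∈ Z[x]) (h1 : (u : G) ≠ 1) (a c : G → ℂ) : cP 2 P e a c u =
      cP 2 (P.subgroupOf C[Z[x ^ 2 ^ (n + 1)]]) e' (fun g => a g) (fun g => c g) u := by
  have := h.hm'.pr.cP_inc (C[Z[x ^ 2 ^ (n + 1)]]).subtype_injective (v := u) (h.dh.le hu)
    (by simpa using h.dh.cent_le hu h1) a c
  rwa [h.map_eq, h.inc_e] at this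

omit [Finite G] h in
theorem map_inf {K : Subgroup G} (hK : P ≤ K) (u : K) :
    (P.subgroupOf K ⊓ C[Z[u]] : Subgroup K).map K.subtype = P ⊓ C[Z[(u : G)]] := by
  ext g
  refine ⟨?_, fun hg => ⟨⟨g, hK hg.1⟩, ⟨hg.1, ?_⟩, rfl⟩⟩
  · rintro ⟨g, hg, rfl⟩
    exact ⟨hg.1, fun y ⟨k, hk⟩ => by
      simpa [← hk] using congrArg Subtype.val (hg.2 (u ^ k) ⟨k, rfl⟩)⟩
  · rintro y ⟨k, rfl⟩
    exact Subtype.ext (by simpa using hg.2 _ ⟨k, rfl⟩)

omit [Finite G] h in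
theorem card_eq {K : Subgroup G} (hK : P ≤ K) (u : K) :
    Nat.card (P.subgroupOf K ⊓ C[Z[u]] : Subgroup K) = Nat.card (P ⊓ C[Z[(u : G)]] : Subgroup G) := by
  rw [← Subgroup.card_map_of_injective K.subtype_injective, map_inf hK]

theorem isDef (hu : u ∈ Z[x]) (h1 : u ≠ 1) : IsDef 2 C[Z[u]] (dn 2 Z[u] P e) (P ⊓ C[Z[u]]) := by
  have hi := (C[Z[x ^ 2 ^ (n + 1)]]).subtype_injective
  have h2 : Z[(⟨u, h.dh.le_cent (h.dh.le hu)⟩ : C[Z[x ^ 2 ^ (n + 1)]])] ≤ P.subgroupOf _ :=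
    Subgroup.zpowers_le.2 (h.dh.le hu)
  have h3 : C[(Z[(⟨u, h.dh.le_cent (h.dh.le hu)⟩ : C[Z[x ^ 2 ^ (n + 1)]])]).map
      (C[Z[x ^ 2 ^ (n + 1)]]).subtype] ≤ (C[Z[x ^ 2 ^ (n + 1)]]).subtype.range := by
    simpa [MonoidHom.map_zpowers] using h.dh.cent_le hu h1
  have := (isDef_inc_iff hi).2 (h.hm'.isDef_cent_of_nil h.nil (h.hm'.pr.ple_dn h2))
  rwa [map_cent_of_le hi h3, h.hm'.pr.inc_dn h2 hi h3, map_inf h.dh.le_cent, h.map_eq, h.inc_e,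
    MonoidHom.map_zpowers] at this

theorem exists_diD [Fintype G] {ζ : IrrCharacter C[Z[x ^ 2 ^ (n + 1)]]} (hζ : ζ ∈ β)
    (h0 : blockHeight 2 β ζ.1 = 0) : ∃ f, DiD P x n e B f ∧
      ∀ a : G → ℂ, (∀ g, ζ.1 g = a g) → ∀ j, f a j = 1 := by
  have := Fintype.ofFinite C[Z[x ^ 2 ^ (n + 1)]]
  have hd := h.dh.subgroupOf h.dh.le_cent
  let φ : Multiplicative (ZMod (2 ^ (n + 1 + 1))) →* P.subgroupOf C[Z[x ^ 2 ^ (n + 1)]] :=
    powHom _ (x := ⟨_, hd.mem⟩) (Subtype.ext (Subtype.ext (by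
      simpa [h.dh.ord] using pow_orderOf_eq_one x)))
  have h1 : ∀ j, ((φ (.ofAdd j) : C[Z[x ^ 2 ^ (n + 1)]]) : G) = x ^ j.val := fun j => by
    simp [φ, powHom]
  have h2 := fun j => h.hm'.card_mul_cP_of_nil h.nil h.hβ hζ h0 (φ j).2
  let f : (G → ℂ) → ZMod (2 ^ (n + 1 + 1)) → ℂ := fun a j =>
    Nat.card (P.subgroupOf _ ⊓ C[Z[(φ (.ofAdd j)).1]] : Subgroup _) *
      cP 2 (P.subgroupOf _) e' (fun g => a g) ζ.1 (φ (.ofAdd j))
  have h3 : ∀ a, IsClassFunction G a → ∃ θ : P.subgroupOf C[Z[x ^ 2 ^ (n + 1)]] → ℂ,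
      IsClassFunction _ θ ∧ (IsGeneralizedCharacter G a → IsGeneralizedCharacter _ θ) ∧
      (∀ j, f a j = θ (φ (.ofAdd j))) ∧ ∀ c (u : P.subgroupOf C[Z[x ^ 2 ^ (n + 1)]]),
        cP 2 (P.subgroupOf _) e' (fun g => a g) c u = θ u * cP 2 (P.subgroupOf _) e' ζ.1 c u :=
    fun a ha => by
      obtain ⟨θ, h3, h4, h5⟩ := h.hm'.exists_theta h.nil h.hβ hζ h0 (ha.restrict _)
      exact ⟨θ, h3, fun hg => h4 (hg.restrict _), fun j => by
        simp only [f]; rw [h5, mul_left_comm, h2, mul_one], h5⟩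
  refine ⟨f, ⟨h.hm, h.hB, h.dh, fun a ha j => ?_, fun a ha => ?_, fun a c ha hc j hj => ?_,
    fun u hu h4 v hv => h.fcl hu h4 hv, fun u => h.isDef⟩, fun a ha j => ?_⟩
  · obtain ⟨θ, h4, -, h5, -⟩ := h3 a ha
    obtain ⟨y, hy, h6⟩ := h.dh.exists_out
    rw [h5, h5, ← h4 (φ (.ofAdd j)) ⟨⟨y, h.dh.le_cent hy⟩, hy⟩]
    congr 1
    refine Subtype.ext (Subtype.ext ?_)
    simp only [Subgroup.coe_mul, Subgroup.coe_inv, h1]
    rw [pow_val_neg h.dh.ord, h.dh.inverts hy h6 (pow_val_mem j)]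
  · obtain ⟨θ, -, h4, h5, -⟩ := h3 a ha.isClassFunction
    simpa only [h5, ofAdd_toAdd] using (h4 ha).comp φ
  · obtain ⟨θ, -, -, h4, h5⟩ := h3 a ha
    rw [h4, ← h1, h.cP_eq (h1 j ▸ pow_val_mem j) (h1 j ▸ pow_val_ne h.dh.ord hj), h5,
      ← card_eq h.dh.le_cent, mul_left_comm, map_mul, map_natCast,
      h.hm'.pr.conj_cP (φ _).2 (hc.restrict _) ζ.2.isClassFunction]
  · simp only [f, ← ha]
    exact h2 _

end DiL

end CfsgH4
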