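import Cfsg.Agent.H4.Di1

/-! Blocks with dihedral defect groups: integral columns. -/

set_option autoImplicit false
open Cfsg MonoidAlgebra CfsgL0 CfsgH1 CfsgH4
open CfsgH3 hiding cj cj_cj
open scoped ComplexConjugate Pointwise

namespace CfsgH4

local notation "C[" Q "]" => Subgroup.centralizer (SetLike.coe (Q : Subgroup _))
local notation "N[" Q "]" => Subgroup.normalizer (SetLike.coe (Q : Subgroup _))
local notation "Z[" u "]" => Subgroup.zpowers u

section Num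
variable {N : ℕ} [NeZero N] {ψ : AddChar (ZMod N) ℂ} {ι : Type*} [Fintype ι]

theorem sum_psi (hψ : ψ.IsPrimitive) (b : ZMod N) : ∑ j, ψ (j * b) = if b = 0 then (N : ℂ) else 0 := by
  simpa using AddChar.sum_mulShift b hψ

theorem exists_fourier (ψ : AddChar (ZMod N) ℂ) {f : ZMod N → ℂ}
    (h : IsGeneralizedCharacter (Multiplicative (ZMod N)) fun j => f j.toAdd) (k : ZMod N) :
    ∃ D : ℤ, (N : ℂ) * D = ∑ j, f j * (1 - ψ (j * k)) := by
  obtain ⟨D, hD⟩ := h.exists_int_classInner (isGen_one.sub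
    (isIrr_of_unitsHom (ψ.mulShift (-k)).toMonoidHom.toHomUnits).isGen)
  refine ⟨D, ?_⟩
  rw [← hD, classInner, Nat.card_eq_fintype_card, Fintype.card_multiplicative, ZMod.card,
    mul_inv_cancel_left₀ (Nat.cast_ne_zero.2 (NeZero.ne N))]
  refine Fintype.sum_equiv Multiplicative.toAdd _ _ fun j => ?_
  simp [AddChar.map_neg_eq_conj, mul_comm k]

theorem fourier_inv (hψ : ψ.IsPrimitive) {f : ZMod N → ℂ} {D : ZMod N → ℤ}
    (h : ∀ k, (N : ℂ) * D k = ∑ j, f j * (1 - ψ (j * k))) (hs : ∀ j, f (-j) = f j) {j : ZMod N}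
    (hj : j ≠ 0) : f j = -∑ k, D k * ψ (k * j) := by
  refine mul_left_cancel₀ (Nat.cast_ne_zero.2 (NeZero.ne N) : (N : ℂ) ≠ 0) ?_
  simp only [mul_neg, Finset.mul_sum, ← mul_assoc, h, Finset.sum_mul]
  rw [Finset.sum_comm, Finset.sum_congr rfl (g := fun i => if i = -j then -(N * f i) else 0)
    fun i _ => ?_]
  · simp [hs]
  have h1 := sum_psi hψ (i + j)
  have h2 := sum_psi hψ j
  simp only [mul_add, AddChar.map_add_eq_mul, if_neg hj, add_eq_zero_iff_eq_neg] at h1 h2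
  simp only [mul_assoc, ← Finset.mul_sum, sub_mul, one_mul, Finset.sum_sub_distrib, mul_comm i, h1,
    h2]
  split_ifs <;> ring

theorem fourier_neg {f : ZMod N → ℂ} {D : ZMod N → ℤ}
    (h : ∀ k, (N : ℂ) * D k = ∑ j, f j * (1 - ψ (j * k))) (hs : ∀ j, f (-j) = f j) (k : ZMod N) :
    D (-k) = D k := by
  have : (N : ℂ) * D (-k) = N * D k := by
    rw [h, h, ← Equiv.sum_comp (Equiv.neg _)]
    simp [hs]
  exact_mod_cast mul_left_cancel₀ (Nat.cast_ne_zero.2 (NeZero.ne N)) this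

theorem fourier_zero {f : ZMod N → ℂ} {D : ZMod N → ℤ}
    (h : ∀ k, (N : ℂ) * D k = ∑ j, f j * (1 - ψ (j * k))) : D 0 = 0 := by
  simpa [NeZero.ne N] using h 0

theorem fourier_gram (hψ : ψ.IsPrimitive) {f : ι → ZMod N → ℂ} {D : ι → ZMod N → ℤ}
    (h : ∀ χ k, (N : ℂ) * D χ k = ∑ j, f χ j * (1 - ψ (j * k)))
    (ho : ∀ i j, i ≠ 0 → j ≠ 0 → ∑ χ, f χ i * conj (f χ j) =
      N * ((if i = j then 1 else 0) + if i = -j then 1 else 0)) {k l : ZMod N} (hk : k ≠ 0)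
    (hl : l ≠ 0) : ∑ χ, D χ k * D χ l = 2 + (if k = l then 1 else 0) + if k = -l then 1 else 0 := by
  have hN : (N : ℂ) ≠ 0 := Nat.cast_ne_zero.2 (NeZero.ne N)
  have h1 : ∑ χ, (N : ℂ) * D χ k * conj ((N : ℂ) * D χ l) =
      ∑ i, ∑ j, (1 - ψ (i * k)) * (1 - ψ (-(j * l))) *
        (N * ((if i = j then 1 else 0) + if i = -j then 1 else 0)) := by
    simp only [h, map_sum, Finset.sum_mul_sum]
    rw [Finset.sum_comm]
    refine Finset.sum_congr rfl fun i _ => ?_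
    rw [Finset.sum_comm]
    refine Finset.sum_congr rfl fun j _ => ?_
    by_cases hi : i = 0
    · simp [hi]
    by_cases hj : j = 0
    · simp [hj]
    rw [← ho i j hi hj, Finset.mul_sum]
    exact Finset.sum_congr rfl fun χ _ => by
      rw [map_mul conj, map_sub conj, map_one, AddChar.map_neg_eq_conj]; ring
  have h2 := sum_psi hψ k
  have h3 := sum_psi hψ l
  have h4 := sum_psi hψ (-l)
  have h5 := sum_psi hψ (k + -l)
  have h6 := sum_psi hψ (k + l)
  simp only [mul_add, AddChar.map_add_eq_mul, if_neg hk, if_neg hl, neg_eq_zero, mul_neg,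
    add_eq_zero_iff_eq_neg, neg_neg] at h2 h3 h4 h5 h6
  simp only [mul_add, mul_ite, mul_one, mul_zero, Finset.sum_add_distrib, Finset.sum_ite_eq,
    Finset.mem_univ, if_true, ← neg_eq_iff_eq_neg (b := (_ : ZMod N)), neg_mul, neg_neg,
    ← Finset.sum_mul, sub_mul, mul_sub, one_mul, Finset.sum_sub_distrib, h2, h3, h4, h5, h6,
    map_mul, map_natCast, map_intCast, Finset.sum_const, Finset.card_univ, ZMod.card] at h1
  have h7 : (N : ℂ) * N * ((∑ χ, D χ k * D χ l : ℤ) : ℂ) =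
      N * N * ((2 + (if k = l then 1 else 0) + if k = -l then 1 else 0 : ℤ) : ℂ) := by
    push_cast
    rw [Finset.mul_sum, Finset.sum_congr rfl (g := fun χ => (N : ℂ) * D χ k * (N * D χ l))
      fun _ _ => by ring, h1]
    simp only [neg_eq_iff_eq_neg]
    split_ifs <;> simp <;> ring
  exact_mod_cast mul_left_cancel₀ (mul_ne_zero hN hN) h7

variable {m : ℕ} (hN : N = 2 * m)
include hN

theorem val_half : (m : ZMod N).val = m := ZMod.val_cast_of_lt (by have := NeZero.ne N; omega)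

theorem half_ne_zero : (m : ZMod N) ≠ 0 := fun h => by
  have := val_half hN
  rw [h, ZMod.val_zero] at this
  have := NeZero.ne N
  omega

theorem neg_eq_iff_half {k : ZMod N} : -k = k ↔ k = 0 ∨ k = m := by
  rw [ZMod.neg_eq_self_iff]
  refine or_congr_right ⟨fun h => ZMod.val_injective N ?_, fun h => ?_⟩
  · rw [val_half hN]; omega
  · rw [h, val_half hN, hN]

theorem psi_half (hψ : ψ.IsPrimitive) (k : ZMod N) : ψ (k * m) = (-1) ^ k.val := by
  have h1 : ψ m * ψ m = 1 := by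
    rw [← AddChar.map_add_eq_mul, ← Nat.cast_add, ← two_mul, ← hN, ZMod.natCast_self,
      AddChar.map_zero_eq_one]
  rw [← (mul_self_eq_one_iff.1 h1).resolve_left fun h =>
    half_ne_zero hN ((hψ.zmod_char_eq_one_iff N _).1 h), ← AddChar.map_nsmul_eq_pow, nsmul_eq_mul,
    ZMod.natCast_zmod_val]

theorem two_dvd_sum {D : ZMod N → ℤ} (h0 : D 0 = 0) (h : ∀ k, D (-k) = D k) :
    2 ∣ ∑ k, D k * (-1) ^ k.val - D m := by
  have := Finset.sum_involution (s := Finset.univ)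
    (f := fun k => if k = (m : ZMod N) then 0 else (D k : ZMod 2)) (fun k _ => -k)
    (fun k _ => by
      simp only [h, neg_eq_iff_eq_neg, (neg_eq_iff_half hN).2 (Or.inr rfl)]
      exact CharTwo.add_self_eq_zero _)
    (fun k _ h1 h2 => h1 (by rcases (neg_eq_iff_half hN).1 h2 with rfl | rfl <;> simp [h0]))
    (fun _ _ => Finset.mem_univ _) fun _ _ => neg_neg _
  refine (ZMod.intCast_zmod_eq_zero_iff_dvd _ 2).1 ?_
  push_cast
  simp only [CharTwo.neg_eq, one_pow, mul_one]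
  rw [sub_eq_zero, ← add_zero (D m : ZMod 2), ← this, ← Finset.add_sum_erase _ _
    (Finset.mem_univ (m : ZMod N)), ← Finset.add_sum_erase _ _ (Finset.mem_univ (m : ZMod N)),
    if_pos rfl, zero_add]
  congr 1
  exact Finset.sum_congr rfl fun k hk => (if_neg (Finset.mem_erase.1 hk).1).symm

end Num

theorem exists_eq_one_of_sum {ι : Type*} [Fintype ι] {w : ι → ℤ} (h0 : ∀ i, 0 ≤ w i)
    (h : ∑ i, w i = 1) : ∃ g, w g = 1 ∧ ∀ i, i ≠ g → w i = 0 := by
  classical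
  obtain ⟨g, -, hg⟩ := Finset.exists_ne_zero_of_sum_ne_zero (h ▸ one_ne_zero : ∑ i, w i ≠ 0)
  rw [← Finset.add_sum_erase _ _ (Finset.mem_univ g)] at h
  have h1 := Finset.sum_nonneg (s := Finset.univ.erase g) fun i _ => h0 i
  have h2 := h0 g
  exact ⟨g, by omega, fun i hi => (Finset.sum_eq_zero_iff_of_nonneg fun i _ => h0 i).1
    (show ∑ i ∈ Finset.univ.erase g, w i = 0 by omega) i (by simpa using hi)⟩

theorem comb_three {ι : Type*} [Fintype ι] {s v : ι → ℤ} (hs : ∀ i, s i = 0 ∨ s i = 1 ∨ s i = -1)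
    (h1 : ∑ i, v i * v i = 3) (h2 : ∑ i, v i * s i = 2) : ∃ g, s g = 0 ∧ (v g = 1 ∨ v g = -1) ∧
      ∀ i, i ≠ g → v i = 0 ∨ v i = s i := by
  obtain ⟨g, h3, h4⟩ := exists_eq_one_of_sum (w := fun i => v i * v i - v i * s i)
    (fun i => by
      rcases hs i with h | h | h <;> rw [h] <;> rcases lt_trichotomy (v i) 0 with h | h | h <;>
        nlinarith)
    (by rw [Finset.sum_sub_distrib, h1, h2]; rfl)
  have h5 : s g = 0 := by
    have h6 := Int.even_mul_succ_self (v g)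
    have h7 := Int.even_mul_pred_self (v g)
    rcases hs g with h | h | h
    · exact h
    · rw [show v g * (v g - 1) = 1 by rw [h] at h3; linear_combination h3] at h7
      exact absurd h7 (by decide)
    · rw [show v g * (v g + 1) = 1 by rw [h] at h3; linear_combination h3] at h6
      exact absurd h6 (by decide)
  exact ⟨g, h5, mul_self_eq_one_iff.1 (by simpa [h5] using h3), fun i hi =>
    (mul_eq_zero.1 (show v i * (v i - s i) = 0 by rw [← h4 i hi]; ring)).imp_right sub_eq_zero.1⟩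

variable {G : Type*} [Group G] [Fintype G] {P : Subgroup G} {x : G} {n : ℕ} {M : Ideal AlgInt}
  [hM : PMod 2 M] {e : (Res M)[G]} {B : Set (IrrCharacter G)} {χ χ' : IrrCharacter G}
  {f : (G → ℂ) → ZMod (2 ^ (n + 1 + 1)) → ℂ} {i j : ZMod (2 ^ (n + 1 + 1))}

local notation "μ" => ((2 ^ (n + 1) : ℕ) : ZMod (2 ^ (n + 1 + 1)))

namespace DiD
variable (h : DiD P x n e B f)
include h

theorem mem (j : ZMod (2 ^ (n + 1 + 1))) : x ^ j.val ∈ P := h.dh.le (pow_val_mem j)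

theorem card_cent (hj : j ≠ 0) : (Nat.card (P ⊓ C[Z[x ^ j.val]] : Subgroup G) : ℂ) =
    (2 ^ (n + 1 + 1) : ℕ) * (1 + if j = -j then 1 else 0) := by
  split_ifs with h1
  · rw [((neg_eq_iff_half (pow_succ' 2 _)).1 h1.symm).resolve_left hj, pow_val_natCast h.dh.ord,
      inf_eq_left.2 h.dh.le_cent, h.dh.card]
    push_cast; ring
  · rw [h.dh.inf_cent (pow_val_mem j) fun h2 => h1 (pow_val_inj h.dh.ord (by
      rw [pow_val_neg h.dh.ord]; exact eq_inv_of_mul_eq_one_left h2)), Nat.card_zpowers, h.dh.ord]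
    simp

theorem ne_zero (hχ : χ ∈ B) (h0 : blockHeight 2 B χ.1 = 0) (hj : j ≠ 0) : f χ.1 j ≠ 0 :=
  left_ne_zero_of_mul (h.cP_eq _ _ χ.2.isClassFunction χ.2.isClassFunction j hj ▸ mul_ne_zero
    (Nat.cast_ne_zero.2 Nat.card_pos.ne') (h.hm.cP_ne_zero h.hB (h.mem j) hχ h0 hχ h0))

theorem of_notMem (hχ : χ ∉ B) (hj : j ≠ 0) : f χ.1 j = 0 := by
  have := h.cP_eq _ _ χ.2.isClassFunction χ.2.isClassFunction j hj
  rw [h.hm.cP_of_notMem h.hB hχ (h.mem j), mul_zero, Complex.mul_conj] at this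
  exact Complex.normSq_eq_zero.1 (by exact_mod_cast this.symm)

theorem fcl_iff (hi : i ≠ 0) : FCl 2 P e (x ^ i.val) (x ^ j.val) ↔ j = i ∨ j = -i := by
  refine ⟨fun h1 => (h.fcl _ (pow_val_mem i) (pow_val_ne h.dh.ord hi) _ (pow_val_mem j) h1).imp
    (pow_val_inj h.dh.ord) fun h2 => pow_val_inj h.dh.ord (by rwa [pow_val_neg h.dh.ord]), ?_⟩
  rintro (rfl | rfl)
  · exact h.hm.pr.fCl_refl (h.mem _)
  · obtain ⟨y, hy, h1⟩ := h.dh.exists_out
    rw [pow_val_neg h.dh.ord, ← h.dh.inverts hy h1 (pow_val_mem i)]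
    exact h.hm.pr.fCl_conj (h.mem i) hy

theorem orth (hi : i ≠ 0) (hj : j ≠ 0) : ∑ χ : IrrCharacter G, f χ.1 i * conj (f χ.1 j) =
    (2 ^ (n + 1 + 1) : ℕ) * ((if i = j then 1 else 0) + if i = -j then 1 else 0) := by
  obtain ⟨χ, hχ, h0⟩ := exists_height_zero (p := 2) h.hB.nonempty
  have hc := χ.2.isClassFunction
  have h1 := congrArg (fun z => (Nat.card (P ⊓ C[Z[x ^ j.val]] : Subgroup G) : ℂ) *
    (Nat.card (P ⊓ C[Z[x ^ i.val]] : Subgroup G) : ℂ) * z)
    (h.hm.pr.sum_cP_mul (h.mem j) (h.mem i) hc hc)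
  simp only [Finset.mul_sum] at h1
  rw [Finset.sum_congr rfl (g := fun ψ => f χ.1 j * conj (f χ.1 i) * (f ψ.1 i * conj (f ψ.1 j)))
    fun ψ _ => by
      rw [mul_mul_mul_comm, h.cP_eq _ _ hc ψ.2.isClassFunction j hj,
        h.cP_eq _ _ ψ.2.isClassFunction hc i hi]; ring, ← Finset.mul_sum, h.fcl_iff hj] at h1
  refine mul_left_cancel₀ (mul_ne_zero (h.ne_zero hχ h0 hj)
    ((map_ne_zero conj).2 (h.ne_zero hχ h0 hi))) (h1.trans ?_)
  by_cases h2 : i = j ∨ i = -j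
  · rw [if_pos h2, mul_right_comm, h.cP_eq _ _ hc hc j hj, h.card_cent hi]
    rcases h2 with rfl | rfl
    · simp
    · simp only [h.sym _ hc, neg_neg, if_true, add_comm]
  · simp [h2, (not_or.1 h2).1, (not_or.1 h2).2]

theorem reg (hj : j ≠ 0) {g : G} (hg : ¬ 2 ∣ orderOf g) :
    ∑ χ : IrrCharacter G, conj (f χ.1 j) * χ.1 g = 0 := by
  classical
  obtain ⟨χ, hχ, h0⟩ := exists_height_zero (p := 2) h.hB.nonempty
  have hc := χ.2.isClassFunction
  have h1 := CfsgH3.Cfsg.IsClassFunction.apply_eq_sum_irr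
    ((h.hm.pr.fSt_ind (x ^ j.val)).isClassFunction hc) g
  rw [h.hm.bs_reg h.hB (h.hm.pr.fSt_ind _) hc hg, if_neg (fun ⟨t, _, h2⟩ =>
    pow_val_ne h.dh.ord hj (by simpa using h2)), zero_mul] at h1
  refine mul_left_cancel₀ (h.ne_zero hχ h0 hj) ?_
  rw [mul_zero, ← mul_zero (Nat.card (P ⊓ C[Z[x ^ j.val]] : Subgroup G) : ℂ), h1, Finset.mul_sum,
    Finset.mul_sum]
  exact Finset.sum_congr rfl fun ψ _ => by
    rw [h.hm.pr.classInner_ind (h.mem j) hc ψ.2.isClassFunction, ← mul_assoc, ← mul_assoc,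
      h.cP_eq _ _ hc ψ.2.isClassFunction j hj]

theorem height (hχ : χ ∈ B) (hχ' : χ' ∈ B) (h0 : blockHeight 2 B χ'.1 = 0) :
    ∃ w ∈ Loc M, ¬ MemLocalIdeal M w ∧
      f χ.1 μ * conj (f χ'.1 μ) = 2 ^ blockHeight 2 B χ.1 * w := by
  have h1 := h.mem μ
  obtain ⟨β, h2, h3, h4⟩ := h.hm.exists_cP h.hB h1
  have := Fintype.ofFinite C[Z[x ^ (μ).val]]
  have h5 : P ≤ C[Z[x ^ (μ).val]] := by rw [pow_val_natCast h.dh.ord]; exact h.dh.le_cent
  have h6 := h2.1.card_of_isDef (h3 ▸ h.hm.isDef_cent_of_le (h.hm.pr.ple_dn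
    (Subgroup.zpowers_le.2 h1)) h5)
  obtain ⟨w, h7, h8, h9⟩ := h2.exists_unit_ctr (centralizer_zpowers _)
    (by simpa using IsPGroup.iff_orderOf.1 h.hm.pr.pgrp ⟨_, h1⟩)
    (Nat.pow_right_injective le_rfl (h6.symm.trans (h.hm.card_eq h.hB))) hχ hχ' h0
  refine ⟨w, h7, h8, ?_⟩
  rw [← h.cP_eq _ _ χ.2.isClassFunction χ'.2.isClassFunction _ (half_ne_zero (pow_succ' 2 _)),
    inf_eq_left.2 h5, h.hm.card_eq h.hB, h4 _ _ χ.2.isClassFunction]
  exact_mod_cast h9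

end DiD

end CfsgH4
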