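import Cfsg.Agent.H4.Di2

/-! A congruence from the Brauer homomorphism for blocks with dihedral defect group of order 16. -/

set_option autoImplicit false
open Cfsg MonoidAlgebra CfsgL0 CfsgH1 CfsgH4
open CfsgH3 hiding cj cj_cj
open scoped ComplexConjugate Pointwise

namespace CfsgH4

local notation "C[" Q "]" => Subgroup.centralizer (SetLike.coe (Q : Subgroup _))
local notation "N[" Q "]" => Subgroup.normalizer (SetLike.coe (Q : Subgroup _))
local notation "Z[" u "]" => Subgroup.zpowers u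

section Gen
variable {G H A : Type*} [Group G] [Finite G] [Group H] [Finite H] [Group A] [Finite A] {p : ℕ}
  [hp : Fact p.Prime]

theorem Pr.exists_loc {F : Type*} [Field F] [CharP F p] {Q Y : Subgroup G} {g : F[G]}
    (hY : Pr p Y g) (hQ : Q ≤ Y) (hc : Y ≤ C[Q]) (hD : IsDef p C[Q] (dn p Q Y g) Y) :
    ∃ f' e' : F[C[Q]], inc (C[Q]).subtype e' = g ∧ MaxPr p f' (Y.subgroupOf C[Q]) e' := by
  have hi := (C[Q]).subtype_injective
  have h2 := hY.pr_dn hQ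
  obtain ⟨f', hf⟩ : ∃ f', inc (C[Q]).subtype f' = dn p Q Y g :=
    ⟨_, inc_pull hi (by rw [Subgroup.range_subtype]; exact h2.blk.supp)⟩
  obtain ⟨e', he⟩ : ∃ e', inc (C[Q]).subtype e' = g :=
    ⟨_, inc_pull hi (by rw [Subgroup.range_subtype]; exact hY.blk.supp.mono (cent_anti hQ))⟩
  have h3 : (Y.subgroupOf C[Q]).map (C[Q]).subtype = Y := Subgroup.map_subgroupOf_eq_of_le hc
  refine ⟨f', e', he, isBlk_inc_subtype_iff.1 (hf ▸ h2.blk), ?_, inc_injective hi ?_, ?_⟩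
  · rw [← pr_inc_iff hi (by rw [h3, Subgroup.range_subtype]; exact cent_anti hQ), h3, he]
    exact hY
  · rw [map_mul, ← br_inc hi, h3, hf, he]
    exact ((hY.ple_dn hQ).nsub hY (hc.trans (cent_le_norm Q))).mul
  · rwa [← isDef_inc_subgroupOf_iff hc, hf]

theorem om_pull_mk [Fintype H] (φ : H →* G) (ξ : IrrCharacter H) (t : G → ℂ) :
    om ξ.1 (pull φ (mk fun g => t g⁻¹)) =
      Nat.card H / ξ.1 1 * classInner (fun h => t (φ h)) ξ.1 := by
  rw [om_def, ev_eq_sum, classInner, ← Equiv.sum_comp (Equiv.inv H)]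
  simp only [coeff_pull, coeff_mk, Equiv.inv_apply, map_inv, inv_inv, ξ.2.isCharacter.apply_inv]
  field_simp [Nat.cast_ne_zero.2 (Nat.card_pos (α := H)).ne']

theorem om_mk_inv [Fintype G] (χ : IrrCharacter G) (t : G → ℂ) :
    om χ.1 (mk fun g => t g⁻¹) = Nat.card G / χ.1 1 * classInner t χ.1 := by
  have := om_pull_mk (MonoidHom.id G) χ t
  rwa [show pull (MonoidHom.id G) (mk fun g => t g⁻¹) = mk fun g => t g⁻¹ by ext; simp] at this

theorem inv_mk_inv {t : G → ℂ} (ht : IsClassFunction G t) : Inv ⊤ (mk fun g => t g⁻¹) :=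
  inv_mk fun g x => by rw [← ht g⁻¹ x]; congr 1; group

theorem sum_dl [Fintype G] [Fintype A] (Φ : (A →* ℂˣ) → IrrCharacter G) (a : G → ℂ)
    (m : A →* ℂˣ) : ∑ x, dl Φ a x * conj (m x : ℂ) = Nat.card A * classInner a (Φ m).1 := by
  classical
  simp only [dl, Finset.sum_mul, mul_assoc]
  rw [Finset.sum_comm]
  simp [← Finset.mul_sum, sum_lin_mul_conj, mul_comm]

theorem isIntegral_dl [Fintype G] (Φ : (A →* ℂˣ) → IrrCharacter G) {a : G → ℂ}
    (ha : IsGeneralizedCharacter G a) (x : A) : IsIntegral ℤ (dl Φ a x) :=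
  IsIntegral.sum _ fun l _ => by
    obtain ⟨k, hk⟩ := ha.exists_int_classInner (Φ l).2.isGen
    exact (hk ▸ isIntegral_intCast k).mul ((isIrr_of_unitsHom l).isGen.isIntegral x)

variable {M : Ideal AlgInt} [hM : PMod p M]
include hM

theorem redG_pull_mul {Q : Subgroup G} (hQ : IsPGroup p Q) {a b : ℂ[G]} (ha : Inv ⊤ a)
    (hb : Inv ⊤ b) (ha' : a ∈ LG G M) (hb' : b ∈ LG G M) : redG M (pull (C[Q]).subtype (a * b) -
      pull (C[Q]).subtype a * pull (C[Q]).subtype b) = 0 := by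
  have hi := (C[Q]).subtype_injective
  have h1 : ∀ c : ℂ[G], inc (C[Q]).subtype (redG M (pull (C[Q]).subtype c)) = br Q (redG M c) :=
    fun c => by rw [← redG_inc hi, inc_pull_eq_cut hi, Subgroup.range_subtype, redG_cut, br_def]
  rw [redG_sub (pull_mem_LG _ (mul_mem ha' hb')) (mul_mem (pull_mem_LG _ ha') (pull_mem_LG _ hb')),
    redG_mul (pull_mem_LG _ ha') (pull_mem_LG _ hb'), sub_eq_zero]
  refine inc_injective hi ?_
  rw [map_mul (inc _), h1, h1, h1, redG_mul ha' hb', br_mul' hQ (ha.redG.mono le_top) (hb.redG.mono le_top)]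

theorem AbF.InP_sum {ι : A →* G} {P : Subgroup G} {e : (Res M)[G]} {B : Set (IrrCharacter G)}
    {Φ : (A →* ℂˣ) → IrrCharacter G} (h : AbF p ι P e B Φ) {y : ℂ[G]} (hy : Inv ⊤ y)
    (hl : y ∈ LG G M) (h0 : redG M y = 0) (x : A) :
    MemLocalIdeal M ((Nat.card A : ℂ)⁻¹ * ∑ l, om (Φ l).1 y * l x) := by
  classical
  obtain ⟨g, hg⟩ : ∃ g, (eB M B).coeff g ≠ 0 := by
    by_contra h1
    push Not at h1
    exact h.hB.eB_ne_zero (by ext g; simpa using h1 g)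
  rw [coeff_eB, ne_eq, red_eq_zero_iff (h.hB.blockCoeff_mem g)] at hg
  have h1 : ¬ p ∣ orderOf g⁻¹ := fun h1 => hg (by
    rw [blockCoeff_eq_zero h.hB.fB_mem (by simpa using h1)]; exact InP.zero)
  have h2 : ∀ l, (fB {Φ l}).coeff g = (Φ 1).1 1 / Nat.card G * (Φ 1).1 g⁻¹ := fun l => by
    rw [coeff_fB_single, h.apply_one, h.apply_reg l h1]
  have h3 : blockCoeff B g = Nat.card A * ((Φ 1).1 1 / Nat.card G * (Φ 1).1 g⁻¹) := by
    rw [← coeff_fB, fB_eq_sum, h.sum_mem, coeff_sum, Finset.sum_apply']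
    simp only [h2, Finset.sum_const, Finset.card_univ, nsmul_eq_mul]
    have := sum_lin h.mul_comm 1
    simp only [map_one, Units.val_one, Finset.sum_const, Finset.card_univ, nsmul_eq_mul, mul_one,
      if_true] at this
    rw [this]
  have h4 := congrArg (·.coeff g) (redG_mul hl (h.uu_mem x))
  simp only [h0, zero_mul, coeff_redG, coeff_zero, Finsupp.zero_apply] at h4
  have h5 := InP.mul_left (inv_mem_Loc (h.hB.blockCoeff_mem g) hg)
    ((red_eq_zero_iff (mem_LG.1 (mul_mem hl (h.uu_mem x)) g)).1 h4)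
  have h6 := ne_zero_of_not_InP hg
  rw [uu, Finset.mul_sum, coeff_sum, Finset.sum_apply'] at h5
  simp only [mul_smul_comm, central_mul_fB hy, coeff_smul, Finsupp.smul_apply, smul_eq_mul, h2,
    ← mul_assoc _ (om _ _), ← Finset.sum_mul] at h5
  rw [h3] at h5 h6
  convert h5 using 1
  simp only [_root_.mul_comm (om _ _)]
  rw [mul_inv, mul_mul_mul_comm, inv_mul_cancel₀ (right_ne_zero_of_mul h6), mul_one]

end Gen

variable {G : Type*} [Group G] [Fintype G] {P : Subgroup G} {x : G} {n : ℕ} {M : Ideal AlgInt}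
  [hM : PMod 2 M] {e : (Res M)[G]} {B : Set (IrrCharacter G)} {χ : IrrCharacter G}

theorem DiD.unit {f : (G → ℂ) → ZMod (2 ^ (n + 1 + 1)) → ℂ} (h : DiD P x n e B f) (hχ : χ ∈ B)
    (h0 : blockHeight 2 B χ.1 = 0) {j : ZMod (2 ^ (n + 1 + 1))} (hj : j ≠ 0) :
    ¬ MemLocalIdeal M (f χ.1 j * conj (f χ.1 j)) := by
  obtain ⟨β, h2, h3, h4⟩ := h.hm.exists_cP h.hB (h.mem j)
  have := Fintype.ofFinite C[Z[x ^ j.val]]
  rw [← h.cP_eq _ _ χ.2.isClassFunction χ.2.isClassFunction j hj, h4 _ _ χ.2.isClassFunction,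
    h2.1.card_of_isDef (h3 ▸ h.isDef _ (pow_val_mem j) (pow_val_ne h.dh.ord hj)), Nat.cast_pow]
  exact (h2.not_InP_ctr_iff (centralizer_zpowers _)
    (by simpa using IsPGroup.iff_orderOf.1 h.hm.pr.pgrp ⟨_, h.mem j⟩) χ χ).2 ⟨⟨hχ, h0⟩, hχ, h0⟩

theorem DiD.exists_abF {f : (G → ℂ) → ZMod (2 ^ (1 + 1 + 1)) → ℂ} (h : DiD P x 1 e B f)
    [Fintype C[Z[x ^ 2]]] : ∃ (ι : Multiplicative (ZMod (2 ^ (1 + 1 + 1))) →* C[Z[x ^ 2]])
      (X : Subgroup C[Z[x ^ 2]]) (e' : (Res M)[C[Z[x ^ 2]]]) (γ : Set (IrrCharacter C[Z[x ^ 2]]))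
      (Φ : _ → IrrCharacter C[Z[x ^ 2]]), AbF 2 ι X e' γ Φ ∧ (∀ j, (ι j : G) = x ^ j.toAdd.val) ∧
      ∀ a c : G → ℂ, IsClassFunction G a → IsClassFunction G c → ∀ j, j * j ≠ 1 →
        dl Φ (fun g => a g) j * conj (dl Φ (fun g => c g) j) = f a j.toAdd * conj (f c j.toAdd) := by
  have ho := h.dh.ord
  have h4 : x ^ 2 * x ^ 2 ≠ 1 := by rw [← pow_add]; exact h.dh.z_ne
  have h2 : x ^ 2 ∈ Z[x] := pow_mem (Subgroup.mem_zpowers x) 2
  have h1 := h.dh.inf_cent h2 h4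
  have hc : Z[x] ≤ C[Z[x ^ 2]] := h1 ▸ inf_le_right
  have hx := h.hm.pr.ple_dn h.dh.le
  obtain ⟨f', e', he, hm⟩ := (h.hm.pr.pr_dn h.dh.le).exists_loc (Subgroup.zpowers_le.2 h2) hc (by
    have := h.isDef _ h2 fun h3 => h4 (by simp [h3])
    rwa [h1, ← hx.dn_eq h.hm.pr (Subgroup.zpowers_le.2 h2)] at this)
  obtain ⟨γ, hγ, rfl⟩ := hm.blk.exists_eq_eB
  obtain ⟨θ, hθ⟩ := hγ.nonempty
  let ι : Multiplicative (ZMod (2 ^ (1 + 1 + 1))) →* C[Z[x ^ 2]] :=
    powHom _ (x := ⟨x, hc (Subgroup.mem_zpowers x)⟩) (Subtype.ext (by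
      simpa [ho] using pow_orderOf_eq_one x))
  have hι : ∀ j, (ι j : G) = x ^ j.toAdd.val := fun j => by simp [ι, powHom]
  have h3 : ((Z[x]).subgroupOf C[Z[x ^ 2]]).map (C[Z[x ^ 2]]).subtype = Z[x] :=
    Subgroup.map_subgroupOf_eq_of_le hc
  have h5 : ∀ t : C[Z[x ^ 2]], (t : G) * x * (t : G)⁻¹ = x → t ∈ C[(Z[x]).subgroupOf C[Z[x ^ 2]]] :=
    fun t ht => mem_cent_iff_conj.2 fun y ⟨k, hk⟩ => Subtype.ext (by
      simp only [Subgroup.coe_mul, Subgroup.coe_inv, ← show x ^ k = y from hk, ← conj_zpow, ht])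
  obtain ⟨Φ, hΦ, -⟩ := CfsgH4.exists_abF (ι := ι) hm hγ (fun i j h6 => pow_val_inj ho
      ((hι i).symm.trans (h6 ▸ hι j))) (Subgroup.ext fun y => ⟨fun ⟨j, h6⟩ => by
        rw [Subgroup.mem_subgroupOf, ← h6, hι]; exact pow_val_mem _, fun h6 => by
        obtain ⟨j, h7⟩ := exists_pow_val ho h6
        exact ⟨.ofAdd j, Subtype.ext ((hι _).trans h7)⟩⟩)
    (fun t ht => h5 t (Dh.comm ht (Subgroup.mem_zpowers x))) (fun t ht => h5 t (by
      have h6 := (map_mem_stab_iff (C[Z[x ^ 2]]).subtype_injective).2 ht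
      rw [h3, he] at h6
      refine (h.fcl x (Subgroup.mem_zpowers x) (fun h7 => h4 (by simp [h7])) _
        ((Subgroup.mem_normalizer_iff.1 h6.1 x).1 (Subgroup.mem_zpowers x))
        ⟨t, (hx.fuses_iff_stab h.hm.pr h6.1).2 h6, rfl⟩).resolve_right fun h7 => h4 ?_
      have h8 := mem_cent_zpowers.1 t.2
      rw [← mul_inv_eq_iff_eq_mul, ← conj_pow, show (t : G) * x * (t : G)⁻¹ = _ from h7] at h8
      rw [← mul_eq_one_iff_eq_inv', inv_pow] at *
      simpa [mul_eq_one_iff_eq_inv] using h8.symm)) hθ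
  refine ⟨ι, _, e', γ, Φ, hΦ, hι, fun a c ha hc' j hj => ?_⟩
  have h6 : x ^ j.toAdd.val * x ^ j.toAdd.val ≠ 1 := by
    rw [← pow_val_add ho]
    exact pow_val_ne ho hj
  have h7 : C[Z[(ι j : G)]] ≤ C[Z[x ^ 2]] := cent_anti (Subgroup.zpowers_le.2 (by
    obtain ⟨k, hk⟩ : ∃ k : Fin 8, j ^ k.val = .ofAdd 2 := by clear h6; revert j; decide
    have h7 : (ι j : G) ^ k.val = x ^ 2 := by rw [← Subgroup.coe_pow, ← map_pow, hk, hι]; rfl
    exact ⟨k.val, by simpa using h7⟩))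
  have h8 := hm.pr.cP_inc (C[Z[x ^ 2]]).subtype_injective (hΦ.mem_P j) (by simpa using h7) a c
  rw [h3, he, cP, hx.dn_eq h.hm.pr (by rw [Subgroup.zpowers_le]; exact hΦ.mem_P j)] at h8
  rw [← hΦ.cP_dl (ha.restrict _) (hc'.restrict _), ← h.cP_eq _ _ ha hc' _ fun h9 => h6 (by
    simp [h9]), h.dh.inf_cent (pow_val_mem _) h6, Nat.card_zpowers, ho, ← hι, cP]
  congr 1
  · simp
  · exact h8.symm

theorem DiD.cong {f : (G → ℂ) → ZMod (2 ^ (1 + 1 + 1)) → ℂ} (h : DiD P x 1 e B f) :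
    ¬ MemLocalIdeal M
      (Nat.card G / 64 * ∑ χ : IrrCharacter G, conj (f χ.1 1) ^ 2 * f χ.1 2 / χ.1 1) := by
  classical
  intro hW
  have := Fintype.ofFinite C[Z[x ^ 2]]
  obtain ⟨ι, X, e', γ, Φ, hΦ, hι, hf⟩ := h.exists_abF
  obtain ⟨χ, hχ, h0⟩ := exists_height_zero (p := 2) h.hB.nonempty
  have hc := χ.2.isClassFunction
  have hP := h.hm.pr
  have h1 := hP.fSt_ind (x ^ (1 : ZMod (2 ^ (1 + 1 + 1))).val)
  set t := bs 2 P e (fun v => if FCl 2 P e (x ^ (1 : ZMod (2 ^ (1 + 1 + 1))).val) v then 1 else 0)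
    χ.1 with ht
  have h2 : IsClassFunction G t := h1.isClassFunction hc
  have h3 : (CfsgH4.mk fun g => t g⁻¹) ∈ LG G M := mk_mem_LG fun g => bs_mem_Loc (fun u => by
    split_ifs; exacts [one_mem _, zero_mem _]) (char_mem_Loc χ.2.isCharacter) _
  have hA : (Nat.card (Multiplicative (ZMod (2 ^ (1 + 1 + 1)))) : ℂ) = 8 := by simp
  have h8 : ∀ j : ZMod (2 ^ (1 + 1 + 1)), j ≠ 0 → j ≠ -j → ∀ a c, IsClassFunction G a →
      IsClassFunction G c → 8 * cP 2 P e a c (x ^ j.val) = f a j * conj (f c j) :=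
    fun j h4 h5 a c ha hc => by rw [← h.cP_eq a c ha hc j h4, h.card_cent h4, if_neg h5]; norm_num
  have hu : ∀ j : Multiplicative (ZMod (2 ^ (1 + 1 + 1))), j * j ≠ 1 →
      ¬ MemLocalIdeal M (dl Φ (fun g => χ.1 g) j * conj (dl Φ (fun g => χ.1 g) j)) := fun j hj => by
    rw [hf _ _ hc hc j hj]
    exact h.unit hχ h0 fun h4 => hj (by rw [show j = 1 from h4, one_mul])
  have h4 : ∀ j, dl Φ (fun g => t g) j =
      if j = .ofAdd 1 ∨ j = (Multiplicative.ofAdd 1)⁻¹ then dl Φ (fun g => χ.1 g) j else 0 := by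
    intro j
    by_cases hj : j * j = 1
    · rw [if_neg (by revert j; decide)]
      have h5 := hΦ.cP_right (h2.restrict _) 1 j
      rw [cP, ct, Finset.sum_eq_zero fun g hg => ?_] at h5
      · simpa using h5.symm
      simp only [Finset.mem_filter, Finset.mem_univ, true_and] at hg
      have hb := (hΦ.hm.pr.pr_dn (Subgroup.zpowers_le.2 (hΦ.mem_P j))).blk
      rw [← hg] at hb
      rw [← hg, ev_lft_congr (a := fun g : C[Z[x ^ 2]] => t g) (c := 0) hb (fun x _ y _ => h2 _ _)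
        (fun _ _ _ _ => rfl) fun y hy => ?_, ev_eq_sum]
      · simp
      have h6 : ppart 2 (y : G) * ppart 2 (y : G) = 1 := by
        rw [show ppart 2 (y : G) = ((ppart 2 y : C[Z[x ^ 2]]) : G) from
          ppart_map 2 (C[Z[x ^ 2]]).subtype y, hy, hg, ← Subgroup.coe_mul, ← map_mul, hj]
        simp
      rw [ht, bs, bst_apply, Finset.sum_eq_zero fun b _ => ?_, Pi.zero_apply]
      unfold ext
      split_ifs with h7
      · refine mul_eq_zero_of_left (if_neg ?_) _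
        rintro ⟨s, -, h9⟩
        have h10 := congrArg (fun z => z * z) h9
        simp only [conj_mul, h6, mul_one, mul_inv_cancel, conj_eq_one_iff] at h10
        exact absurd h10 (by rw [← pow_val_add h.dh.ord]; exact pow_val_ne h.dh.ord (by decide))
      · exact zero_mul _
    · have h5 : j.toAdd ≠ 0 := fun h4 => hj (by rw [show j = 1 from h4, one_mul])
      refine mul_right_cancel₀ (right_ne_zero_of_mul (ne_zero_of_not_InP (hu j hj))) ?_
      rw [hf _ _ h2 hc j hj, ← h.cP_eq _ _ h2 hc _ h5, hP.cP_left h1 (h.mem _) hc,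
        h.fcl_iff (by decide), mul_left_comm, h.cP_eq _ _ hc hc _ h5, ← hf _ _ hc hc j hj]
      by_cases h6 : j = .ofAdd 1 ∨ j = (Multiplicative.ofAdd 1)⁻¹
      · rw [if_pos h6, if_pos (show j.toAdd = 1 ∨ j.toAdd = -1 from h6), one_mul]
      · rw [if_neg h6, if_neg (show ¬ (j.toAdd = 1 ∨ j.toAdd = -1) from h6), zero_mul, zero_mul]
  set a := dl Φ (fun g => χ.1 g) (.ofAdd 1)
  set a' := dl Φ (fun g => χ.1 g) (Multiplicative.ofAdd 1)⁻¹
  set b := dl Φ (fun g => χ.1 g) (.ofAdd 2)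
  have h5 : ∀ l, 8 * classInner (fun g : C[Z[x ^ 2]] => t g) (Φ l).1 =
      a * l (Multiplicative.ofAdd 1)⁻¹ + a' * l (.ofAdd 1) := fun l => by
    rw [← hA, ← sum_dl, Fintype.sum_eq_add (.ofAdd 1) (Multiplicative.ofAdd 1)⁻¹ (by decide)
      fun j hj => by rw [h4, if_neg (not_or.2 hj), zero_mul], h4, h4, if_pos (Or.inl rfl),
      if_pos (Or.inr rfl), conj_lin, conj_lin, inv_inv]
  have h6 : ∑ l, classInner (fun g : C[Z[x ^ 2]] => t g) (Φ l).1 ^ 2 * l (.ofAdd 2) = a ^ 2 / 8 := by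
    have e1 := sum_lin hΦ.mul_comm 1
    have e2 := sum_lin hΦ.mul_comm (.ofAdd 2)
    have e4 := sum_lin hΦ.mul_comm (.ofAdd 4)
    rw [if_pos rfl, hA] at e1
    rw [if_neg (by decide)] at e2 e4
    rw [Finset.sum_congr rfl (g := fun l => (a ^ 2 * l 1 + 2 * a * a' * l (.ofAdd 2) +
      a' ^ 2 * l (.ofAdd 4)) / 64) fun l _ => ?_, ← Finset.sum_div]
    · simp only [Finset.sum_add_distrib, ← Finset.mul_sum, e1, e2, e4]; ring
    have e5 : (l (.ofAdd 2) : ℂ) = l (.ofAdd 1) ^ 2 := by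
      rw [← Units.val_pow_eq_pow_val, ← map_pow]; rfl
    have e6 : (l (.ofAdd 4) : ℂ) = l (.ofAdd 1) ^ 4 := by
      rw [← Units.val_pow_eq_pow_val, ← map_pow]; rfl
    rw [eq_div_of_mul_eq (by norm_num) ((mul_comm _ _).trans (h5 l)), e5, e6]
    simp only [map_inv, map_one, Units.val_inv_eq_inv_val, Units.val_one]
    field_simp
    ring
  set t2 := ∑ ψ : IrrCharacter G, (om ψ.1 (CfsgH4.mk fun g => t g⁻¹) ^ 2 * ψ.1 1 / Nat.card G) • ψ.1
  have h7 : IsClassFunction G t2 := fun x y => by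
    simp only [t2, Finset.sum_apply, Pi.smul_apply, fun η : IrrCharacter G => η.2.isClassFunction x y]
  have hG : (Nat.card G : ℂ) ≠ 0 := Nat.cast_ne_zero.2 Nat.card_pos.ne'
  have h9 : (CfsgH4.mk fun g => t g⁻¹) * (CfsgH4.mk fun g => t g⁻¹) = CfsgH4.mk fun g => t2 g⁻¹ := by
    refine central_ext ((inv_mk_inv h2).mul (inv_mk_inv h2)) (inv_mk_inv h7) fun ψ => ?_
    rw [om_mul ψ.2 (inv_mk_inv h2), om_mk_inv ψ t2, classInner_sum_left, Finset.sum_eq_single ψ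
      (fun η _ h9 => by rw [classInner_smul_left, η.2.classInner_eq_ite ψ.2,
        if_neg fun h => h9 (Subtype.ext h), mul_zero]) (by simp), classInner_smul_left,
      ψ.2.classInner_self]
    field_simp [ψ.2.apply_one_ne_zero]
  have h10 : dl Φ (fun g => t2 g) (.ofAdd 2) * conj b = f χ.1 1 ^ 2 * conj (f χ.1 2) *
      (Nat.card G / 64 * ∑ χ : IrrCharacter G, conj (f χ.1 1) ^ 2 * f χ.1 2 / χ.1 1) := by
    rw [hf _ _ h7 hc _ (by decide), toAdd_ofAdd, ← h8 2 (by decide) (by decide) _ _ h7 hc,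
      cP_sum_left, Finset.mul_sum, Finset.mul_sum, Finset.mul_sum]
    refine Finset.sum_congr rfl fun ψ _ => ?_
    rw [mul_left_comm, h8 2 (by decide) (by decide) _ _ ψ.2.isClassFunction hc, om_mk_inv, ht,
      hP.classInner_ind (h.mem 1) hc ψ.2.isClassFunction, eq_div_of_mul_eq (by norm_num)
      ((mul_comm _ _).trans (h8 1 (by decide) (by decide) _ _ hc ψ.2.isClassFunction))]
    field_simp [ψ.2.apply_one_ne_zero]
    ring
  have hi := inv_pull_top (C[Z[x ^ 2]]).subtype (inv_mk_inv h2)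
  have h11 := hΦ.InP_sum ((inv_pull_top _ ((inv_mk_inv h2).mul (inv_mk_inv h2))).sub (hi.mul hi))
    (sub_mem (pull_mem_LG _ (mul_mem h3 h3)) (mul_mem (pull_mem_LG _ h3) (pull_mem_LG _ h3)))
    (redG_pull_mul (hP.pgrp.to_le (Subgroup.zpowers_le.2 (pow_mem h.dh.mem 2))) (inv_mk_inv h2)
      (inv_mk_inv h2) h3 h3) (.ofAdd 2)
  obtain ⟨k1, k2⟩ := hΦ.unit 1
  rw [hA] at h11 k1 k2
  set κ := 8 * (Φ 1).1 1 / (Nat.card C[Z[x ^ 2]] : ℂ) with hκ
  have h12 : ∀ l, (Nat.card C[Z[x ^ 2]] : ℂ) / (Φ l).1 1 = 8 * κ⁻¹ := fun l => by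
    rw [hΦ.apply_one, hκ]; field_simp
  simp only [h9, map_sub, fun l => om_mul (Φ l).2 hi, om_pull_mk, h12, Subgroup.coe_subtype] at h11
  have ia : IsIntegral ℤ a := isIntegral_dl Φ (χ.2.isGen.restrict _) _
  have ib : IsIntegral ℤ b := isIntegral_dl Φ (χ.2.isGen.restrict _) _
  have i1 := fun j => (h.gen _ χ.2.isGen).isIntegral (.ofAdd j)
  have h13 := InP.sub (InP.mul_left (mem_Loc_of_isIntegral (((i1 1).pow 2).mul
    (isIntegral_conj (i1 2)))) hW) (InP.mul_left (mul_mem k1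
      (mem_Loc_of_isIntegral (isIntegral_conj ib))) h11)
  rw [toAdd_ofAdd, toAdd_ofAdd, ← h10, show _ - _ = κ⁻¹ * (a * (a * conj b)) from ?_] at h13
  · have h14 : ¬ MemLocalIdeal M a := fun h14 =>
      hu _ (by decide) (InP.mul_right h14 (mem_Loc_of_isIntegral (isIntegral_conj ia)))
    have ia' := mem_Loc_of_isIntegral (M := M) ia
    have ib' := mem_Loc_of_isIntegral (M := M) (isIntegral_conj ib)
    refine (InP.or_of_mul (inv_mem_Loc k1 k2) (mul_mem ia' (mul_mem ia' ib')) h13).elim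
      (not_InP_inv k1 k2) fun h15 => (InP.or_of_mul ia' (mul_mem ia' ib') h15).elim h14 fun h16 =>
      (InP.or_of_mul ia' ib' h16).elim h14 fun h17 =>
        hu _ (by decide) (InP.mul_left (mem_Loc_of_isIntegral ib) h17)
  rw [Finset.sum_congr rfl (g := fun l => 8 * κ⁻¹ * (classInner (fun g : C[Z[x ^ 2]] => t2 g)
    (Φ l).1 * l (.ofAdd 2)) - 64 * κ⁻¹ ^ 2 * (classInner (fun g : C[Z[x ^ 2]] => t g) (Φ l).1 ^ 2 *
      l (.ofAdd 2))) fun l _ => by ring, Finset.sum_sub_distrib, ← Finset.mul_sum, ← Finset.mul_sum,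
    h6, ← dl]
  field_simp [ne_zero_of_not_InP k2]
  ring

end CfsgH4
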