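import Cfsg.Agent.H4.Di3

/-! Blocks with dihedral defect groups: the character table on the rotation subgroup. -/

set_option autoImplicit false
open Cfsg MonoidAlgebra CfsgL0 CfsgH1 CfsgH4
open CfsgH3 hiding cj cj_cj
open scoped ComplexConjugate Pointwise

namespace CfsgH4

theorem four_conf : ∀ S T U : Finset (Fin 4), S.card = 2 → T.card = 2 → U.card = 2 →
    (S ∩ T).card = 1 → (S ∩ U).card = 1 → (T ∩ U).card = 1 → ∃ a b c d : Fin 4,
      [a, b, c, d].Nodup ∧ S = {a, b} ∧ T = {a, c} ∧ (U = {a, d} ∨ U = {b, c}) := by decide +kernel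

theorem four_conf' : ∀ S : Finset (Fin 4), S.card = 2 → ∃ a b c d : Fin 4,
    [a, b, c, d].Nodup ∧ S = {a, b} := by decide +kernel

theorem sum_four {A : Type*} [AddCommMonoid A] {a b c d : Fin 4} (h : [a, b, c, d].Nodup)
    (F : Fin 4 → A) : ∑ i, F i = F a + F b + F c + F d := by
  have : ∀ a b c d : Fin 4, [a, b, c, d].Nodup → Finset.univ = [a, b, c, d].toFinset := by decide
  rw [this a b c d h, List.sum_toFinset _ h]
  simp [add_assoc]

theorem sum_split {ι κ A : Type*} [Fintype ι] [Fintype κ] [AddCommMonoid A] {c : κ → ι}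
    (hc : Function.Injective c) {g : ι} (hg : ∀ i, c i ≠ g) {F : ι → A}
    (h : ∀ χ, (∀ i, c i ≠ χ) → χ ≠ g → F χ = 0) : ∑ χ, F χ = ∑ i, F (c i) + F g := by
  classical
  rw [add_comm, ← Finset.sum_image (s := Finset.univ) (f := F) fun _ _ _ _ h => hc h,
    ← Finset.sum_insert (by simpa using hg)]
  exact (Finset.sum_subset (Finset.subset_univ _) fun χ _ h1 => by
    simp only [Finset.mem_insert, Finset.mem_image, Finset.mem_univ, true_and, not_or,
      not_exists] at h1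
    exact h χ h1.2 h1.1).symm

variable {G : Type*} [Group G] [Fintype G] {P : Subgroup G} {x : G} {n : ℕ} {M : Ideal AlgInt}
  [hM : PMod 2 M] {e : (Res M)[G]} {B : Set (IrrCharacter G)} {χ χ' : IrrCharacter G}
  {f : (G → ℂ) → ZMod (2 ^ (n + 1 + 1)) → ℂ} {i j k l : ZMod (2 ^ (n + 1 + 1))}
  {ψ : AddChar (ZMod (2 ^ (n + 1 + 1))) ℂ} {D : IrrCharacter G → ZMod (2 ^ (n + 1 + 1)) → ℤ}

local notation "μ" => ((2 ^ (n + 1) : ℕ) : ZMod (2 ^ (n + 1 + 1)))

variable (P x n e B f ψ D) in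
/-- The integral columns of a block with dihedral defect group. -/
structure DiN : Prop extends DiD P x n e B f where
  prim : ψ.IsPrimitive
  hD : ∀ χ k, ((2 ^ (n + 1 + 1) : ℕ) : ℂ) * D χ k = ∑ j, f χ.1 j * (1 - ψ (j * k))

theorem DiD.exists_diN (h : DiD P x n e B f) (hψ : ψ.IsPrimitive) : ∃ D, DiN P x n e B f ψ D := by
  choose D hD using fun (χ : IrrCharacter G) k => exists_fourier ψ (h.gen _ χ.2.isGen) k
  exact ⟨D, h, hψ, hD⟩

omit hM in
theorem mu_ne : μ ≠ 0 := half_ne_zero (pow_succ' 2 _)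

omit hM in
theorem neg_mu : -μ = μ := (neg_eq_iff_half (pow_succ' 2 _)).2 (Or.inr rfl)

namespace DiN
variable (h : DiN P x n e B f ψ D)
include h

theorem zero (χ : IrrCharacter G) : D χ 0 = 0 := fourier_zero (h.hD χ)

theorem neg (χ : IrrCharacter G) (k : ZMod (2 ^ (n + 1 + 1))) : D χ (-k) = D χ k :=
  fourier_neg (h.hD χ) (h.sym _ χ.2.isClassFunction) k

theorem inv (χ : IrrCharacter G) (hj : j ≠ 0) : f χ.1 j = -∑ k, D χ k * ψ (k * j) :=
  fourier_inv h.prim (h.hD χ) (h.sym _ χ.2.isClassFunction) hj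

theorem gram (hk : k ≠ 0) (hl : l ≠ 0) :
    ∑ χ, D χ k * D χ l = 2 + (if k = l then 1 else 0) + if k = -l then 1 else 0 :=
  fourier_gram h.prim h.hD (fun _ _ => h.toDiD.orth) hk hl

theorem reg (k : ZMod (2 ^ (n + 1 + 1))) {g : G} (hg : ¬ 2 ∣ orderOf g) :
    ∑ χ, D χ k * χ.1 g = 0 := by
  refine mul_left_cancel₀ (a := conj ((2 ^ (n + 1 + 1) : ℕ) : ℂ)) (by simp) ?_
  rw [mul_zero, Finset.mul_sum, Finset.sum_congr rfl
    (g := fun χ => ∑ j, conj (f χ.1 j * (1 - ψ (j * k))) * χ.1 g) fun χ _ => by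
      rw [← mul_assoc, ← Finset.sum_mul, ← map_sum, ← h.hD, map_mul, map_intCast], Finset.sum_comm]
  refine Finset.sum_eq_zero fun j _ => ?_
  by_cases hj : j = 0
  · simp [hj]
  · simp only [map_mul, mul_right_comm _ (conj (1 - ψ (j * k))), ← Finset.sum_mul, h.toDiD.reg hj hg,
      zero_mul]

theorem of_notMem (hχ : χ ∉ B) (k : ZMod (2 ^ (n + 1 + 1))) : D χ k = 0 := by
  have := h.hD χ k
  rw [Finset.sum_eq_zero fun j _ => by
    by_cases hj : j = 0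
    · simp [hj]
    · rw [h.toDiD.of_notMem hχ hj, zero_mul]] at this
  simpa using this

theorem mu_eq (χ : IrrCharacter G) : f χ.1 μ = (-∑ k, D χ k * (-1) ^ k.val : ℤ) := by
  simp only [h.inv χ mu_ne, psi_half (pow_succ' 2 _) h.prim]
  push_cast
  rfl

theorem dvd (hχ : χ ∈ B) : 2 ^ blockHeight 2 B χ.1 ∣ ∑ k, D χ k * (-1) ^ k.val ∧
    (blockHeight 2 B χ.1 = 0 → ¬ 2 ∣ ∑ k, D χ k * (-1) ^ k.val) ∧
      ∑ k, D χ k * (-1) ^ k.val ≠ 0 := by
  obtain ⟨χ', hχ', h0⟩ := exists_height_zero (p := 2) h.hB.nonempty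
  obtain ⟨w, h1, h2, h3⟩ := h.toDiD.height hχ hχ' h0
  obtain ⟨w', -, h4, h5⟩ := h.toDiD.height hχ' hχ' h0
  rw [h.mu_eq, h.mu_eq, map_intCast, ← Int.cast_mul, neg_mul_neg] at h3
  rw [h.mu_eq, map_intCast, ← Int.cast_mul, neg_mul_neg, h0, pow_zero, one_mul] at h5
  rw [← h5, InP_intCast_iff] at h4
  refine ⟨IsCoprime.dvd_of_dvd_mul_right (IsCoprime.pow_left ((Int.prime_two.irreducible.coprime_iff_not_dvd).2
    fun h6 => h4 (h6.mul_left _))) (pow_dvd_of_div_mem_Loc (M := M) (p := 2) ?_), fun h6 h7 => h2 ?_,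
    fun h6 => h2 ?_⟩
  · rw [h3]; simpa using h1
  · rw [h6, pow_zero, one_mul] at h3
    rw [← h3, InP_intCast_iff]
    exact h7.mul_right _
  · rw [h6, zero_mul, Int.cast_zero, eq_comm, mul_eq_zero] at h3
    rw [h3.resolve_left (by simp)]
    exact InP.zero

theorem odd_iff (χ : IrrCharacter G) : ¬ 2 ∣ D χ μ ↔ χ ∈ B ∧ blockHeight 2 B χ.1 = 0 := by
  have h1 := two_dvd_sum (pow_succ' 2 _) (h.zero χ) (h.neg χ)
  refine ⟨fun h2 => ?_, fun h2 h3 => (h.dvd h2.1).2.1 h2.2 (by simpa using h1.add h3)⟩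
  have h3 : χ ∈ B := by_contra fun h3 => h2 (by simp [h.of_notMem h3])
  refine ⟨h3, by_contra fun h4 => h2 ?_⟩
  simpa using ((dvd_pow_self 2 h4).trans (h.dvd h3).1).sub h1

theorem exists_four : ∃ c : Fin 4 → IrrCharacter G, Function.Injective c ∧
    (∀ i, D (c i) μ = 1 ∨ D (c i) μ = -1) ∧ ∀ χ, (∀ i, c i ≠ χ) → D χ μ = 0 := by
  classical
  obtain ⟨χ', hχ', h0⟩ := exists_height_zero (p := 2) h.hB.nonempty
  have h1 := h.gram mu_ne mu_ne
  rw [if_pos rfl, if_pos neg_mu.symm] at h1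
  have h2 := h.toDiD.orth mu_ne mu_ne
  simp only [h.mu_eq, map_intCast, neg_mu, if_true, ← Int.cast_mul, neg_mul_neg] at h2
  have h3 : ∑ χ, (∑ k, D χ k * (-1) ^ k.val) * ∑ k, D χ k * (-1) ^ k.val = 2 ^ (n + 1 + 1) * 2 := by
    rw [← Int.cast_sum, one_add_one_eq_two] at h2
    exact_mod_cast h2
  have h4 : ∀ χ, 0 ≤ D χ μ * D χ μ - if ¬ 2 ∣ D χ μ then 1 else 0 := fun χ => by
    split_ifs with h4
    · simpa using mul_self_nonneg _
    · have : D χ μ ≠ 0 := fun h5 => h4 (h5 ▸ dvd_zero 2)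
      have := mul_self_pos.2 this
      omega
  have h5 : 4 ∣ ∑ χ, ((∑ k, D χ k * (-1) ^ k.val) * (∑ k, D χ k * (-1) ^ k.val) -
      if ¬ 2 ∣ D χ μ then 1 else 0) := Finset.dvd_sum fun χ _ => by
    obtain ⟨a, ha⟩ := two_dvd_sum (pow_succ' 2 _) (h.zero χ) (h.neg χ)
    rw [sub_eq_iff_eq_add.1 ha]
    rcases Int.even_or_odd' (D χ μ) with ⟨b, hb | hb⟩ <;> rw [hb]
    · rw [if_neg (by simp)]; exact ⟨(a + b) ^ 2, by ring⟩
    · rw [if_pos (by omega)]; exact ⟨(a + b) ^ 2 + a + b, by ring⟩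
  have h6 := Finset.sum_nonneg (s := Finset.univ) fun χ _ => h4 χ
  have h7 := Finset.card_pos.2 (⟨χ', by simpa using (h.odd_iff χ').2 ⟨hχ', h0⟩⟩ :
    (Finset.univ.filter fun χ => ¬ 2 ∣ D χ μ).Nonempty)
  simp only [Finset.sum_sub_distrib, h1, h3, Finset.sum_boole] at h5 h6
  rw [pow_succ, pow_succ] at h5
  have h8 : (Finset.univ.filter fun χ => ¬ 2 ∣ D χ μ).card = 4 := by omega
  have h9 := (Finset.sum_eq_zero_iff_of_nonneg (s := Finset.univ) fun χ _ => h4 χ).1 (by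
    simp only [Finset.sum_sub_distrib, h1, Finset.sum_boole, h8]; rfl)
  let c := (Finset.equivFinOfCardEq h8).symm
  refine ⟨fun i => c i, fun i j h => c.injective (Subtype.ext h), fun i => ?_, fun χ h10 => ?_⟩
  · have := h9 (c i) (Finset.mem_univ _)
    rwa [if_pos (Finset.mem_filter.1 (c i).2).2, sub_eq_zero, mul_self_eq_one_iff] at this
  · have := h9 χ (Finset.mem_univ _)
    rwa [if_neg fun h11 => h10 (c.symm ⟨χ, by simpa using h11⟩) (by simp), sub_zero,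
      mul_self_eq_zero] at this

end DiN

variable {c : Fin 4 → IrrCharacter G} {g : ZMod (2 ^ (n + 1 + 1)) → IrrCharacter G}

variable (P x n e B f ψ D c g) in
/-- The rows of the integral columns. -/
structure DiC : Prop extends DiN P x n e B f ψ D where
  inj : Function.Injective c
  sgn : ∀ i, D (c i) μ = 1 ∨ D (c i) μ = -1
  van : ∀ χ, (∀ i, c i ≠ χ) → D χ μ = 0
  g_ne : ∀ k, k ≠ 0 → k ≠ μ → ∀ i, c i ≠ g k
  g_sgn : ∀ k, k ≠ 0 → k ≠ μ → D (g k) k = 1 ∨ D (g k) k = -1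
  g_van : ∀ k, k ≠ 0 → k ≠ μ → ∀ χ, (∀ i, c i ≠ χ) → χ ≠ g k → D χ k = 0
  c_val : ∀ k, k ≠ 0 → k ≠ μ → ∀ i, D (c i) k = 0 ∨ D (c i) k = D (c i) μ

omit hM in
theorem ne_neg_of (hk : k ≠ 0) (hk' : k ≠ μ) : k ≠ -k := fun h =>
  ((neg_eq_iff_half (pow_succ' 2 _)).1 h.symm).elim hk hk'

theorem DiN.exists_diC (h : DiN P x n e B f ψ D) : ∃ c g, DiC P x n e B f ψ D c g := by
  obtain ⟨c, h1, h2, h3⟩ := h.exists_four
  have h4 : ∀ χ, D χ μ = 0 ∨ D χ μ = 1 ∨ D χ μ = -1 := fun χ => by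
    by_cases h4 : ∃ i, c i = χ
    · obtain ⟨i, rfl⟩ := h4
      exact Or.inr (h2 i)
    · exact Or.inl (h3 χ (not_exists.1 h4))
  have h5 : ∀ k, ∃ g, k ≠ 0 → k ≠ μ → D g μ = 0 ∧ (D g k = 1 ∨ D g k = -1) ∧
      ∀ χ, χ ≠ g → D χ k = 0 ∨ D χ k = D χ μ := fun k => by
    by_cases hk : k ≠ 0 ∧ k ≠ μ
    · exact (comb_three h4 (by rw [h.gram hk.1 hk.1, if_pos rfl, if_neg (ne_neg_of hk.1 hk.2)]; rfl)
        (by rw [h.gram hk.1 mu_ne, neg_mu, if_neg hk.2]; rfl)).imp fun _ h _ _ => h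
    · exact ⟨c 0, fun h6 h7 => absurd ⟨h6, h7⟩ hk⟩
  choose g hg using h5
  have h6 : ∀ k, k ≠ 0 → k ≠ μ → ∀ i, c i ≠ g k := fun k hk hk' i h6 => by
    have := h2 i
    rw [h6, (hg k hk hk').1] at this
    omega
  exact ⟨c, g, h, h1, h2, h3, h6, fun k hk hk' => (hg k hk hk').2.1, fun k hk hk' χ h7 h8 =>
    ((hg k hk hk').2.2 χ h8).elim id fun h9 => h9.trans (h3 χ h7), fun k hk hk' i =>
      (hg k hk hk').2.2 _ (h6 k hk hk' i)⟩

variable (D c) in
/-- The characters of height zero in the support of a column. -/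
def tS (k : ZMod (2 ^ (n + 1 + 1))) : Finset (Fin 4) := Finset.univ.filter fun i => D (c i) k ≠ 0

namespace DiC
variable (h : DiC P x n e B f ψ D c g)
include h

theorem sq (i : Fin 4) : D (c i) μ * D (c i) μ = 1 := mul_self_eq_one_iff.2 (h.sgn i)

theorem t_neg (k : ZMod (2 ^ (n + 1 + 1))) : tS D c (-k) = tS D c k := by
  simp only [tS, h.toDiN.neg]

section
variable (hk : k ≠ 0) (hk' : k ≠ ((2 ^ (n + 1) : ℕ) : ZMod (2 ^ (n + 1 + 1))))
include hk hk'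

theorem val (i : Fin 4) : D (c i) k = if i ∈ tS D c k then D (c i) μ else 0 := by
  simp only [tS, Finset.mem_filter, Finset.mem_univ, true_and]
  split_ifs with h1
  exacts [(h.c_val k hk hk' i).resolve_left h1, not_not.1 h1]

theorem card_t : (tS D c k).card = 2 := by
  have := h.toDiN.gram hk mu_ne
  rw [neg_mu, if_neg hk', sum_split h.inj (h.g_ne k hk hk') fun χ h1 _ => by
    rw [h.van χ h1, mul_zero], h.van _ (h.g_ne k hk hk')] at this
  simp only [h.val hk hk', ite_mul, h.sq, zero_mul, Finset.sum_boole, Finset.filter_mem_eq_inter,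
    Finset.univ_inter] at this
  omega

theorem g_neg : g (-k) = g k := by
  have h1 : -k ≠ μ := fun h1 => hk' (by rw [← neg_neg k, h1, neg_mu])
  by_contra h2
  have h3 := h.g_van _ (neg_ne_zero.2 hk) h1 _ (h.g_ne k hk hk') (Ne.symm h2)
  have := h.g_sgn k hk hk'
  rw [h.toDiN.neg] at h3
  omega

theorem reg {ρ : G} (hρ : ¬ 2 ∣ orderOf ρ) :
    ∑ i with i ∈ tS D c k, D (c i) μ * (c i).1 ρ + D (g k) k * (g k).1 ρ = 0 := by
  rw [← h.toDiN.reg k hρ, sum_split h.inj (h.g_ne k hk hk') fun χ h1 h2 => by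
    rw [h.g_van k hk hk' χ h1 h2, Int.cast_zero, zero_mul], Finset.sum_filter]
  simp only [h.val hk hk']
  congr 1
  exact Finset.sum_congr rfl fun i _ => by split_ifs <;> simp

theorem pair (hl : l ≠ 0) (hl' : l ≠ μ) (h1 : k ≠ l) (h2 : k ≠ -l) :
    g k ≠ g l ∧ tS D c k = tS D c l ∨
      g k = g l ∧ D (g k) k = D (g k) l ∧ (tS D c k ∩ tS D c l).card = 1 := by
  have := h.toDiN.gram hk hl
  rw [if_neg h1, if_neg h2, sum_split h.inj (h.g_ne k hk hk') fun χ h1 h2 => by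
    rw [h.g_van k hk hk' χ h1 h2, zero_mul]] at this
  simp only [h.val hk hk', h.val hl hl', ite_mul, mul_ite, h.sq, zero_mul, mul_zero, ← ite_and,
    ← Finset.mem_inter, Finset.sum_boole, Finset.filter_mem_eq_inter, Finset.univ_inter] at this
  rw [Finset.inter_comm] at this
  have h3 := h.card_t hk hk'
  have h4 := h.card_t hl hl'
  by_cases h5 : g k = g l
  · have h6 := h.g_sgn k hk hk'
    have h7 := h.g_sgn l hl hl'
    have h8 := Finset.card_le_card (Finset.inter_subset_left (s₁ := tS D c k) (s₂ := tS D c l))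
    rw [← h5] at h7
    refine Or.inr ⟨h5, ?_⟩
    rcases h6 with h6 | h6 <;> rcases h7 with h7 | h7 <;> rw [h6, h7] at this ⊢ <;> omega
  · rw [h.g_van l hl hl' _ (h.g_ne k hk hk') h5] at this
    exact Or.inl ⟨h5, (Finset.eq_of_subset_of_card_le Finset.inter_subset_left (by omega)).symm.trans
      (Finset.eq_of_subset_of_card_le Finset.inter_subset_right (by omega))⟩

end

theorem reg_mu {ρ : G} (hρ : ¬ 2 ∣ orderOf ρ) : ∑ i, D (c i) μ * (c i).1 ρ = 0 := by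
  classical
  rw [← h.toDiN.reg μ hρ, ← Finset.sum_image (s := Finset.univ)
    (f := fun χ => D χ μ * χ.1 ρ) fun _ _ _ _ h1 => h.inj h1]
  exact Finset.sum_subset (Finset.subset_univ _) fun χ _ h1 => by
    rw [h.van χ (by simpa using h1), Int.cast_zero, zero_mul]

theorem c_iff (χ : IrrCharacter G) : (∃ i, c i = χ) ↔ χ ∈ B ∧ blockHeight 2 B χ.1 = 0 := by
  rw [← h.toDiN.odd_iff]
  refine ⟨fun ⟨i, h1⟩ => by have := h.sgn i; rw [h1] at this; omega, fun h1 => by_contra fun h2 =>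
    h1 (h.van χ (not_exists.1 h2) ▸ dvd_zero 2)⟩

end DiC

theorem DiC.not_exotic {f : (G → ℂ) → ZMod (2 ^ (1 + 1 + 1)) → ℂ}
    {ψ : AddChar (ZMod (2 ^ (1 + 1 + 1))) ℂ} {D : IrrCharacter G → ZMod (2 ^ (1 + 1 + 1)) → ℤ}
    {g : ZMod (2 ^ (1 + 1 + 1)) → IrrCharacter G} (h : DiC P x 1 e B f ψ D c g) (h12 : g 1 = g 2)
    (h13 : g 1 = g 3) : False := by
  have hμ : ((2 ^ (1 + 1) : ℕ) : ZMod (2 ^ (1 + 1 + 1))) = 4 := rfl
  have key : ∀ k l : ZMod (2 ^ (1 + 1 + 1)), k ≠ 0 → k ≠ 4 → l ≠ 0 → l ≠ 4 → k ≠ l → k ≠ -l →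
      g k = g l → D (g k) k = D (g k) l ∧ (tS D c k ∩ tS D c l).card = 1 :=
    fun k l h1 h2 h3 h4 h5 h6 h7 => ((h.pair h1 h2 h3 h4 h5 h6).resolve_left fun h8 => h8.1 h7).2
  obtain ⟨e2, i2⟩ := key 1 2 (by decide) (by decide) (by decide) (by decide) (by decide)
    (by decide) h12
  obtain ⟨e3, i3⟩ := key 1 3 (by decide) (by decide) (by decide) (by decide) (by decide)
    (by decide) h13
  obtain ⟨-, i4⟩ := key 2 3 (by decide) (by decide) (by decide) (by decide) (by decide)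
    (by decide) (h12.symm.trans h13)
  obtain ⟨a, b, c', d, h0, t1, t2, t3⟩ := four_conf _ _ _ (h.card_t (by decide) (by decide))
    (h.card_t (by decide) (by decide)) (h.card_t (by decide) (by decide)) i2 i3 i4
  have hω : ψ 1 ^ 4 = -1 := by
    have := psi_half (pow_succ' 2 _) h.prim 1
    rw [one_mul, hμ, show (4 : ZMod (2 ^ (1 + 1 + 1))) = 4 • 1 from rfl,
      AddChar.map_nsmul_eq_pow] at this
    exact this.trans (pow_one _)
  have hψ : ∀ k, ψ k = ψ 1 ^ k.val := fun k => by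
    rw [← AddChar.map_nsmul_eq_pow, nsmul_one, ZMod.natCast_zmod_val]
  have hsum : ∀ F : ZMod (2 ^ (1 + 1 + 1)) → ℂ, ∑ k, F k =
      F 0 + F 1 + F 2 + F 3 + F 4 + F (-3) + F (-2) + F (-1) := fun F => Fin.sum_univ_eight F
  have f1 : ∀ χ, f χ.1 1 = D χ 4 + (ψ 1 - ψ 1 ^ 3) * (D χ 3 - D χ 1) := fun χ => by
    rw [h.toDiN.inv χ (by decide), hsum]
    simp only [h.toDiN.neg, h.toDiN.zero, mul_one, hψ 2, hψ 3, hψ 4, hψ (-3), hψ (-2), hψ (-1)]
    rw [show ZMod.val (2 : ZMod (2 ^ (1 + 1 + 1))) = 2 from rfl,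
      show ZMod.val (3 : ZMod (2 ^ (1 + 1 + 1))) = 3 from rfl,
      show ZMod.val (4 : ZMod (2 ^ (1 + 1 + 1))) = 4 from rfl,
      show ZMod.val (-3 : ZMod (2 ^ (1 + 1 + 1))) = 5 from rfl,
      show ZMod.val (-2 : ZMod (2 ^ (1 + 1 + 1))) = 6 from rfl,
      show ZMod.val (-1 : ZMod (2 ^ (1 + 1 + 1))) = 7 from rfl]
    linear_combination (-(D χ 4 : ℂ) - D χ 3 * ψ 1 - D χ 2 * ψ 1 ^ 2 - D χ 1 * ψ 1 ^ 3) * hω
  have f2 : ∀ χ, f χ.1 2 = 2 * D χ 2 - D χ 4 := fun χ => by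
    rw [h.toDiN.inv χ (by decide), hsum]
    simp only [h.toDiN.neg, h.toDiN.zero]
    rw [show (1 : ZMod (2 ^ (1 + 1 + 1))) * 2 = 2 from rfl,
      show (2 : ZMod (2 ^ (1 + 1 + 1))) * 2 = 4 from rfl,
      show (3 : ZMod (2 ^ (1 + 1 + 1))) * 2 = 6 from rfl,
      show (4 : ZMod (2 ^ (1 + 1 + 1))) * 2 = 0 from rfl,
      show (-3 : ZMod (2 ^ (1 + 1 + 1))) * 2 = 2 from rfl,
      show (-2 : ZMod (2 ^ (1 + 1 + 1))) * 2 = 4 from rfl,
      show (-1 : ZMod (2 ^ (1 + 1 + 1))) * 2 = 6 from rfl, hψ 2, hψ 4, hψ 6,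
      show ZMod.val (2 : ZMod (2 ^ (1 + 1 + 1))) = 2 from rfl,
      show ZMod.val (4 : ZMod (2 ^ (1 + 1 + 1))) = 4 from rfl,
      show ZMod.val (6 : ZMod (2 ^ (1 + 1 + 1))) = 6 from rfl, AddChar.map_zero_eq_one]
    linear_combination (-(2 * D χ 2 : ℂ) - D χ 3 * ψ 1 ^ 2 - D χ 1 * ψ 1 ^ 2) * hω
  have hr : conj (ψ 1 - ψ 1 ^ 3) = ψ 1 - ψ 1 ^ 3 := by
    rw [map_sub, map_pow, ← AddChar.map_neg_eq_conj, hψ (-1),
      show ZMod.val (-1 : ZMod (2 ^ (1 + 1 + 1))) = 7 from rfl]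
    linear_combination (ψ 1 ^ 3 - ψ 1 ^ 17 + ψ 1 ^ 13 - ψ 1 ^ 9 + ψ 1 ^ 5 - ψ 1) * hω
  have hr2 : (ψ 1 - ψ 1 ^ 3) ^ 2 = 2 := by linear_combination (ψ 1 ^ 2 - 2) * hω
  generalize ψ 1 - ψ 1 ^ 3 = r at f1 hr hr2
  have r1 := h.reg (k := 1) (by decide) (by decide) (ρ := 1) (by simp)
  have r2 := h.reg (k := 2) (by decide) (by decide) (ρ := 1) (by simp)
  have r3 := h.reg (k := 3) (by decide) (by decide) (ρ := 1) (by simp)
  have r4 := h.reg_mu (ρ := 1) (by simp)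
  have v1 := h.val (k := 1) (by decide) (by decide)
  have v2 := h.val (k := 2) (by decide) (by decide)
  have v3 := h.val (k := 3) (by decide) (by decide)
  rw [← h12, ← e2] at r2
  rw [← h13, ← e3] at r3
  have hz : ∀ i, conj (f (c i).1 1) ^ 2 * f (c i).1 2 / (c i).1 1 = (1 + r * ((if i ∈ tS D c 3 then
      1 else 0) - if i ∈ tS D c 1 then 1 else 0)) ^ 2 * (2 * (if i ∈ tS D c 2 then 1 else 0) - 1) /
        (D (c i) 4 * (c i).1 1) := fun i => by
    have h7 : (D (c i) 4 : ℂ) * D (c i) 4 = 1 := by exact_mod_cast h.sq i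
    have h8 : ∀ u w : ℂ, (D (c i) 4 * u) ^ 2 * (D (c i) 4 * w) / (c i).1 1 =
        u ^ 2 * w / (D (c i) 4 * (c i).1 1) := fun u w => by
      field_simp [(c i).2.apply_one_ne_zero, left_ne_zero_of_mul_eq_one h7]
      linear_combination (u ^ 2 * w * (D (c i) 4 * D (c i) 4 + 1)) * h7
    simp only [← h8, f1, f2, v1, v2, v3, hμ, map_add, map_mul, map_sub, map_intCast, hr]
    split_ifs <;> push_cast <;> ring
  have hW := h.toDiD.cong
  rw [sum_split h.inj (h.g_ne 1 (by decide) (by decide)) fun χ h1 h2 => by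
    rw [f1, ← hμ, h.van χ h1, h.g_van 1 (by decide) (by decide) χ h1 h2,
      h.g_van 3 (by decide) (by decide) χ h1 (h13 ▸ h2)]; simp, f1 (g 1), ← hμ,
    h.van _ (h.g_ne 1 (by decide) (by decide)), e3] at hW
  simp only [Finset.sum_filter, sum_four h0, hz, hμ, sub_self, mul_zero, Int.cast_zero, add_zero,
    map_zero, zero_pow two_ne_zero, zero_mul, zero_div] at r1 r2 r3 r4 hW
  have hu : ∀ i, ∀ z : ℂ, z = 16 / 3 / (D (c i) 4 * (c i).1 1) ∨
      z = -(16 / 3 / (D (c i) 4 * (c i).1 1)) → MemLocalIdeal M (Nat.card G / 64 * z) := by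
    intro i z hz
    obtain ⟨h1, h2⟩ := (h.c_iff _).1 ⟨i, rfl⟩
    obtain ⟨v, h3, h4, h5⟩ := unit_pow_mul_deg_div (M := M) (p := 2) h1
    rw [h2, ← Nat.cast_pow, ← h.hm.card_eq h.hB, h.dh.card, pow_zero, one_mul] at h5
    have h6 := InP.mul_left (mul_mem (mul_mem (inv_mem_Loc h3 h4) (inv_natCast_mem_Loc (p := 2)
      (n := 3) (by decide))) (intCast_mem (Loc M) (2 * D (c i) 4))) (InP_p (M := M))
    have h7 : (D (c i) 4 : ℂ) * D (c i) 4 = 1 := by exact_mod_cast h.sq i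
    have h8 : (Nat.card G : ℂ) / 64 * (16 / 3 / (D (c i) 4 * (c i).1 1)) =
        v⁻¹ * ((3 : ℕ) : ℂ)⁻¹ * (2 * D (c i) 4 : ℤ) * (2 : ℕ) := by
      rw [← h5]
      push_cast
      field_simp [(c i).2.apply_one_ne_zero, left_ne_zero_of_mul_eq_one h7]
      linear_combination (-256) * h7
    rcases hz with rfl | rfl
    · rwa [h8]
    · rw [mul_neg, h8]; exact InP.neg h6
  have hy : ∀ i, (D (c i) 4 : ℂ) * (c i).1 1 ≠ 0 := fun i => mul_ne_zero
    (by have := h.sq i; exact_mod_cast left_ne_zero_of_mul_eq_one this) (c i).2.apply_one_ne_zero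
  simp only [List.nodup_cons, List.mem_cons, not_or, List.not_mem_nil] at h0
  obtain ⟨⟨ab, ac, ad, -⟩, ⟨bc, bd, -⟩, ⟨cd, -⟩, -⟩ := h0
  refine hW (hu b _ ?_)
  have hyb := hy b
  generalize (D (c a) 4 : ℂ) * (c a).1 1 = ya at *
  generalize (D (c b) 4 : ℂ) * (c b).1 1 = yb at *
  generalize (D (c c') 4 : ℂ) * (c c').1 1 = yc at *
  generalize (D (c d) 4 : ℂ) * (c d).1 1 = yd at *
  rcases t3 with t3 | t3 <;> simp only [t1, t2, t3, Finset.mem_insert, Finset.mem_singleton, ab, ac,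
    ad, bc, bd, cd, Ne.symm ab, Ne.symm ac, Ne.symm ad, Ne.symm bc, Ne.symm bd, Ne.symm cd, true_or,
    or_true, or_false, if_true, if_false] at r1 r2 r3 ⊢
  · right
    rw [show yc = yb by linear_combination r2 - r1, show yd = yb by linear_combination r3 - r1,
      show ya = -3 * yb by linear_combination r4 + 2 * r1 - r2 - r3]
    field_simp
    linear_combination (-6) * hr2
  · left
    rw [show yc = yb by linear_combination r2 - r1, show ya = yb by linear_combination r2 - r3,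
      show yd = -3 * yb by linear_combination r4 + r1 + r3 - 2 * r2]
    field_simp
    linear_combination 6 * hr2

end CfsgH4
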