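import Cfsg.Agent.H4.Di4

/-! Blocks with dihedral defect groups: Brauer's theorem. -/

set_option autoImplicit false
open Cfsg MonoidAlgebra CfsgL0 CfsgH1 CfsgH4
open CfsgH3 hiding cj cj_cj
open scoped ComplexConjugate Pointwise

namespace CfsgH4

local notation "Z[" u "]" => Subgroup.zpowers u

section Cast
variable {N m a b : ℕ} [NeZero N] (hN : N = 2 * m)
include hN

theorem cast_ne_of_lt (ha : a ≤ m) (hb : b ≤ m) (h : a ≠ b) : (a : ZMod N) ≠ b := fun h1 => by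
  have := NeZero.ne N
  have h2 := congrArg ZMod.val h1
  rw [ZMod.val_cast_of_lt (by omega), ZMod.val_cast_of_lt (by omega)] at h2
  exact h h2

theorem cast_ne_neg (ha : a < m) (hb : b < m) (h : 0 < a) : (a : ZMod N) ≠ -b := fun h1 => by
  rw [eq_neg_iff_add_eq_zero, ← Nat.cast_add, ZMod.natCast_eq_zero_iff] at h1
  have := Nat.le_of_dvd (by omega) h1
  omega

theorem cast_valid (ha : a < m) (h : 0 < a) : (a : ZMod N) ≠ 0 ∧ (a : ZMod N) ≠ m :=
  ⟨by simpa using cast_ne_of_lt hN ha.le (Nat.zero_le m) h.ne', cast_ne_of_lt hN ha.le le_rfl ha.ne⟩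

theorem exists_fin_of_valid {k : ZMod N} (h0 : k ≠ 0) (h1 : k ≠ m) :
    ∃ j : Fin (m - 1), k = (j.val + 1 : ℕ) ∨ k = -(j.val + 1 : ℕ) := by
  have h2 := k.val_lt
  have h3 : k.val ≠ 0 := by simpa using h0
  have h4 : k.val ≠ m := fun h => h1 (by rw [← h, ZMod.natCast_zmod_val])
  by_cases h : k.val < m
  · exact ⟨⟨k.val - 1, by omega⟩, Or.inl (by
      rw [Nat.sub_add_cancel (by omega), ZMod.natCast_zmod_val])⟩
  · refine ⟨⟨N - k.val - 1, by omega⟩, Or.inr ?_⟩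
    rw [Nat.sub_add_cancel (by omega), Nat.cast_sub h2.le]
    simp

end Cast

variable {G : Type*} [Group G] [Fintype G] {P : Subgroup G} {x : G} {n : ℕ} {M : Ideal AlgInt}
  [hM : PMod 2 M] {e : (Res M)[G]} {B : Set (IrrCharacter G)}
  {f : (G → ℂ) → ZMod (2 ^ (n + 1 + 1)) → ℂ} {k l : ZMod (2 ^ (n + 1 + 1))}
  {ψ : AddChar (ZMod (2 ^ (n + 1 + 1))) ℂ} {D : IrrCharacter G → ZMod (2 ^ (n + 1 + 1)) → ℤ}
  {c : Fin 4 → IrrCharacter G} {g : ZMod (2 ^ (n + 1 + 1)) → IrrCharacter G}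

local notation "μ" => ((2 ^ (n + 1) : ℕ) : ZMod (2 ^ (n + 1 + 1)))

theorem DiC.t_eq (h : DiC P x n e B f ψ D c g) (hk : k ≠ 0) (hk' : k ≠ μ) (hl : l ≠ 0)
    (hl' : l ≠ μ) : tS D c k = tS D c l := by
  by_contra h0
  have h1 : ∀ k l, k ≠ 0 → k ≠ μ → l ≠ 0 → l ≠ μ → tS D c k ≠ tS D c l → g k = g l :=
    fun k l h1 h2 h3 h4 h5 => ((h.pair h1 h2 h3 h4 (fun h6 => h5 (h6 ▸ rfl)) fun h6 =>
      h5 (by rw [h6, h.t_neg])).resolve_left fun h6 => h5 h6.2).1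
  have h2 : ∀ i, i ≠ 0 → i ≠ μ → g i = g k := fun i h2 h3 => by
    by_cases h4 : tS D c i = tS D c k
    · rw [h1 k l hk hk' hl hl' h0, h1 i l h2 h3 hl hl' (h4 ▸ h0)]
    · exact h1 i k h2 h3 hk hk' h4
  rcases n with _ | _ | n
  · rcases (by clear * -; revert k l; decide : k ≠ 0 → k ≠ 2 → l ≠ 0 → l ≠ 2 → k = l ∨ k = -l) hk hk' hl hl'
      with h3 | h3
    · exact h0 (h3 ▸ rfl)
    · exact h0 (by rw [h3, h.t_neg])
  · exact h.not_exotic ((h2 1 (by decide) (by decide)).trans (h2 2 (by decide) (by decide)).symm)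
      ((h2 1 (by decide) (by decide)).trans (h2 3 (by decide) (by decide)).symm)
  have h3 : 8 ≤ 2 ^ (n + 1 + 1 + 1) := by
    have := Nat.one_le_two_pow (n := n)
    rw [pow_succ, pow_succ, pow_succ]; omega
  have h4 := fun (i : ℕ) (hi : i ∈ Finset.Ioo 0 8) => cast_valid (pow_succ' 2 _)
    ((Finset.mem_Ioo.1 hi).2.trans_le h3) (Finset.mem_Ioo.1 hi).1
  refine absurd (Finset.card_le_card_of_injOn (s := Finset.Ioo 0 8)
    (t := Finset.univ.powersetCard 2) (fun i : ℕ => tS D c i) (fun i hi => by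
      simpa using h.card_t (h4 i hi).1 (h4 i hi).2) fun i hi j hj h5 => by_contra fun h6 => ?_)
    (by decide)
  have h7 := (Finset.mem_Ioo.1 hi).2.trans_le h3
  have h8 := (Finset.mem_Ioo.1 hj).2.trans_le h3
  have := ((h.pair (h4 i hi).1 (h4 i hi).2 (h4 j hj).1 (h4 j hj).2
    (cast_ne_of_lt (pow_succ' 2 _) h7.le h8.le h6) (cast_ne_neg (pow_succ' 2 _) h7 h8
      (Finset.mem_Ioo.1 hi).1)).resolve_left fun h9 => h9.1 ((h2 _ (h4 i hi).1 (h4 i hi).2).trans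
        (h2 _ (h4 j hj).1 (h4 j hj).2).symm)).2.2
  rw [show tS D c i = tS D c j from h5, Finset.inter_self, h.card_t (h4 j hj).1 (h4 j hj).2] at this
  omega

theorem DiC.g_ne' (h : DiC P x n e B f ψ D c g) (hk : k ≠ 0) (hk' : k ≠ μ) (hl : l ≠ 0)
    (hl' : l ≠ μ) (h1 : k ≠ l) (h2 : k ≠ -l) : g k ≠ g l :=
  ((h.pair hk hk' hl hl' h1 h2).resolve_right fun h3 => by
    have := h3.2.2
    rw [h.t_eq hk hk' hl hl', Finset.inter_self, h.card_t hl hl'] at this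
    omega).1

theorem DiC.g_val (h : DiC P x n e B f ψ D c g) (hk : k ≠ 0) (hk' : k ≠ μ)
    (l : ZMod (2 ^ (n + 1 + 1))) :
    D (g k) l = (if l = k then D (g k) k else 0) + if l = -k then D (g k) k else 0 := by
  by_cases h1 : l = k
  · rw [if_pos h1, h1, if_neg (ne_neg_of hk hk'), add_zero]
  by_cases h2 : l = -k
  · rw [if_neg h1, if_pos h2, h2, h.toDiN.neg, zero_add]
  rw [if_neg h1, if_neg h2, add_zero]
  by_cases h3 : l = 0
  · rw [h3, h.toDiN.zero]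
  by_cases h4 : l = μ
  · rw [h4, h.van _ (h.g_ne k hk hk')]
  exact h.g_van l h3 h4 _ (h.g_ne k hk hk') (h.g_ne' h3 h4 hk hk' h1 h2).symm

theorem DiD.table (h : DiD P x n e B f) (hψ : ψ.IsPrimitive) : ∃ (a b c d : IrrCharacter G)
    (sa sb sc sd : ℤ) (g : Fin (2 ^ (n + 1) - 1) → IrrCharacter G) (ε : Fin (2 ^ (n + 1) - 1) → ℤ),
    [a, b, c, d].Nodup ∧ Function.Injective g ∧ (∀ j, g j ∉ [a, b, c, d]) ∧
    (∀ s ∈ [sa, sb, sc, sd], s = 1 ∨ s = -1) ∧ (∀ j, ε j = 1 ∨ ε j = -1) ∧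
    (∀ χ, χ ∈ B ↔ χ ∈ [a, b, c, d] ∨ ∃ j, χ = g j) ∧
    (∀ χ, χ ∈ B ∧ blockHeight 2 B χ.1 = 0 ↔ χ ∈ [a, b, c, d]) ∧
    (∀ j, blockHeight 2 B (g j).1 ≤ 1) ∧
    (∀ i, i ≠ 0 → f a.1 i = sa ∧ f b.1 i = sb ∧ f c.1 i = -sc * (-1) ^ i.val ∧
      f d.1 i = -sd * (-1) ^ i.val ∧ ∀ j, f (g j).1 i =
        -ε j * (ψ ((j.val + 1 : ℕ) * i) + ψ (-((j.val + 1 : ℕ) * i)))) ∧
    ∀ ρ, ¬ 2 ∣ orderOf ρ → sa * a.1 ρ + sb * b.1 ρ + sc * c.1 ρ + sd * d.1 ρ = 0 ∧
      ∀ j, sa * a.1 ρ + sb * b.1 ρ + ε j * (g j).1 ρ = 0 := by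
  obtain ⟨D, h1⟩ := h.exists_diN hψ
  obtain ⟨c, g, h⟩ := h1.exists_diC
  have hv := fun j : Fin (2 ^ (n + 1) - 1) => cast_valid (a := j.val + 1) (pow_succ' 2 (n + 1))
    (by have := j.2; omega) (by omega)
  have h2 := cast_valid (a := 1) (pow_succ' 2 (n + 1)) (Nat.one_lt_two_pow (by omega)) one_pos
  obtain ⟨a, b, c', d, h0, h3⟩ := four_conf' _ (h.card_t h2.1 h2.2)
  have h4 : ∀ χ, χ ∈ [c a, c b, c c', c d] ↔ ∃ i, c i = χ := fun χ => by
    have : ∀ a b c d : Fin 4, [a, b, c, d].Nodup → ∀ i, i ∈ [a, b, c, d] := by decide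
    exact (List.mem_map (f := c) (l := [a, b, c', d])).trans ⟨fun ⟨i, _, h⟩ => ⟨i, h⟩,
      fun ⟨i, h⟩ => ⟨i, this a b c' d h0 i, h⟩⟩
  have h5 : ∀ k, k ≠ 0 → k ≠ μ → tS D c k = {a, b} := fun k h5 h6 =>
    (h.t_eq h5 h6 h2.1 h2.2).trans h3
  have h6 : ∀ i ∈ ({a, b} : Finset (Fin 4)), ∀ j, j ≠ 0 → f (c i).1 j = D (c i) μ := fun i hi j hj => by
    rw [h1.inv _ hj, Finset.sum_congr rfl (g := fun k => D (c i) μ * ψ (k * j) -
      if k = 0 then (D (c i) μ : ℂ) else 0) fun k _ => ?_, Finset.sum_sub_distrib, ← Finset.mul_sum,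
      sum_psi hψ, if_neg hj]
    · simp
    by_cases h6 : k = 0
    · simp [h6, h1.zero]
    by_cases h7 : k = μ
    · rw [if_neg h6, h7, sub_zero]
    · rw [if_neg h6, h.val h6 h7, h5 k h6 h7, if_pos hi, sub_zero]
  have h7 : ∀ i ∉ ({a, b} : Finset (Fin 4)), ∀ j, j ≠ 0 →
      f (c i).1 j = -D (c i) μ * (-1) ^ j.val := fun i hi j hj => by
    rw [h1.inv _ hj, Finset.sum_eq_single μ (fun k _ h7 => ?_) (by simp), mul_comm μ,
      psi_half (pow_succ' 2 _) hψ, neg_mul]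
    by_cases h6 : k = 0
    · simp [h6, h1.zero]
    · rw [h.val h6 h7, h5 k h6 h7, if_neg hi, Int.cast_zero, zero_mul]
  have h8 : ∀ k, k ≠ 0 → k ≠ μ → g k ∈ B := fun k h8 h9 => by_contra fun h10 => by
    have := h.g_sgn k h8 h9
    rw [h1.of_notMem h10] at this
    omega
  have h0' := h0
  simp only [List.nodup_cons, List.mem_cons, not_or, List.not_mem_nil] at h0'
  obtain ⟨⟨ab, ac, ad, -⟩, ⟨bc, bd, -⟩, ⟨cd, -⟩, -⟩ := h0'
  refine ⟨c a, c b, c c', c d, D (c a) μ, D (c b) μ, D (c c') μ, D (c d) μ,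
    fun j => g (j.val + 1 : ℕ), fun j => D (g (j.val + 1 : ℕ)) (j.val + 1 : ℕ), h0.map h.inj,
    fun i j h9 => by_contra fun h10 => ?_, fun j h9 => ?_, fun s hs => by
      simp only [List.mem_cons, List.not_mem_nil, or_false] at hs
      rcases hs with rfl | rfl | rfl | rfl <;> exact h.sgn _, fun j => h.g_sgn _ (hv j).1 (hv j).2, fun χ => ⟨fun h9 => ?_, ?_⟩,
    fun χ => by rw [h4, h.c_iff], fun j => ?_, fun i hi => ⟨h6 a (by simp) i hi,
      h6 b (by simp) i hi, h7 c' (by simp [Ne.symm ac, Ne.symm bc]) i hi,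
      h7 d (by simp [Ne.symm ad, Ne.symm bd]) i hi, fun j => ?_⟩, fun ρ hρ =>
    ⟨(sum_four h0 _).symm.trans (h.reg_mu hρ), fun j => ?_⟩⟩
  · have := i.2
    have := j.2
    exact h.g_ne' (hv i).1 (hv i).2 (hv j).1 (hv j).2 (cast_ne_of_lt (pow_succ' 2 _) (by omega)
      (by omega) fun h11 => h10 (Fin.ext (by omega))) (cast_ne_neg (pow_succ' 2 _) (by omega)
      (by omega) (by omega)) h9
  · obtain ⟨i, h10⟩ := (h4 _).1 h9
    exact h.g_ne _ (hv j).1 (hv j).2 i h10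
  · refine or_iff_not_imp_left.2 fun h10 => ?_
    rw [h4, not_exists] at h10
    obtain ⟨k, -, h11⟩ := Finset.exists_ne_zero_of_sum_ne_zero (h1.dvd h9).2.2
    have h12 : k ≠ 0 := fun h12 => h11 (by rw [h12, h1.zero, zero_mul])
    have h13 : k ≠ μ := fun h13 => h11 (by rw [h13, h.van χ h10, zero_mul])
    have h14 : χ = g k := by_contra fun h14 => h11 (by rw [h.g_van k h12 h13 χ h10 h14, zero_mul])
    obtain ⟨j, rfl | rfl⟩ := exists_fin_of_valid (pow_succ' 2 _) h12 h13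
    exacts [⟨j, h14⟩, ⟨j, h14.trans (h.g_neg (hv j).1 (hv j).2)⟩]
  · rintro (h9 | ⟨j, rfl⟩)
    exacts [((h.c_iff χ).1 ((h4 χ).1 h9)).1, h8 _ (hv j).1 (hv j).2]
  · obtain ⟨h9, -, h10⟩ := h1.dvd (h8 _ (hv j).1 (hv j).2)
    have h11 := Int.le_of_dvd (abs_pos.2 h10) ((dvd_abs _ _).2 h9)
    rw [Finset.sum_congr rfl fun l _ => by rw [h.g_val (hv j).1 (hv j).2 l]] at h11
    simp only [add_mul, ite_mul, zero_mul, Finset.sum_add_distrib, Finset.sum_ite_eq',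
      Finset.mem_univ, if_true] at h11
    have h12 := h11.trans (abs_add_le _ _)
    simp only [abs_mul, abs_pow, abs_neg, abs_one, one_pow, mul_one,
      abs_eq (zero_le_one) |>.2 (h.g_sgn _ (hv j).1 (hv j).2)] at h12
    exact (pow_le_pow_iff_right₀ (one_lt_two : (1 : ℤ) < 2)).1 (by simpa using h12)
  · rw [h1.inv _ hi, Finset.sum_congr rfl fun l _ => by rw [h.g_val (hv j).1 (hv j).2 l]]
    simp only [Int.cast_add, Int.cast_ite, Int.cast_zero, add_mul, ite_mul, zero_mul,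
      Finset.sum_add_distrib, Finset.sum_ite_eq', Finset.mem_univ, if_true, neg_mul]
    ring
  · have := h.reg (hv j).1 (hv j).2 hρ
    rwa [h5 _ (hv j).1 (hv j).2, Finset.filter_mem_eq_inter, Finset.univ_inter,
      Finset.sum_pair ab] at this

theorem card_of_table {ι : Type*} {m : ℕ} {B : Set ι} {a b c d : ι} {g : Fin m → ι}
    (h0 : [a, b, c, d].Nodup) (h1 : Function.Injective g) (h2 : ∀ j, g j ∉ [a, b, c, d])
    (h3 : ∀ χ, χ ∈ B ↔ χ ∈ [a, b, c, d] ∨ ∃ j, χ = g j) : Nat.card B = 4 + m := by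
  classical
  rw [show B = ↑([a, b, c, d].toFinset ∪ Finset.univ.image g) from Set.ext fun χ => by
    simp only [h3, Finset.coe_union, List.coe_toFinset, Finset.coe_image, Finset.coe_univ,
      Set.image_univ, Set.mem_union, Set.mem_setOf_eq, Set.mem_range, eq_comm],
    Nat.card_coe_set_eq, Set.ncard_coe_finset, Finset.card_union_of_disjoint
      (Finset.disjoint_right.2 fun χ h4 h5 => by
        obtain ⟨j, -, rfl⟩ := Finset.mem_image.1 h4
        exact h2 j (List.mem_toFinset.1 h5)), List.toFinset_card_of_nodup h0,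
    Finset.card_image_of_injective _ h1]
  simp

omit hM in
theorem MaxPr.rank_add_le {p : ℕ} [Fact p.Prime] [PMod p M] {e : (Res M)[G]}
    (hm : MaxPr p (eB M B) P e) (hB : IsPBlock M B) (s : Finset G) (h1 : ∀ u ∈ s, u ∈ P ∧ u ≠ 1)
    (h2 : ∀ u ∈ s, ∀ v ∈ s, FCl p P e u v → u = v) : blockRank p B + s.card ≤ Nat.card B := by
  classical
  let r : G → ℝ := fun u => Nat.card (Subgroup.centralizer (Z[u] : Set G)) /
    Nat.card {x // Fuses p P e Z[u] x}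
  have h3 : ∀ u, fw p P e u = r u := fun u => by simp [r, fw]
  have h4 : ∀ u, 0 ≤ r u := fun u => by positivity
  have h5 := hm.card_eq_sum hB
  have h6 := fun u hu => hm.pr.sum_fw (h1 u hu).1
  have h7 := hm.pr.fw_one
  simp only [h3] at h5 h6 h7
  norm_cast at h5 h6 h7
  have h8 : ∀ u ∈ s, ¬ FCl p P e u 1 := fun u hu ⟨t, _, h⟩ => (h1 u hu).2 (by simpa using h)
  rw [← Nat.cast_le (α := ℝ), h5]
  refine le_trans ?_ (Finset.sum_le_sum_of_subset_of_nonneg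
    (s := insert 1 (s.biUnion fun u => Finset.univ.filter (FCl p P e u))) (fun v hv => ?_)
    fun v _ _ => mul_nonneg (h4 v) (Nat.cast_nonneg _))
  · rw [Finset.sum_insert (by simpa using h8), Finset.sum_biUnion fun u hu v hv h =>
      Finset.disjoint_filter.2 fun w _ h9 h10 => h (h2 u hu v hv (h9.trans hm.pr h10.symm)), h7,
      one_mul, hm.dn_bot Subgroup.zpowers_one_eq_bot, (rk_top hB (by simp)).1, Nat.cast_add,
      Finset.card_eq_sum_ones, Nat.cast_sum]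
    refine add_le_add le_rfl (Finset.sum_le_sum fun u hu => ?_)
    rw [Nat.cast_one, ← h6 u hu]
    exact Finset.sum_le_sum fun v hv => le_mul_of_one_le_right (h4 v) (Nat.one_le_cast.2
      (hm.pr.pr_dn (Subgroup.zpowers_le.2 (Finset.mem_filter.1 hv).2.mem)).blk.rk_pos)
  · simp only [Finset.mem_insert, Finset.mem_biUnion, Finset.mem_filter, Finset.mem_univ,
      true_and] at hv ⊢
    rcases hv with rfl | ⟨u, -, h⟩
    exacts [P.one_mem, h.mem]

theorem DiD.rank_add_le (h : DiD P x n e B f) : blockRank 2 B + 2 ^ (n + 1) ≤ Nat.card B := by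
  classical
  have hN := pow_succ' 2 (n + 1)
  have h1 : ∀ i : ℕ, i ∈ Finset.Ioc 0 (2 ^ (n + 1)) → (i : ZMod (2 ^ (n + 1 + 1))) ≠ 0 :=
    fun i hi => by
    simpa using cast_ne_of_lt hN (Finset.mem_Ioc.1 hi).2 (Nat.zero_le _) (Finset.mem_Ioc.1 hi).1.ne'
  have := h.hm.rank_add_le h.hB ((Finset.Ioc 0 (2 ^ (n + 1))).image fun i : ℕ =>
    x ^ (i : ZMod (2 ^ (n + 1 + 1))).val) (fun u hu => by
      obtain ⟨i, hi, rfl⟩ := Finset.mem_image.1 hu
      exact ⟨h.mem _, pow_val_ne h.dh.ord (h1 i hi)⟩) fun u hu v hv h2 => by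
      obtain ⟨i, hi, rfl⟩ := Finset.mem_image.1 hu
      obtain ⟨j, hj, rfl⟩ := Finset.mem_image.1 hv
      refine ((h.fcl_iff (h1 i hi)).1 h2).elim (fun h3 => h3 ▸ rfl) fun h3 => ?_
      rw [eq_neg_iff_add_eq_zero, ← Nat.cast_add, ZMod.natCast_eq_zero_iff] at h3
      rw [Finset.mem_Ioc] at hi hj
      have := Nat.le_of_dvd (by omega) h3
      rw [show i = j by omega]
  rwa [Finset.card_image_of_injOn fun i hi j hj h2 => by_contra fun h3 => cast_ne_of_lt hN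
    (Finset.mem_Ioc.1 hi).2 (Finset.mem_Ioc.1 hj).2 h3 (pow_val_inj h.dh.ord h2), Nat.card_Ioc,
    Nat.sub_zero] at this

end CfsgH4
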