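import Cfsg.Agent.H4.KW

/-! Bounds for `k(B)` and `k₀(B)` from arbitrary subsections. -/

set_option autoImplicit false
open Cfsg MonoidAlgebra CfsgL0 CfsgH1 CfsgH4
open CfsgH3 hiding cj cj_cj
open scoped ComplexConjugate

namespace CfsgH4

universe u

local notation "C[" Q "]" => Subgroup.centralizer (SetLike.coe (Q : Subgroup _))
local notation "N[" Q "]" => Subgroup.normalizer (SetLike.coe (Q : Subgroup _))
local notation "Z[" u "]" => Subgroup.zpowers u

variable {G : Type*} [Group G] [Finite G] {M : Ideal AlgInt} {p : ℕ} [hM : PMod p M]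

section Sub
variable {C : Subgroup G} [Fintype C] {u : G} (hC : C = Subgroup.centralizer ({u} : Set G))
  {b : Set (IrrCharacter C)} {B S : Set (IrrCharacter G)} (hu : ∃ k, orderOf u = p ^ k)
include hC hu hM

theorem _root_.Cfsg.IsInducedBlock.rg_ne_zero' (h : IsInducedBlock M C b B)
    {χ : IrrCharacter G} (hχ : χ ∈ B) (h0 : blockHeight p B χ.1 = 0) :
    rg p (blockPart b (tr C u χ.1)) ≠ 0 := fun h1 => by
  haveI : Fact p.Prime := ⟨PMod.prime M⟩
  refine h.ctr_ne_zero hC hu hχ h0 hχ h0 ?_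
  rw [ctr, mm, h1, classInner_zero_left]

variable (M)
open Classical in
theorem card_le_of_tests' (h : ∀ χ ∈ S, rg p (blockPart b (tr C u χ.1)) ≠ 0)
    {ι : Type*} [Fintype ι] (π : ι → C → ℂ) (w : ι → ℕ)
    (h0 : ∀ i, IsClassFunction C (π i))
    (h1 : ∀ i, ∀ ξ : IrrCharacter C, ∃ n : ℤ, mm p (π i) ξ.1 = n) {c d : ℕ}
    (h2 : ∀ a, IsClassFunction C a → rg p (blockPart b a) ≠ 0 →
      d ≤ ∑ i with mm p (π i) a ≠ 0, w i)
    (h3 : ∑ i, w i * mm p (π i) (π i) = c) : d * Nat.card S ≤ c := by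
  refine le_trans ?_ (sum_le_of_cyc (ι := IrrCharacter G × ι)
    (Finset.univ.filter fun x => x.1 ∈ S ∧ mm p (π x.2) (tr C u x.1.1) ≠ 0) (fun x => w x.2)
    (fun x => mm p (π x.2) (tr C u x.1.1)) (fun x => (cyc_mm_tr hC (h1 _) _).1)
    (fun x _ => (cyc_mm_tr hC (h1 _) _).2) (fun x hx => (Finset.mem_filter.1 hx).2.2) ?_)
  · rw [natCard_set_irr, Finset.mul_sum, Finset.sum_filter, Fintype.sum_prod_type]
    refine Finset.sum_le_sum fun χ _ => ?_
    by_cases hχ : χ ∈ S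
    · simp only [hχ, if_true, mul_one, true_and]
      rw [← Finset.sum_filter]
      exact h2 _ (isClassFunction_tr hC χ.2.isClassFunction) (h χ hχ)
    · simp [hχ]
  · rw [← h3, Fintype.sum_prod_type_right]
    refine Finset.sum_congr rfl fun i _ => ?_
    rw [← sum_mm_tr_conj M hC hu _ (h0 i), Finset.mul_sum]

theorem card_le_of_gram' (h : ∀ χ ∈ S, rg p (blockPart b (tr C u χ.1)) ≠ 0)
    {n : ℕ} (π : Fin (n + 1) → C → ℂ)
    (h0 : ∀ i, IsClassFunction C (π i))
    (h1 : ∀ i, ∀ ξ : IrrCharacter C, ∃ n : ℤ, mm p (π i) ξ.1 = n) {s t : ℕ}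
    (h2 : ∀ a, IsClassFunction C a → (∀ i, mm p (π i) a = 0) → rg p (blockPart b a) = 0)
    (h3 : ∀ i j, mm p (π i) (π j) = (if i = j then s else 0) + t) :
    Nat.card S ≤ (n + 1) * s + t := by
  classical
  refine Nat.le_of_mul_le_mul_left (card_le_of_tests' M hC hu h (ι := Fin n ⊕ Bool)
    (Sum.elim (fun i => π i.castSucc - π i.succ) fun c => if c then π (.last n) else (-1 : ℂ) • π 0)
    (fun _ => 1) ?_ ?_ (d := 2) (fun a ha h4 => two_le_card_of_sum _ ?_ ?_) ?_) two_pos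
  · rintro (i | _ | _)
    exacts [(h0 _).sub (h0 _), (h0 _).smul _, h0 _]
  · rintro (i | _ | _) ξ
    · obtain ⟨⟨a, ha⟩, c, hc⟩ := And.intro (h1 i.castSucc ξ) (h1 i.succ ξ)
      exact ⟨a - c, by simp [mm_sub_left, ha, hc]⟩
    · obtain ⟨a, ha⟩ := h1 0 ξ
      exact ⟨-a, (mm_smul_left _ _ _).trans (by simp [ha])⟩
    · exact h1 _ ξ
  · have h5 := (Fin.sum_univ_castSucc fun i => mm p (π i) a).symm.trans
      (Fin.sum_univ_succ fun i => mm p (π i) a)
    simp only [Fintype.sum_sum_type, Sum.elim_inl, Sum.elim_inr, mm_sub_left, Finset.sum_sub_distrib,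
      Fintype.sum_bool, if_true, Bool.false_eq_true, if_false, mm_smul_left]
    linear_combination h5
  · by_contra! h5
    refine h4 (h2 a ha fun i => ?_)
    induction i using Fin.induction with
    | zero => simpa using (mm_smul_left _ _ _).symm.trans (h5 (.inr false))
    | succ i ih => simpa [mm_sub_left, ih] using h5 (.inl i)
  · simp only [Fintype.sum_sum_type, Sum.elim_inl, Sum.elim_inr, Fintype.sum_bool, if_true,
      Bool.false_eq_true, if_false, mm_smul_left, mm_smul_right]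
    simp [mm_sub_left, mm_sub_right, h3, Fin.castSucc_lt_succ.ne, Fin.castSucc_lt_succ.ne']
    ring

theorem card_le_rank' (h : ∀ χ ∈ S, rg p (blockPart b (tr C u χ.1)) ≠ 0) (hb : fB b ∈ LG C M) :
    Nat.card S ≤ p ^ blockDefect p b * blockRank p b := by
  classical
  haveI : Fact p.Prime := ⟨PMod.prime M⟩
  refine le_trans (le_of_eq ?_) (sum_le_of_tp (Finset.univ.filter (· ∈ S)) (fun _ => 1)
    (fun χ => (p : ℂ) ^ blockDefect p b * ctr p C u b χ.1 χ.1)
    (fun χ => (Nat.cast_pow (α := ℂ) p _ ▸ tp_natCast _).mul (tp_ctr hC hu hb χ))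
    (fun χ _ => isIntegral_pow_ctr (M := M) hC χ.2.isGen χ.2.isGen)
    (fun χ hχ => mul_ne_zero (p_pow_ne_zero (M := M) _)
      (by rw [ctr_eq_mm hC hb χ.2.isClassFunction χ.2.isClassFunction, Ne, mm_self_eq_zero]
          exact h χ (Finset.mem_filter.1 hχ).2)) ?_)
  · rw [natCard_set_irr, Finset.sum_filter]
  · simp only [Nat.cast_one, one_mul]
    rw [← Finset.mul_sum, sum_ctr_self hC hu hb]
    simp

variable {M} in
theorem card_le_of_cyc_sub (h : ∀ χ ∈ S, rg p (blockPart b (tr C u χ.1)) ≠ 0) (hb : IsPBlock M b)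
    {D : Subgroup C} (hD : IsDefectGroup p M b D) {y : C}
    (hy : ∀ x ∈ D, ∃ n : ℤ, ((y ^ n)⁻¹ * x : C).1 ∈ Z[u]) : Nat.card S ≤ Nat.card D := by
  classical
  haveI : Fact p.Prime := ⟨PMod.prime M⟩
  obtain ⟨H, _, _, φ, hφ, h5, h6, h10⟩ := exists_quot_cent hC
  have h4 : IsPGroup p φ.ker := hu.elim fun k hk => IsPGroup.of_card (h10.trans hk)
  have h7 := hb.comap_of_pker hφ h4 fun x _ => h5 x
  have h8 := hD.map_of_comap hφ h4 hb h7
  have h9 := blockRank_comap_of_pker hφ h4 (fun x _ => h5 x) hb.fB_mem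
  have h11 : Nat.card (D.map φ) * orderOf u = Nat.card D := by
    rw [← h10, ← CfsgH1.card_map_mul_card_inf_ker φ D, inf_eq_left.2
      ((hb.isDefectGroup_iff.1 hD).normal_le hb.isBlk.mem hb.isBlk.idem h4 le_top
        (Subgroup.normalizer_eq_top _).ge)]
  have hc : IsCyclic (D.map φ) := by
    refine Subgroup.isCyclic_of_le (H' := Z[φ y]) ?_
    rintro _ ⟨x, hx, rfl⟩
    obtain ⟨n, hn⟩ := hy x hx
    exact ⟨n, by simpa [inv_mul_eq_one] using (h6 _).2 hn⟩
  have := Fintype.ofFinite H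
  have hb' := hb.fB_mem
  generalize hP : D.map φ = P at h8 h11 hc
  by_cases hP1 : P = ⊥
  · have h12 := blockRank_le_card (p := p) (irrComp φ hφ ⁻¹' b)
    rw [h7.card_eq_one_of_defect (by rw [← h8.fact_card h7, hP1]; simp), h9] at h12
    rw [hD.card_eq hb]
    exact (card_le_rank' M hC hu h hb.fB_mem).trans (by simpa using Nat.mul_le_mul_left _ h12)
  obtain ⟨e, hm⟩ := exists_maxPr h7.isBlk (h7.isDefectGroup_iff.1 h8)
  obtain ⟨w, β, e', Φ, _, X, Y, ε, δ, hd, s⟩ := hm.exists_cyS h7 hc hP1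
  obtain ⟨n, hn⟩ := Nat.exists_eq_succ_of_ne_zero s.nonempty.card_pos.ne'
  obtain ⟨κ⟩ : Nonempty (Fin (n + 1) ≃ X) := ⟨(Finset.equivFinOfCardEq hn).symm⟩
  have hm' := fun a c => mm_comp_of_pker (p := p) hφ h4 (fun x _ => h5 x) a c
  have hX : ∀ a, ∀ j, mm p a (piX Y ε δ (κ j)) = classInner a (piX Y ε δ (κ j)) := fun a j => by
    rw [mm_eq, rg_eq_self fun g => s.piX_sing hd (κ j).2]
  have hN : ∀ i, ∀ ψ ∈ exc Y, (κ i).1.1 ≠ ψ.1 := fun i ψ hψ h =>
    Finset.disjoint_left.1 s.disjoint (κ i).2 ((Subtype.ext h : (κ i).1 = ψ) ▸ hψ)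
  have hI : ∀ i j, classInner (κ i).1.1 (piX Y ε δ (κ j)) = if i = j then (ε (κ i) : ℂ) else 0 :=
    fun i j => by
      rw [classInner_piX, Finset.sum_eq_zero fun ψ hψ => by
        rw [(κ i).1.2.classInner_eq_ite ψ.2, if_neg (hN i ψ hψ), mul_zero], (κ i).1.2.classInner_eq_ite (κ j).1.2]
      by_cases hij : i = j
      · simp [hij]
      · simp [hij, ← Subtype.ext_iff]
  have hb : ∀ χ ∈ irrComp φ hφ ⁻¹' b, blockPart b (fun x => χ.1 (φ x)) = fun x => χ.1 (φ x) :=
    fun χ hχ => blockPart_irr_of_mem (χ := irrComp φ hφ χ) hχ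
  refine (card_le_of_gram' M hC hu h (n := n) (fun j => (Nat.card φ.ker : ℂ) •
    fun x => piX Y ε δ (κ j) (φ x)) (fun j => ((isGen_piX _).isClassFunction.comp φ).smul _)
    (fun j => exists_int_mm_comp M (isGen_piX _) fun g => s.piX_sing hd (κ j).2)
    (s := Nat.card φ.ker) (t := Nat.card φ.ker * (exc Y).card) (fun a ha h0 => rg_eq_zero_of_dual
      hb' (ι := Fin (n + 1)) (v := fun i => (ε (κ i) : ℂ) • fun x => (κ i).1.1 (φ x))
      (by rw [← h9, s.blockRank_eq hd, ← s.card, hn, Fintype.card_fin]) (fun j => ?_) (fun j => ?_)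
      (fun i j => ?_) ha h0) fun i j => ?_).trans ?_
  · have h12 : (fun x => piX Y ε δ (κ j) (φ x)) = (ε (κ j) : ℂ) • (fun x => (κ j).1.1 (φ x)) -
        ∑ ψ ∈ exc Y, (δ : ℂ) • fun x => ψ.1 (φ x) := by ext; simp [piX]
    rw [blockPart_smul, h12, blockPart_sub, blockPart_smul, blockPart_sum,
      hb _ (s.mem_iff.2 (.inl (κ j).2)), Finset.sum_congr rfl fun ψ hψ => by
        rw [blockPart_smul, hb _ (s.mem_iff.2 (.inr hψ))]]
  · rw [blockPart_smul, hb _ (s.mem_iff.2 (.inl (κ j).2))]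
  · rw [mm_smul_left, mm_smul_right, map_natCast, hm', hX, hI]
    by_cases hij : i = j
    · simp [hij, s.sq]
    · simp [hij, Ne.symm hij]
  · rw [mm_smul_left, mm_smul_right, map_natCast, hm', hX, piX, classInner_sub_left,
      classInner_smul_left, hI, classInner_sum_left, Finset.sum_congr rfl fun ψ hψ => by
        rw [classInner_smul_left, classInner_piX, ψ.2.classInner_eq_ite (κ j).1.2, 
          if_neg (hN j ψ hψ).symm, Finset.sum_eq_single ψ
          (fun χ _ h => by rw [ψ.2.classInner_eq_ite χ.2, if_neg fun h' => h (Subtype.ext h').symm,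
            mul_zero]) (fun h => (h hψ).elim), ψ.2.classInner_eq_ite ψ.2, if_pos rfl, mul_zero,
          zero_sub, mul_one, mul_neg, s.sq']]
    by_cases hij : i = j <;> simp [hij, s.sq, mul_add]
  · rw [← h11, ← h10, ← s.card_exc hd, ← s.card, hn]
    have h12 : (exc Y).card ≠ 0 := fun h => hP1 (Subgroup.card_eq_one.1 (by
      rw [← s.card_exc hd, h]; simp))
    obtain ⟨m, hm⟩ := Nat.exists_eq_succ_of_ne_zero h12
    rw [hm]
    nlinarith [Nat.zero_le (n * m * Nat.card φ.ker)]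

end Sub

end CfsgH4
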