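import Cfsg.Agent.H3.Ro
import Cfsg.Agent.H2.PG3

/-! Coprime action fixing the irreducible characters of `p'`-degree. -/

set_option autoImplicit false
open Cfsg CfsgH3 CfsgH1 CfsgRg CfsgRo Function
open CfsgH2 hiding cj cj_apply isPGroup_pCore le_pCore isNilpotent_map card_mul_relIndex
open scoped CfsgH2 commutatorElement

namespace CfsgH4
universe u

variable {Γ : Type*} [Group Γ] [Finite Γ] {L M P Q H : Subgroup Γ} {p q : ℕ}

theorem exists_up_pp (hp : p.Prime) (h : H ≤ L) (h1 : ¬ p ∣ H.relIndex L) {μ : H → ℂ}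
    (hμ : IsIrrCharacter H μ) (h2 : ¬ p ∣ charDegree μ) :
    ∃ χ, IsIrrCharacter L χ ∧ ¬ p ∣ charDegree χ ∧ Ov h χ μ := by
  have a1 := (isCharacter_subOf_iff h).2 hμ.isCharacter
  obtain ⟨χ, b1, b2, b3⟩ := exists_constituent_not_dvd a1.ind (m := p) (by
    rw [deg_indFun a1, deg_congr a1 hμ.isCharacter rfl]
    exact fun e => ((Nat.Prime.dvd_mul hp).1 e).elim h1 h2)
  refine ⟨χ, b1, b3, ?_⟩
  rw [classInner_indFun_subOf h μ b1.isClassFunction] at b2
  exact fun e => b2 (classInner_eq_zero_comm.1 e)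

theorem le_aI_under [Fact p.Prime] (s : Syl p P L) (h : M ≤ L) (hn : L ≤ N[M]) (h1 : Q ≤ N[M])
    (h2 : Q ≤ N[P]) (h3 : ⁅L ⊓ N[P], Q⁆ ≤ M) (hc : (Nat.card Q).Coprime (Nat.card L))
    {χ : L → ℂ} (hχ : IsIrrCharacter L χ) (h4 : Q ≤ aI χ) {φ : M → ℂ} (hφ : IsIrrCharacter M φ)
    (h5 : P ≤ aI φ) (h6 : Ov h χ φ) : Q ≤ aI φ := by
  intro x hx
  have a1 := h6.cA (h4 hx).1 (h1 hx)
  rw [(h4 hx).2] at a1
  obtain ⟨k, hk, e⟩ := exists_cA_eq h hn hχ hφ (irr_cA hφ (h1 hx)) h6 a1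
  obtain ⟨n, a2, a3, a4⟩ := align s hn h5 hk (e ▸ le_aI_cA (h1 hx) (h2 hx) h5)
  have a5 : x * n⁻¹ ∈ aI φ := by
    refine (mem_aI (mul_mem (h1 hx) (inv_mem (hn a2)))).2 ?_
    rw [← cA_cA (inv_mem (hn a2)) (h1 hx), e, ← a4, cA_cA, cA_congr _ (mul_inv_cancel n), cA_one]
  have a6 : ∀ j : ℕ, x ^ j * (n ^ j)⁻¹ ∈ aI φ := fun j => by
    induction j with
    | zero => simp
    | succ j ih =>
      have b1 : ⁅x⁻¹, n ^ j⁆ ∈ M := h3 (Subgroup.commutator_comm Q _ ▸
        Subgroup.commutator_mem_commutator (inv_mem hx) (pow_mem (Subgroup.mem_inf.2 ⟨a2, a3⟩) j))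
      have := mul_mem (mul_mem ih a5)
        (le_aI_self hφ.isClassFunction (conj_mem_of_mem_normalizer (hn a2) b1))
      convert this using 1
      rw [commutatorElement_def, pow_succ, pow_succ']
      group
  have a7 := a6 (Nat.card L)
  rw [show n ^ Nat.card L = 1 from congrArg Subtype.val (pow_card_eq_one' (x := (⟨n, a2⟩ : L))),
    inv_one, mul_one] at a7
  exact Subgroup.zpowers_le.2 a7 (mem_zpowers_pow_iff.2
    (hc.symm.coprime_dvd_right (Q.orderOf_dvd_natCard hx)))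

theorem nav [hp : Fact p.Prime] [hq : Fact q.Prime] (n : ℕ) : ∀ (Γ : Type u) [Group Γ] [Finite Γ]
    (L P Q : Subgroup Γ), Nat.card L = n → Syl p P L → IsPSolvable p L → IsPGroup q Q →
    ¬ q ∣ Nat.card L → Q ≤ N[L] → Q ≤ N[P] →
    (∀ χ : L → ℂ, IsIrrCharacter L χ → ¬ p ∣ charDegree χ → Q ≤ aI χ) → Q ≤ C[L ⊓ N[P]] := by
  induction n using Nat.strong_induction_on with | _ n ih => ?_
  intro Γ _ _ L P Q hn s hs hQ hL h1 h2 h3
  rcases eq_or_ne L ⊥ with rfl | h0
  · rw [bot_inf_eq, CfsgH2.cent_bot]; exact le_top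
  haveI := (Subgroup.nontrivial_iff_ne_bot L).2 h0
  obtain ⟨σ, hσ, a0⟩ := ((isPSolvable_iff hp.out).1 hs).exists_piCore_ne_bot
  have a1 : piCoreOf σ L ≠ ⊥ := fun e => a0 ((Subgroup.map_eq_bot_iff_of_injective _
    L.subtype_injective).1 e)
  have a2 : piCoreOf σ L ≤ L := piCoreOf_le
  have a3 : L ≤ N[piCoreOf σ L] := le_norm_piCoreOf
  have a4 : Q ≤ N[piCoreOf σ L] := le_norm_piCoreOf' h1
  have a5 : PiN σ (Nat.card (piCoreOf σ L)) := piN_piCoreOf
  generalize piCoreOf σ L = M at a1 a2 a3 a4 a5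
  have hc := coprime_of_pgroup hQ hL
  have hc' : ∀ {K}, K ≤ L → (Nat.card Q).Coprime (Nat.card K) := fun h =>
    hc.coprime_dvd_right (Subgroup.card_dvd_of_le h)
  have hS : Group.IsSolvable Q := haveI := hQ.isNilpotent; inferInstance
  have a6 : ⁅L ⊓ N[P], Q⁆ ≤ M := by
    have := ih _ (hn ▸ card_qt_lt (by rwa [inf_eq_right.2 a2])) _ _ _ _ rfl (s.qt a3)
      ((isPSolvable_iff hp.out).2 (((isPSolvable_iff hp.out).1 hs).of_surjective (pr_surj a3)))
      (isPGroup_qt hQ) (fun e => hL (e.trans card_qt_dvd)) (qt_le_norm h1) (qt_le_norm h2)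
      fun β b1 b2 y hy => by
        obtain ⟨x, hx, rfl⟩ := mem_qt.1 hy
        have b3 := b1.comp_of_surjective _ (pr_surj a3)
        have := (h3 _ b3 (by rwa [deg_congr b3.isCharacter b1.isCharacter (by simp)]) hx).2
        rw [cA_pr β _ x.2] at this
        exact (mem_aI (qmk_mem_norm x.2 (h1 hx))).2
          (funext ((pr_surj a3).forall.2 (congrFun this)))
    rw [Subgroup.commutator_comm]
    exact (qt_le_cent_iff a4 (inf_le_left.trans a3)).1 (this.trans (cent_anti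
      (le_inf (qt_mono inf_le_left) (qt_le_norm inf_le_right))))
  have a7 : P ≤ L ⊓ N[P] := le_inf s.le Subgroup.le_normalizer
  have a8 : Q ≤ N[L ⊓ N[P]] := le_norm_inf h1 (le_norm_norm h2)
  have a9 := (Subgroup.commutator_mono a7 le_rfl).trans a6
  refine coprime_le_cent a8 (hc' inf_le_left) (.inl hS) ?_
  rcases hσ with rfl | rfl
  · have b1 : M ≤ P := s.le_of_norm (isPGroup_iff_piN.2 a5) a2 (s.le.trans a3)
    refine a6.trans (b1.trans (Subgroup.le_centralizer_iff.1 (coprime_le_cent_of_phi h2 (hc' s.le)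
      ?_)))
    rw [← coprime_comm_comm h2 (hc' s.le) (.inl hS)]
    refine ((Subgroup.commutator_mono a9 le_rfl).trans ?_).trans (comm_le_phi s.pg.isNilpotent)
    refine Subgroup.commutator_le.2 fun m hm x hx => by_contra fun b2 => ?_
    have b3 := conj_mem_of_mem_normalizer (a4 hx) (inv_mem hm)
    obtain ⟨l, -, b4⟩ := exists_unitsHom_of_not_mem (N := commutator P)
      (fun a b => Subgroup.commutator_mem_commutator (Subgroup.mem_top a) (Subgroup.mem_top b))
      (v := ⟨m, b1 hm⟩ * ⟨_, b1 b3⟩) fun e => b2 (by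
        rw [← Subgroup.map_subtype_commutator]
        exact ⟨_, e, by simp [commutatorElement_def, mul_assoc]⟩)
    have b5 := isIrr_of_unitsHom l
    obtain ⟨χ, c1, c2, c3⟩ := exists_up_pp hp.out s.le s.nd b5 (by
      rw [(charDegree_eq_one b5.isCharacter).2 (by simp), Nat.dvd_one]; exact hp.out.ne_one)
    have c4 := (b5.isCharacter.resLE b1).isIrr_of_apply_one (congrArg Units.val l.map_one)
    have c5 := (le_aI_iff a4).1 (le_aI_under s a2 a3 a4 h2 a6 hc c1 (h3 _ c1 c2) c4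
      (le_aI_of_ext _ (s.le.trans a3) b5.isClassFunction) (over_trans b1 s.le c1.isCharacter b5
        c4.isCharacter c3 (c4.classInner_self.trans_ne one_ne_zero))) x hx ⟨_, inv_mem hm⟩
          ⟨_, b3⟩ rfl
    refine b4 ?_
    rw [map_mul, Units.val_injective c5, ← map_mul]
    exact (congrArg l (Subtype.ext (mul_inv_cancel m))).trans l.map_one
  · have b0 := (piN_compl_singleton hp.out).1 a5
    have b1 := coprime_of_pgroup s.pg b0
    have b2 := s.le.trans a3
    have b3 : M ⊓ (L ⊓ N[P]) ≤ M ⊓ C[P] := le_inf inf_le_left (le_cent_of_inf_eq_bot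
      (inf_le_right.trans inf_le_right) (le_norm_inf b2 (a7.trans Subgroup.le_normalizer))
      (eq_bot_iff.2 ((inf_le_inf_right _ inf_le_left).trans (inf_eq_bot_of_coprime' b1.symm).le)))
    refine ((le_inf a6 (comm_le_left a8)).trans b3).trans (le_cent_of_fix_irr hQ
      (fun e => hL (e.trans (Subgroup.card_dvd_of_le (inf_le_left.trans a2))))
      (le_norm_inf_cent a4 h2) fun β hβ => ?_)
    obtain ⟨φ, c1, c2, c3⟩ := (gc_pgroup hp.out s.pg b2 b1.symm).surj β hβ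
    refine c3.le_aI hp.out c1.isCharacter hβ (le_norm_inf_cent a4 h2) ?_
    have c4 : M ⊔ P ≤ L := sup_le a2 s.le
    haveI := (Subgroup.normal_subgroupOf_iff_le_normalizer (le_sup_left : M ≤ M ⊔ P)).2
      (c4.trans a3)
    obtain ⟨τ, d1, d2, -⟩ := exists_ext_of_coprime ((isIrr_subOf_iff le_sup_left).2 c1)
      (cj_subOf_eq (sup_le (le_aI_self c1.isClassFunction) c2)) (by
        rw [Nat.card_congr (Subgroup.subgroupOfEquivOfLe le_sup_left).toEquiv]
        exact b1.coprime_dvd_left (index_subgroupOf_sup_dvd b2))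
    have d3 : resLE le_sup_left τ = φ := funext fun x => d2 ⟨⟨x, Subgroup.mem_sup_left x.2⟩, x.2⟩
    obtain ⟨χ, e1, e2, e3⟩ := exists_up_pp hp.out c4 (s.not_dvd_of_le le_sup_right) d1 (by
      rw [deg_congr d1.isCharacter c1.isCharacter (congrFun d3 1)]
      exact fun e => b0 (e.trans (c1.degree_dvd_card (coe_charDegree c1.isCharacter).symm)))
    exact le_aI_under s a2 a3 a4 h2 a6 hc e1 (h3 _ e1 e2) c1 c2 (over_trans le_sup_left c4
      e1.isCharacter d1 c1.isCharacter e3 (d3 ▸ c1.classInner_self.trans_ne one_ne_zero))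

end CfsgH4
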