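import Cfsg.Agent.H4.P0

/-! More facts on principal blocks and characters over a normal subgroup. -/

set_option autoImplicit false
open Cfsg MonoidAlgebra CfsgL0 CfsgH1 CfsgH4 Function
open CfsgH3 hiding cj cj_cj
open scoped ComplexConjugate Pointwise

namespace CfsgH4

variable {G H : Type*} [Group G] [Group H] [Finite G] [Finite H] {M : Ideal AlgInt} {p : ℕ}

theorem le_of_not_dvd_index [hp : Fact p.Prime] {P N : Subgroup G} [N.Normal] (hP : IsPGroup p P)
    (h : ¬ p ∣ N.index) : P ≤ N := fun x hx => by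
  obtain ⟨k, hk⟩ := pelt_of_mem hP hx
  rw [← QuotientGroup.eq_one_iff, ← orderOf_eq_one_iff]
  exact Nat.eq_one_of_dvd_coprimes ((hp.out.coprime_iff_not_dvd.2 h).pow_left k)
    (hk ▸ orderOf_map_dvd (QuotientGroup.mk' N) _) (orderOf_dvd_natCard _)

theorem Over.deg_eq {N : Subgroup G} [N.Normal] [Fintype N] {χ : IrrCharacter G}
    {θ : IrrCharacter N} (h : Over N.subtype χ.1 θ.1) :
    χ.1 1 = classInner (fun n : N => χ.1 n) θ.1 * ((inertia θ.1).index * θ.1 1) := by
  obtain ⟨e, h1, -, h2⟩ := exists_mult_dvd θ.2 χ.2 (over_subtype_iff.1 h)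
  rw [h1, h2]; push_cast; ring

variable [hM : PMod p M]
include hM

theorem npc_of_over_one [Fact p.Prime] (P : Sylow p G) (h : ∀ χ ∈ principalBlock M G,
    Over (P : Subgroup G).subtype χ.1 (fun _ => 1) → ∀ g, χ.1 g = χ.1 1) :
    HasNormalPComplement p G := by
  classical
  have := Fintype.ofFinite G
  have := Fintype.ofFinite P
  have hB := (isPBlock_principal (M := M) (G := G)).fB_mem
  have h1 : ∀ g, ¬ p ∣ orderOf g → blockPart (principalBlock M G) (indFun P fun _ => 1) g =
      (Nat.card P : ℂ)⁻¹ * blockPart (principalBlock M G) (regChar G) g := fun g hg => by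
    rw [← rg_of_reg (blockPart _ _) hg, ← blockPart_rg hB (isClassFunction_indFun _), rg_indFun_one P.isPGroup',
      blockPart_smul, blockPart_rg hB isCharacter_regChar.isClassFunction, Pi.smul_apply,
      rg_of_reg _ hg, smul_eq_mul]
  refine npc_iff_reg.2 fun g hg => (mem_core_iff_principal (M := M)).2 fun χ hχ =>
    (blockPart_isChar _ isCharacter_regChar).apply_eq_of_constituent χ.2 (by
      rw [classInner_blockPart, if_pos hχ, classInner_regChar_left]
      simpa using χ.2.apply_one_ne_zero)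
      (mul_left_cancel₀ (inv_ne_zero (natCard_ne_zero P)) ?_)
  rw [← h1 g hg, ← h1 1 (by simpa using (PMod.prime M).ne_one), blockPart_eq, blockPart_eq]
  refine Finset.sum_congr rfl fun ψ _ => ?_
  split_ifs with e
  · by_cases e' : Over (P : Subgroup G).subtype ψ.1 fun _ => 1
    · rw [h ψ e e']
    · rw [over_subtype_iff, not_not, classInner_eq_zero_comm,
        ← classInner_indFun_left _ ψ.2.isClassFunction] at e'
      rw [e', zero_mul, zero_mul]
  · rfl

theorem dvd_sum_sq_over {B : Set (IrrCharacter G)} (hB : fB B ∈ LG G M) {N : Subgroup G}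
    [N.Normal] (hN : p ∣ N.index) (θ : IrrCharacter N) :
    p ∣ ∑ᶠ χ ∈ {χ ∈ B | Over N.subtype χ.1 θ.1}, charDegree χ.1 ^ 2 := by
  classical
  have := Fintype.ofFinite G
  have := Fintype.ofFinite N
  have h1 : MemLocalIdeal M (blockPart B (indFun N θ.1) 1) := by
    rw [blockPart_indFun_apply, Finset.mul_sum]
    refine InP.sum _ _ fun y _ => ?_
    rw [colB_one, ← N.card_mul_index, ← coeff_fB, Nat.cast_mul, show ∀ a b c d : ℂ,
      a⁻¹ * (b * (a * c * d)) = a⁻¹ * a * (c * (b * d)) by intros; ring,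
      inv_mul_cancel₀ (natCard_ne_zero N), one_mul]
    exact InP.mul_right ((InP_natCast_iff _).2 hN) (mul_mem (mem_Loc_of_isIntegral
      (θ.2.isCharacter.isIntegral y)) (mem_LG.1 hB _))
  rw [← InP_natCast_iff (M := M)]
  convert InP.mul_right h1 (natCast_mem (Loc M) ((inertia θ.1).index * charDegree θ.1))
  rw [finsum_mem_irr, blockPart_eq, Finset.sum_mul, Nat.cast_sum]
  refine Finset.sum_congr rfl fun χ _ => ?_
  rw [classInner_indFun_left _ χ.2.isClassFunction,
    θ.2.isCharacter.classInner_comm (χ.2.isCharacter.restrict N)]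
  by_cases h2 : χ ∈ B
  · by_cases h3 : Over N.subtype χ.1 θ.1
    · rw [if_pos ⟨h2, h3⟩, if_pos h2, Nat.cast_pow, Nat.cast_mul, coe_charDegree χ.2.isCharacter,
        coe_charDegree θ.2.isCharacter, sq]
      nth_rw 2 [h3.deg_eq]; ring
    · rw [if_neg fun e => h3 e.2, if_pos h2, not_not.1 (over_subtype_iff.not.1 h3)]; simp
  · rw [if_neg fun e => h2 e.1, if_neg h2]; simp

end CfsgH4
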