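import Cfsg.Agent.H4.KW

/-! Reduction of binary forms and divisibility in cyclotomic rings. -/

set_option autoImplicit false
open Cfsg MonoidAlgebra CfsgL0 CfsgH1 CfsgH4
open CfsgH3 hiding cj cj_cj
open scoped ComplexConjugate

namespace CfsgH4

theorem exists_round (n : ℤ) {N : ℤ} (hN : 0 < N) : ∃ q r, n = N * q + r ∧ 2 * |r| ≤ N := by
  have h1 := Int.emod_nonneg n hN.ne'
  have h2 := Int.emod_lt_of_pos n hN
  have h3 := Int.mul_ediv_add_emod n N
  by_cases h : 2 * (n % N) ≤ N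
  · exact ⟨n / N, n % N, h3.symm, by rwa [abs_of_nonneg h1]⟩
  · exact ⟨n / N + 1, n % N - N, by linarith, by rw [abs_of_nonpos (by omega)]; omega⟩

theorem exists_reduced {Λ : Type*} [AddCommGroup Λ] (Q : Λ →ₗ[ℤ] Λ →ₗ[ℤ] ℤ)
    (hs : ∀ a b, Q a b = Q b a) (h0 : ∀ a, 0 ≤ Q a a)
    (h2 : ∀ a b w, Q a b ^ 2 ≠ Q a a * Q b b → Q a w = 0 → Q b w = 0 → Q w w = 0)
    (h3 : ∃ a b, Q a b ^ 2 ≠ Q a a * Q b b) :
    ∃ a b, 0 < Q a a ∧ Q a a ≤ Q b b ∧ Q a b ≤ 0 ∧ 0 ≤ Q a a + 2 * Q a b ∧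
      ∀ v, ∃ s t : ℤ, Q (v - s • a - t • b) (v - s • a - t • b) = 0 := by
  classical
  have hq : ∀ a b (s t : ℤ), Q (s • a + t • b) (s • a + t • b) =
      s ^ 2 * Q a a + 2 * s * t * Q a b + t ^ 2 * Q b b := fun a b s t => by
    simp only [map_add, map_smul, LinearMap.add_apply, LinearMap.smul_apply, smul_eq_mul, hs b a]
    ring
  have hz : ∀ a b, Q a a = 0 → Q a b = 0 := fun a b h => by
    have h1 := h0 ((Q b b + 1) • a + (-Q a b) • b)
    rw [hq, h] at h1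
    nlinarith [h0 b, sq_nonneg (Q a b)]
  have hm : ∀ P : Λ → Prop, (∃ a, P a) → ∃ a, P a ∧ ∀ b, P b → Q a a ≤ Q b b := fun P h => by
    obtain ⟨a, h1, h2⟩ := (measure fun a => (Q a a).toNat).wf.has_min {a | P a} h
    exact ⟨a, h1, fun b hb => by
      have := h2 b hb
      have := h0 a
      have := h0 b
      simp only [measure, invImage, InvImage, Nat.lt_wfRel, WellFoundedRelation.rel] at *
      omega⟩
  obtain ⟨c, d, h3⟩ := h3
  obtain ⟨a, a1, a2⟩ := hm (fun a => Q a a ≠ 0) ⟨c, fun h => h3 (by simp [hz c d h, h])⟩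
  have a0 := lt_of_le_of_ne (h0 a) a1.symm
  obtain ⟨b, b1, b2⟩ := hm (fun b => Q a b ^ 2 ≠ Q a a * Q b b) (by
    by_contra! h
    have h4 : ∀ v w, Q a a * Q v w = Q a v * Q a w := fun v w => by
      have h5 := hz (Q a a • v + (-Q a v) • a) w (by rw [hq, hs v a]; linear_combination -Q a a * h v)
      simp only [map_add, map_smul, LinearMap.add_apply, LinearMap.smul_apply, smul_eq_mul] at h5
      linear_combination h5
    refine h3 (mul_left_cancel₀ (pow_ne_zero 2 a1) ?_)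
    linear_combination (Q a a * Q c d + Q a c * Q a d) * h4 c d - Q a a * Q d d * h4 c c -
      Q a c ^ 2 * h4 d d)
  wlog hb : Q a b ≤ 0 generalizing b
  · exact this (-b) (by simpa using b1) (by simpa using b2) (by simpa using (not_le.1 hb).le)
  have b3 := a2 b fun h => b1 (by rw [hs, hz b a h, h]; simp)
  have b4 : 0 ≤ Q a a + 2 * Q a b := by
    have := b2 ((1 : ℤ) • a + (1 : ℤ) • b) (by
      rw [hq]; simp only [map_add, map_smul]; intro h; exact b1 (by simp at h; linear_combination h))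
    rw [hq] at this
    linarith
  refine ⟨a, b, a0, b3, hb, b4, fun v => ?_⟩
  have hN : 0 < Q a a * Q b b - Q a b ^ 2 := by nlinarith
  obtain ⟨s, s', c1, c2⟩ := exists_round (Q b b * Q a v - Q a b * Q b v) hN
  obtain ⟨t, t', c3, c4⟩ := exists_round (Q a a * Q b v - Q a b * Q a v) hN
  refine ⟨s, t, ?_⟩
  generalize hv : v - s • a - t • b = w
  have d1 : Q b b * Q a w - Q a b * Q b w = s' := by
    simp only [← hv, map_sub, map_smul, smul_eq_mul, hs b a]; linear_combination c1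
  have d2 : Q a a * Q b w - Q a b * Q a w = t' := by
    simp only [← hv, map_sub, map_smul, smul_eq_mul, hs b a]; linear_combination c3
  generalize hN' : Q a a * Q b b - Q a b ^ 2 = N at *
  have d3 := hz _ w (h2 a b (N • w - s' • a - t' • b) b1 (by
    simp only [map_sub, map_smul, smul_eq_mul, ← hN', ← d1, ← d2]; ring) (by
    simp only [map_sub, map_smul, smul_eq_mul, ← hN', ← d1, ← d2, hs b a]; ring))
  simp only [map_sub, map_smul, smul_eq_mul, LinearMap.sub_apply, LinearMap.smul_apply] at d3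
  have d4 : N ^ 2 * Q w w = s' ^ 2 * Q a a + 2 * s' * t' * Q a b + t' ^ 2 * Q b b := by
    linear_combination N * d3 + (s' * Q a a + t' * Q a b) * d1 + (s' * Q a b + t' * Q b b) * d2 -
      (s' * Q a w + t' * Q b w) * hN'
  have d5 : 4 * s' ^ 2 ≤ N ^ 2 := by nlinarith [abs_nonneg s', sq_abs s']
  have d6 : 4 * t' ^ 2 ≤ N ^ 2 := by nlinarith [abs_nonneg t', sq_abs t']
  by_cases ht : t' = 0
  · by_contra h
    have := mul_le_mul_of_nonneg_left (a2 w h) (sq_nonneg N)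
    rw [d4, ht] at this
    nlinarith [mul_le_mul_of_nonneg_right d5 a0.le, mul_pos (pow_pos hN 2) a0]
  have := mul_le_mul_of_nonneg_left (b2 w fun h => ht (pow_eq_zero_iff two_ne_zero |>.1
    (mul_left_cancel₀ hN.ne' (?_ : N * t' ^ 2 = N * 0)))) (sq_nonneg N)
  · rw [d4] at this
    nlinarith [mul_le_mul_of_nonneg_right d5 a0.le, mul_le_mul_of_nonneg_right d6 (h0 b),
      mul_pos (pow_pos hN 2) a0, mul_le_mul_of_nonneg_left b3 (sq_nonneg N),
      mul_nonneg (sq_nonneg (s' + t')) (neg_nonneg.2 hb),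
      mul_nonneg (add_nonneg (sq_nonneg s') (sq_nonneg t')) b4,
      mul_le_mul_of_nonneg_right d6 a0.le]
  · have d7 : N * Q a w = s' * Q a a + t' * Q a b := by
      linear_combination Q a a * d1 + Q a b * d2 - Q a w * hN'
    linear_combination -N ^ 2 * h - Q a a * d4 + (N * Q a w + s' * Q a a + t' * Q a b) * d7 -
      t' ^ 2 * hN'

section Cyc
variable {M : Ideal AlgInt} {p : ℕ} [hM : PMod p M] {j : ℕ} {ζ : ℂ}

omit hM in
theorem isIntegral_one_sub_div {n : ℕ} [NeZero n] {μ : ℂ} (hζ : IsPrimitiveRoot ζ n) (hμ : μ ^ n = 1) :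
    IsIntegral ℤ ((1 - μ) / (1 - ζ)) := by
  obtain ⟨i, -, rfl⟩ := hζ.eq_pow_of_pow_eq_one hμ
  by_cases h : 1 - ζ = 0
  · simp [h, isIntegral_zero]
  rw [← mul_neg_geom_sum, mul_div_cancel_left₀ _ h]
  exact IsIntegral.sum _ fun k _ => (hζ.isIntegral (NeZero.pos n)).pow k

variable (hζ : IsPrimitiveRoot ζ (p ^ (j + 1)))
include hζ hM

variable (M) in
theorem prod_one_sub_eq : ∏ μ ∈ primitiveRoots (p ^ (j + 1)) ℂ, (1 - μ) = p := by
  haveI : Fact p.Prime := ⟨PMod.prime M⟩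
  have := Polynomial.eval_one_cyclotomic_prime_pow (R := ℂ) (p := p) j
  rw [Polynomial.cyclotomic_eq_prod_X_sub_primitiveRoots hζ, Polynomial.eval_prod] at this
  simpa using this

theorem exists_eq_one_sub_mul {x : ℂ} (hx : x ∈ Subring.closure {ζ}) (h : MemLocalIdeal M x) :
    ∃ y ∈ Subring.closure {ζ}, x = (1 - ζ) * y := by
  have hp := PMod.prime M
  haveI : NeZero (p ^ (j + 1)) := ⟨pow_ne_zero _ hp.ne_zero⟩
  have hz : ζ ∈ Subring.closure {ζ} := Subring.subset_closure rfl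
  have hi : ∀ x ∈ Subring.closure {ζ}, IsIntegral ℤ x := fun x hx =>
    Subring.closure_le (t := (integralClosure ℤ ℂ).toSubring).2
      (Set.singleton_subset_iff.2 (hζ.isIntegral (NeZero.pos _))) hx
  obtain ⟨n, y, hy, rfl⟩ : ∃ n : ℤ, ∃ y ∈ Subring.closure {ζ}, x = n + (1 - ζ) * y := by
    clear h
    induction hx using Subring.closure_induction with
    | mem x hx => exact ⟨1, -1, neg_mem (one_mem _), by simp [Set.mem_singleton_iff.1 hx]⟩
    | zero => exact ⟨0, 0, zero_mem _, by simp⟩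
    | one => exact ⟨1, 0, zero_mem _, by simp⟩
    | add x y _ _ a b =>
      obtain ⟨⟨m, f, hf, rfl⟩, n, g, hg, rfl⟩ := And.intro a b
      exact ⟨m + n, f + g, add_mem hf hg, by push_cast; ring⟩
    | neg x _ a =>
      obtain ⟨m, f, hf, rfl⟩ := a
      exact ⟨-m, -f, neg_mem hf, by push_cast; ring⟩
    | mul x y _ hy a b =>
      obtain ⟨⟨m, f, hf, rfl⟩, n, g, hg, rfl⟩ := And.intro a b
      exact ⟨m * n, _, add_mem (mul_mem (intCast_mem _ m) hg) (mul_mem hf hy), by push_cast; ring⟩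
  obtain ⟨m, rfl⟩ := (InP_intCast_iff (M := M) n).1 (by
    simpa using InP.sub h (InP.mul_right (InP.symm (InP_sub_one_of_pow (M := M) hζ.pow_eq_one))
      (mem_Loc_of_isIntegral (hi y hy))))
  have h1 := prod_one_sub_eq M hζ
  rw [← Finset.mul_prod_erase _ _ ((mem_primitiveRoots (NeZero.pos _)).2 hζ)] at h1
  refine ⟨_, add_mem (mul_mem (Subring.prod_mem _ fun μ hμ => sub_mem (one_mem _) ?_) (intCast_mem _ m))
    hy, by rw [mul_add, ← mul_assoc, h1]; simp⟩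
  obtain ⟨i, -, rfl⟩ := hζ.eq_pow_of_pow_eq_one
    ((mem_primitiveRoots (NeZero.pos _)).1 (Finset.mem_of_mem_erase hμ)).pow_eq_one
  exact pow_mem hz i

theorem isIntegral_div_of_mem_Loc {x : ℂ} (hx : x ∈ Subring.closure {ζ}) (h : x / p ∈ Loc M) :
    IsIntegral ℤ (x / p) := by
  have hp := PMod.prime M
  haveI : NeZero (p ^ (j + 1)) := ⟨pow_ne_zero _ hp.ne_zero⟩
  have h0 : ∀ {μ : ℂ}, IsPrimitiveRoot μ (p ^ (j + 1)) → 1 - μ ≠ 0 := fun h =>
    sub_ne_zero.2 (h.ne_one (Nat.one_lt_pow j.succ_ne_zero hp.one_lt)).symm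
  have h1 := InP.symm (InP_sub_one_of_pow (M := M) hζ.pow_eq_one)
  have h2 : ∀ m : ℕ, ∀ x ∈ Subring.closure {ζ}, ∀ y ∈ Loc M, x = (1 - ζ) ^ m * y →
      IsIntegral ℤ y := fun m => by
    induction m with
    | zero =>
      exact fun x hx y _ h => Subring.closure_le (t := (integralClosure ℤ ℂ).toSubring).2
        (Set.singleton_subset_iff.2 (hζ.isIntegral (NeZero.pos _))) (by simpa [h] using hx)
    | succ m ih =>
      intro x hx y hy h
      obtain ⟨g, hg, rfl⟩ := exists_eq_one_sub_mul (M := M) hζ hx (by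
        rw [h, pow_succ', mul_assoc]
        exact InP.mul_right h1 (mul_mem (pow_mem (InP.mem_Loc h1) _) hy))
      exact ih g hg y hy (mul_left_cancel₀ (h0 hζ) (by rw [h]; ring))
  have h3 := fun μ (hμ : μ ∈ primitiveRoots (p ^ (j + 1)) ℂ) =>
    (mem_primitiveRoots (NeZero.pos _)).1 hμ
  have h4 := h2 (primitiveRoots (p ^ (j + 1)) ℂ).card x hx _ (mul_mem h (Subring.prod_mem _
    fun μ hμ => mem_Loc_of_isIntegral (isIntegral_one_sub_div hζ (h3 μ hμ).pow_eq_one))) (by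
      have := h0 hζ
      have := p_pow_ne_zero (M := M) 1
      rw [Finset.prod_div_distrib, prod_one_sub_eq M hζ, Finset.prod_const]
      rw [pow_one] at this
      field_simp)
  have h5 := h4.mul (IsIntegral.prod _ fun μ hμ => isIntegral_one_sub_div (h3 μ hμ) hζ.pow_eq_one)
  rwa [mul_assoc, ← Finset.prod_mul_distrib, Finset.prod_eq_one fun μ hμ => by
    rw [div_mul_div_cancel₀ (h0 hζ), div_self (h0 (h3 μ hμ))], mul_one] at h5

end Cyc

section Blk
variable {G : Type*} [Group G] [Fintype G] {M : Ideal AlgInt} {p : ℕ} [hM : PMod p M]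
  {b : Set (IrrCharacter G)}

omit hM in
theorem exists_nat_mm_self {π : G → ℂ} (h0 : IsClassFunction G π)
    (h : ∀ ξ : IrrCharacter G, ∃ n : ℤ, mm p π ξ.1 = n) : ∃ c : ℕ, mm p π π = c := by
  choose n hn using h
  refine ⟨∑ ξ, (n ξ).natAbs ^ 2, ?_⟩
  rw [mm_eq_sum_mm h0, Nat.cast_sum]
  refine Finset.sum_congr rfl fun ξ _ => ?_
  rw [← conj_mm π, hn, map_intCast, ← Int.cast_natCast, Nat.cast_pow, Int.natAbs_sq]
  push_cast; ring

include hM

variable (M) in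
theorem exists_int_defect_mm {a c : G → ℂ} (ha : IsGeneralizedCharacter G a) (h : blockPart b a = a)
    (hc : IsGeneralizedCharacter G c) : ∃ n : ℤ, (p : ℂ) ^ blockDefect p b * mm p a c = n := by
  classical
  choose m hm using fun ξ : IrrCharacter G => ha.exists_int_classInner ξ.2.isGen
  refine ⟨∑ ξ, if ξ ∈ b then m ξ * dd p b ξ.1 c else 0, ?_⟩
  rw [← h, mm_blockPart_eq_sum, Finset.mul_sum, Int.cast_sum]
  refine Finset.sum_congr rfl fun ξ _ => ?_
  split_ifs with hξ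
  · rw [Int.cast_mul, coe_dd (M := M) hξ hc, hm, mul_left_comm]
  · simp

theorem rg_eq_zero_of_two (hb : fB b ∈ LG G M) (hl : blockRank p b = 2) {φ ψ : G → ℂ}
    (h1 : blockPart b φ = φ) (h2 : blockPart b ψ = ψ)
    (h : mm p φ ψ * mm p ψ φ ≠ mm p φ φ * mm p ψ ψ) {a : G → ℂ} (ha : IsClassFunction G a)
    (h3 : mm p φ a = 0) (h4 : mm p ψ a = 0) : rg p (blockPart b a) = 0 := by
  have h' := sub_ne_zero.2 h.symm
  refine rg_eq_zero_of_dual hb (ι := Fin 2) (by simp [hl]) (π := ![φ, ψ])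
    (v := ![(mm p φ φ * mm p ψ ψ - mm p φ ψ * mm p ψ φ)⁻¹ • (mm p ψ ψ • φ - mm p φ ψ • ψ),
      (mm p φ φ * mm p ψ ψ - mm p φ ψ * mm p ψ φ)⁻¹ • (mm p φ φ • ψ - mm p ψ φ • φ)]) ?_ ?_ ?_ ha ?_
    <;> simp [Fin.forall_fin_two, blockPart_smul, blockPart_sub, mm_smul_left, mm_sub_left, *]
  refine ⟨⟨?_, ?_⟩, ?_, ?_⟩ <;> field_simp
  all_goals ring

theorem _root_.Cfsg.IsPBlock.exists_reduced (hb : IsPBlock M b) (hl : blockRank p b = 2) :
    ∃ (φ ψ : G → ℂ) (α β γ : ℤ), IsGeneralizedCharacter G φ ∧ IsGeneralizedCharacter G ψ ∧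
      blockPart b φ = φ ∧ blockPart b ψ = ψ ∧ (p : ℂ) ^ blockDefect p b * mm p φ φ = α ∧
      (p : ℂ) ^ blockDefect p b * mm p φ ψ = β ∧ (p : ℂ) ^ blockDefect p b * mm p ψ ψ = γ ∧
      0 < α ∧ α ≤ γ ∧ β ≤ 0 ∧ 0 ≤ α + 2 * β ∧
      ∀ ξ ∈ b, ∃ s t : ℤ, rg p ξ.1 = rg p ((s : ℂ) • φ + (t : ℂ) • ψ) := by
  haveI : Fact p.Prime := ⟨PMod.prime M⟩
  let Λ : AddSubgroup (G → ℂ) := ⟨⟨⟨{a | IsGeneralizedCharacter G a ∧ blockPart b a = a},
    fun h1 h2 => ⟨h1.1.add h2.1, by rw [blockPart_add, h1.2, h2.2]⟩⟩,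
    isGen_zero, by simpa using blockPart_smul b 0 0⟩,
    fun {a} h => ⟨h.1.neg, by rw [← neg_one_smul ℂ, blockPart_smul, h.2]⟩⟩
  choose q hq using fun a c : Λ => exists_int_defect_mm M a.2.1 a.2.2 c.2.1
  have h0 := p_pow_ne_zero (M := M) (blockDefect p b)
  let Q : Λ →ₗ[ℤ] Λ →ₗ[ℤ] ℤ := LinearMap.mk₂ ℤ q
    (fun a a' c => Int.cast_injective (α := ℂ) (by simp [← hq, mm_add_left, mul_add]))
    (fun n a c => Int.cast_injective (α := ℂ) (by
      simp only [← hq, AddSubgroup.coe_zsmul, ← Int.cast_smul_eq_zsmul ℂ, mm_smul_left]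
      simp [← hq, mul_left_comm]))
    (fun a a' c => Int.cast_injective (α := ℂ) (by simp [← hq, mm_add_right, mul_add]))
    (fun n a c => Int.cast_injective (α := ℂ) (by
      simp only [← hq, AddSubgroup.coe_zsmul, ← Int.cast_smul_eq_zsmul ℂ, mm_smul_right]
      simp [← hq, mul_left_comm]))
  have hQ : ∀ a c, (p : ℂ) ^ blockDefect p b * mm p a.1 c.1 = Q a c := hq
  have h1 : ∀ a c, Q a c = 0 ↔ mm p a.1 c.1 = 0 := fun a c => by
    rw [← Int.cast_eq_zero (α := ℂ), ← hQ, mul_eq_zero, or_iff_right h0]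
  have h2 : ∀ a c, Q a c ^ 2 = Q a a * Q c c ↔
      mm p a.1 c.1 * mm p c.1 a.1 = mm p a.1 a.1 * mm p c.1 c.1 := fun a c => by
    rw [← Int.cast_inj (α := ℂ), Int.cast_pow, Int.cast_mul, ← hQ, ← hQ, ← hQ, mul_mul_mul_comm,
      pow_two, mul_mul_mul_comm, mul_right_inj' (mul_ne_zero h0 h0), mm_comm c.2.1 a.2.1]
  obtain ⟨φ, ψ, a1, a2, a3, a4, a5⟩ := CfsgH4.exists_reduced Q
    (fun a c => Int.cast_injective (α := ℂ) (by rw [← hQ, ← hQ, mm_comm a.2.1 c.2.1]))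
    (fun a => by
      have := congrArg Complex.re (hQ a a)
      rw [← Nat.cast_pow, ← Complex.ofReal_natCast, Complex.re_ofReal_mul, Complex.intCast_re] at this
      exact_mod_cast this ▸ mul_nonneg (Nat.cast_nonneg _) (mm_self_re_nonneg _))
    (fun a c w h ha hc => by
      rw [h1, mm_self_eq_zero, ← w.2.2]
      exact rg_eq_zero_of_two hb.fB_mem hl a.2.2 c.2.2 (mt (h2 a c).2 h) w.2.1.isClassFunction
        ((h1 _ _).1 ha) ((h1 _ _).1 hc))
    (by
      by_contra! h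
      obtain ⟨ξ, hξ⟩ := hb.nonempty
      have h3 : mm p ξ.1 ξ.1 ≠ 0 := fun h => ξ.2.apply_one_ne_zero (by
        rw [← rg_of_reg (p := p) ξ.1 (by simpa using (PMod.prime M).one_lt.ne'), mm_self_eq_zero.1 h]; rfl)
      rw [blockRank_eq_one_of hb.nonempty (φ := rg p ξ.1) fun χ hχ => ⟨mm p χ.1 ξ.1 / mm p ξ.1 ξ.1, by
        have h4 := (h2 ⟨_, ξ.2.isGen, blockPart_irr_of_mem hξ⟩
          ⟨_, χ.2.isGen, blockPart_irr_of_mem hχ⟩).1 (h _ _)
        rw [← rg_smul, ← sub_eq_zero, ← rg_sub, ← mm_self_eq_zero]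
        simp only [mm_sub_left, mm_sub_right, mm_smul_left, mm_smul_right, map_div₀, conj_mm] at h4 ⊢
        field_simp
        linear_combination -h4⟩] at hl
      omega)
  refine ⟨φ, ψ, _, _, _, φ.2.1, ψ.2.1, φ.2.2, ψ.2.2, hQ _ _, hQ _ _, hQ _ _, a1, a2, a3, a4,
    fun ξ hξ => ?_⟩
  obtain ⟨s, t, h⟩ := a5 ⟨_, ξ.2.isGen, blockPart_irr_of_mem hξ⟩
  rw [h1, mm_self_eq_zero, sub_sub, AddSubgroup.coe_sub, rg_sub, sub_eq_zero] at h
  exact ⟨s, t, by rw [Int.cast_smul_eq_zsmul, Int.cast_smul_eq_zsmul]; exact h⟩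

end Blk

end CfsgH4
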