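import Mathlib

/-! Symmetric local algebras with a small centre. -/

set_option autoImplicit false
open Module Submodule

namespace CfsgH4

section Lin
variable {k V : Type*} [Field k] [AddCommGroup V] [Module k V] [FiniteDimensional k V]
  {U W : Submodule k V}

theorem exists_codim_one (h : U ≤ W) (h1 : finrank k W ≤ finrank k U + 1) :
    ∃ x ∈ W, W ≤ span k {x} ⊔ U := by
  rcases h.eq_or_lt with rfl | h2
  · exact ⟨0, zero_mem _, le_sup_right⟩
  obtain ⟨x, h3, h4⟩ := SetLike.exists_of_lt h2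
  refine ⟨x, h3, (eq_of_le_of_finrank_le (sup_le ((span_singleton_le_iff_mem _ _).2 h3) h) ?_).ge⟩
  exact h1.trans (finrank_lt_finrank_of_lt (le_sup_right.lt_of_ne fun h5 => h4
    (h5 ▸ mem_sup_left (mem_span_singleton_self x))))

theorem exists_codim_two (h : U ≤ W) (h1 : finrank k W ≤ finrank k U + 2) :
    ∃ x ∈ W, ∃ y ∈ W, W ≤ span k {x} ⊔ (span k {y} ⊔ U) := by
  rcases h.eq_or_lt with rfl | h2
  · exact ⟨0, zero_mem _, 0, zero_mem _, le_sup_right.trans le_sup_right⟩
  obtain ⟨y, h3, h4⟩ := SetLike.exists_of_lt h2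
  have h5 : finrank k U < finrank k (span k {y} ⊔ U : Submodule k V) :=
    finrank_lt_finrank_of_lt (le_sup_right.lt_of_ne fun h5 => h4
      (h5 ▸ mem_sup_left (mem_span_singleton_self y)))
  obtain ⟨x, h6, h7⟩ := exists_codim_one (sup_le ((span_singleton_le_iff_mem _ _).2 h3) h)
    (h1.trans (Nat.succ_le_succ h5))
  exact ⟨x, h6, y, h3, h7⟩

omit [FiniteDimensional k V] in
theorem mem_span_sup {x z : V} : z ∈ span k {x} ⊔ U ↔ ∃ c : k, z - c • x ∈ U := by
  simp only [mem_sup, mem_span_singleton]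
  exact ⟨fun ⟨_, ⟨c, h⟩, u, hu, h'⟩ => ⟨c, by rw [← h', ← h]; simpa⟩,
    fun ⟨c, h⟩ => ⟨_, ⟨c, rfl⟩, _, h, by simp⟩⟩

end Lin

section Alg
variable {k A : Type*} [Field k] [Ring A] [Algebra k A]

variable (k A) in
/-- The span of the commutators. -/
def comS : Submodule k A := span k {z | ∃ a b, z = a * b - b * a}

theorem mem_comS (a b : A) : a * b - b * a ∈ comS k A := subset_span ⟨a, b, rfl⟩

/-- A split local symmetric algebra with radical `J` and symmetrizing form `τ`. -/
structure SLA (J : Submodule k A) (τ : A →ₗ[k] k) : Prop where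
  loc : ∀ a, ∃ c : k, a - c • 1 ∈ J
  mul : J * J ≤ J
  nil : ∃ n, J ^ (n + 1) = ⊥
  sym : ∀ a b, τ (a * b) = τ (b * a)
  nd : ∀ a, (∀ b, τ (a * b) = 0) → a = 0

namespace SLA
variable {J U : Submodule k A} {τ : A →ₗ[k] k} (h : SLA J τ)
include h

theorem finrank_le [FiniteDimensional k A] :
    finrank k A ≤ finrank k (comS k A) + finrank k (Subalgebra.center k A) := by
  let Ψ : A →ₗ[k] Dual k A := (LinearMap.mul k A).compr₂ τ
  have h1 : Function.Injective Ψ := (injective_iff_map_eq_zero _).2 fun a ha =>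
    h.nd a fun b => LinearMap.congr_fun ha b
  have h2 := (LinearMap.injective_iff_surjective_of_finrank_eq_finrank
    (Subspace.dual_finrank_eq (K := k) (V := A)).symm).1 h1
  rw [← Subspace.finrank_add_finrank_dualAnnihilator_eq (comS k A), add_le_add_iff_left]
  refine le_trans (finrank_mono (t := (Subalgebra.center k A).toSubmodule.map Ψ) fun φ hφ => ?_)
    (finrank_map_le _ _)
  obtain ⟨z, rfl⟩ := h2 φ
  refine ⟨z, (Subalgebra.mem_center_iff (R := k)).2 fun a => sub_eq_zero.1 (h.nd _ fun b => ?_), rfl⟩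
  have := (mem_dualAnnihilator _).1 hφ _ (mem_comS b a)
  change τ (z * _) = 0 at this
  rw [sub_mul, map_sub, mul_assoc, h.sym, mul_assoc, mul_assoc, ← map_sub, ← mul_sub, this]

theorem comS_le_ker : comS k A ≤ LinearMap.ker τ := span_le.2 (by
  rintro _ ⟨a, b, rfl⟩
  simp [h.sym a b])

omit h in
theorem com_eq (a b : A) (c d : k) :
    (a - c • 1) * (b - d • 1) - (b - d • 1) * (a - c • 1) = a * b - b * a := by
  simp only [mul_sub, sub_mul, smul_mul_assoc, mul_smul_comm, one_mul, mul_one]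
  module

theorem comS_le : comS k A ≤ J * J := span_le.2 (by
  rintro _ ⟨a, b, rfl⟩
  obtain ⟨c, hc⟩ := h.loc a
  obtain ⟨d, hd⟩ := h.loc b
  refine com_eq a b c d ▸ sub_mem (mul_mem_mul hc hd) (mul_mem_mul hd hc))

theorem eq_bot (h1 : U * J ≤ U) (h2 : U ≤ comS k A) : U = ⊥ :=
  (Submodule.eq_bot_iff _).2 fun a ha => h.nd a fun b => by
    obtain ⟨c, hc⟩ := h.loc b
    refine h.comS_le_ker (h2 ?_)
    convert add_mem (h1 (mul_mem_mul ha hc)) (smul_mem _ c ha) using 1
    simp [mul_sub]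

theorem nak (h1 : U ≤ U * J) : U = ⊥ := by
  obtain ⟨n, hn⟩ := h.nil
  have : ∀ m, U ≤ U * J ^ m := fun m => by
    induction m with
    | zero => simp
    | succ m ih => rw [pow_succ, ← mul_assoc]; exact h1.trans (mul_le_mul_left ih _)
  simpa [hn] using this (n + 1)

theorem nak' (h1 : U ≤ J) (h2 : U * U ≤ U) (h3 : J ≤ U ⊔ J * J) : J ≤ U := by
  obtain ⟨n, hn⟩ := h.nil
  have : ∀ m, J ≤ U ⊔ J ^ (m + 1) := fun m => by
    induction m with
    | zero => simp
    | succ m ih =>
      refine h3.trans (sup_le le_sup_left ((mul_le_mul_left ih _).trans ?_))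
      rw [Submodule.sup_mul, pow_succ _ (m + 1)]
      refine sup_le ((mul_le_mul_right ih _).trans ?_) le_sup_right
      rw [Submodule.mul_sup, ← pow_succ, pow_succ' _ (m + 1)]
      exact sup_le_sup h2 (mul_le_mul_left h1 _)
  simpa [hn] using this n

theorem comm_of_one {x : A} (hx : x ∈ J) (h1 : J ≤ span k {x} ⊔ J * J) : comS k A = ⊥ := by
  have h2 : J ≤ J ⊓ (Algebra.adjoin k {x}).toSubmodule := h.nak' inf_le_left
    (mul_le.2 fun a ha b hb => ⟨h.mul (mul_mem_mul ha.1 hb.1), (Algebra.adjoin k {x}).mul_mem ha.2 hb.2⟩)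
    (h1.trans (sup_le_sup_right ((span_singleton_le_iff_mem _ _).2
      (mem_inf.2 ⟨hx, Algebra.self_mem_adjoin_singleton k x⟩)) _))
  refine span_eq_bot.2 ?_
  rintro _ ⟨a, b, rfl⟩
  obtain ⟨c, hc⟩ := h.loc a
  obtain ⟨d, hd⟩ := h.loc b
  have := Algebra.commute_of_mem_adjoin_singleton_of_commute (h2 hc).2
    (Algebra.commute_of_mem_adjoin_self (h2 hd).2).symm
  rw [← com_eq a b c d, this.eq, sub_self]

theorem comS_le_of_two {x y : A} (hx : x ∈ J) (hy : y ∈ J)
    (h1 : J ≤ span k {x} ⊔ (span k {y} ⊔ J * J)) :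
    comS k A ≤ span k {x * y - y * x} ⊔ J * J * J := by
  refine span_le.2 ?_
  rintro _ ⟨a, b, rfl⟩
  obtain ⟨c, hc⟩ := h.loc a
  obtain ⟨d, hd⟩ := h.loc b
  obtain ⟨c₁, hc₁⟩ := mem_span_sup.1 (h1 hc)
  obtain ⟨c₂, hc₂⟩ := mem_span_sup.1 hc₁
  obtain ⟨d₁, hd₁⟩ := mem_span_sup.1 (h1 hd)
  obtain ⟨d₂, hd₂⟩ := mem_span_sup.1 hd₁
  refine mem_span_sup.2 ⟨c₁ * d₂ - c₂ * d₁, ?_⟩
  have hx' := add_mem (smul_mem _ c₁ hx) (smul_mem _ c₂ hy)
  have e1 := mul_mem_mul hc₂ hd
  have e2 := mul_mem_mul hd hc₂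
  have e3 := mul_mem_mul hx' hd₂
  have e4 := mul_mem_mul hd₂ hx'
  rw [← mul_assoc] at e2 e3
  convert add_mem (sub_mem e1 e2) (sub_mem e3 e4) using 1
  simp only [mul_sub, sub_mul, mul_add, add_mul, smul_mul_assoc, mul_smul_comm, one_mul, mul_one,
    smul_sub, smul_add]
  module

theorem cube_eq_bot {x y : A} (hx : x ∈ J) (hy : y ∈ J)
    (h1 : J * J ≤ span k {x * y - y * x} ⊔ J * J * J) : J * J * J = ⊥ := by
  refine h.nak fun z hz => ?_
  by_contra hn
  obtain ⟨φ, h2, h3⟩ := exists_dual_map_eq_bot_of_notMem hn inferInstance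
  have h4 : ∀ z ∈ J * J * J * J, φ z = 0 := fun z hz => by
    simpa [h3] using mem_map_of_mem (f := φ) hz
  set c := x * y - y * x
  obtain ⟨w, hw, h5⟩ : ∃ w ∈ J, φ (c * w) = 1 := by
    by_contra h5
    push Not at h5
    refine h2 ((mul_le.2 fun a ha b hb => ?_ : J * J * J ≤ LinearMap.ker φ) hz)
    obtain ⟨t, ht⟩ := mem_span_sup.1 (h1 ha)
    have h6 := h4 _ (mul_mem_mul ht hb)
    have h7 : φ (c * b) = 0 := by
      by_contra h7
      exact h5 _ (smul_mem _ (φ (c * b))⁻¹ hb) (by simp [h7])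
    simpa [sub_mul, h7] using h6
  have h6 : ∀ u ∈ J, ∀ v ∈ J, φ (u * v * w) = φ (v * w * w) * φ (u * c) := fun u hu v hv => by
    obtain ⟨t, ht⟩ := mem_span_sup.1 (h1 (mul_mem_mul hv hw))
    have e1 := h4 _ (mul_mem_mul ht hw)
    have e2 := mul_mem_mul hu ht
    rw [← mul_assoc, ← mul_assoc] at e2
    have e3 := h4 _ e2
    simp only [sub_mul, mul_sub, map_sub, smul_mul_assoc, mul_smul_comm, map_smul, h5, smul_eq_mul,
      mul_one, sub_eq_zero] at e1 e3
    rw [mul_assoc, e3, e1]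
  rw [sub_mul, map_sub, h6 x hx y hy, h6 y hy x hx, h6 x hx w hw, h6 y hy w hw] at h5
  exact zero_ne_one (h5.symm ▸ by ring : (0 : k) = 1)

theorem comm [FiniteDimensional k A] (hZ : finrank k (Subalgebra.center k A) ≤ 4) (a b : A) :
    a * b = b * a := by
  suffices comS k A = ⊥ by simpa [this, sub_eq_zero] using mem_comS (k := k) a b
  have h1 := h.finrank_le
  have h2 : J * J * J ≤ J * J := mul_le_mul_left h.mul _
  have h3 : J * J * J ≤ comS k A → comS k A = ⊥ := fun h3 => h.eq_bot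
    ((mul_le_mul_left h.comS_le _).trans h3) le_rfl
  by_cases h4 : J * J * J ≤ comS k A
  · exact h3 h4
  have h5 : finrank k J < finrank k A := finrank_lt fun h5 => h4 (by
    rw [h.nak (U := J * J * J) fun z hz => by simpa using mul_mem_mul hz (h5.ge (mem_top (x := 1)))]
    exact bot_le)
  have h6 : finrank k (comS k A) < finrank k (comS k A ⊔ J * J * J : Submodule k A) :=
    finrank_lt_finrank_of_lt (le_sup_left.lt_of_ne fun h => h4 (le_sup_right.trans h.ge))
  have h7 := finrank_mono (sup_le h.comS_le h2)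
  by_cases h8 : finrank k J ≤ finrank k (J * J : Submodule k A) + 1
  · obtain ⟨x, hx, h9⟩ := exists_codim_one h.mul h8
    exact h.comm_of_one hx h9
  obtain ⟨x, hx, y, hy, h9⟩ := exists_codim_two h.mul (by omega)
  have h10 := eq_of_le_of_finrank_le (sup_le h.comS_le h2) (by omega)
  exact h3 ((h.cube_eq_bot hx hy (h10.ge.trans
    (sup_le (h.comS_le_of_two hx hy h9) le_sup_right))).le.trans bot_le)

end SLA

theorem exists_sla [IsAlgClosed k] [FiniteDimensional k A] [Nontrivial A]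
    (h : ∀ z : A, IsNilpotent z ∨ ∃ z', z * z' = 1) {τ : A →ₗ[k] k}
    (h1 : ∀ a b, τ (a * b) = τ (b * a)) (h2 : ∀ a, (∀ b, τ (a * b) = 0) → a = 0) :
    ∃ J, SLA J τ := by
  have : IsArtinianRing A := IsArtinianRing.of_finite k _
  refine ⟨(Ideal.jacobson (⊥ : Ideal A)).restrictScalars k, fun a => ?_,
    mul_le.2 fun a _ b hb => Ideal.mul_mem_left _ _ hb, ?_, h1, h2⟩
  · obtain ⟨c, hc⟩ := spectrum.nonempty_of_isAlgClosed_of_finiteDimensional k a
    refine ⟨c, Ideal.mem_jacobson_iff.2 fun y => ?_⟩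
    rcases h (y * (a - c • 1) + 1) with h3 | ⟨z, h3⟩
    · refine absurd ?_ hc
      have := h3.isUnit_sub_one
      rw [add_sub_cancel_right] at this
      rw [resolventSet, Set.mem_setOf_eq, ← neg_sub, IsUnit.neg_iff, Algebra.algebraMap_eq_smul_one]
      exact isUnit_of_mul_isUnit_right this
    · exact ⟨z, by rw [mul_assoc, ← mul_add_one, mul_eq_one_comm.1 h3, sub_self]; exact zero_mem _⟩
  · obtain ⟨n, hn⟩ := IsArtinianRing.isNilpotent_jacobson_bot (R := A)
    exact ⟨n, by rw [← restrictScalars_pow n.succ_ne_zero, Submodule.pow_succ, hn]; simp⟩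

variable (k) in
/-- The corner of an element. -/
def corS (e : A) : NonUnitalSubalgebra k A where
  carrier := {z | e * z = z ∧ z * e = z}
  add_mem' ha hb := ⟨by rw [mul_add, ha.1, hb.1], by rw [add_mul, ha.2, hb.2]⟩
  zero_mem' := by simp
  mul_mem' ha hb := ⟨by rw [← mul_assoc, ha.1], by rw [mul_assoc, hb.2]⟩
  smul_mem' c _ ha := ⟨by rw [mul_smul_comm, ha.1], by rw [smul_mul_assoc, ha.2]⟩

variable (k) in
/-- The corner algebra of an idempotent. -/
def Cor {e : A} (_ : e * e = e) : Type _ := corS k e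

variable {e : A} (he : e * e = e)

instance ringCor : Ring (Cor k he) where
  __ : NonUnitalRing (Cor k he) := inferInstanceAs (NonUnitalRing (corS k e))
  one := ⟨e, he, he⟩
  one_mul r := Subtype.ext r.2.1
  mul_one r := Subtype.ext r.2.2

instance moduleCor : Module k (Cor k he) := inferInstanceAs (Module k (corS k e))

instance algebraCor : Algebra k (Cor k he) := Algebra.ofModule
  (fun c x y => Subtype.ext (smul_mul_assoc c x.1 y.1))
  fun c x y => Subtype.ext (mul_smul_comm c x.1 y.1)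

/-- The inclusion of the corner algebra. -/
def Cor.val : Cor k he →ₗ[k] A where
  toFun := Subtype.val
  map_add' _ _ := rfl
  map_smul' _ _ := rfl

theorem Cor.val_injective : Function.Injective (Cor.val (k := k) he) := Subtype.val_injective

instance finCor [FiniteDimensional k A] : FiniteDimensional k (Cor k he) :=
  Module.Finite.of_injective _ (Cor.val_injective he)

theorem Cor.val_pow (z : Cor k he) (n : ℕ) : (z ^ (n + 1)).1 = z.1 ^ (n + 1) := by
  induction n with
  | zero => simp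
  | succ n ih => rw [pow_succ, pow_succ _ (n + 1), ← ih]; rfl

end Alg

end CfsgH4
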