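import Cfsg.Agent.H4.IB2
import Cfsg.Agent.H4.SLA

/-! The basic algebra of a block with one Brauer character. -/

set_option autoImplicit false
open Cfsg MonoidAlgebra CfsgH4 Module
open CfsgH3 hiding cj cj_cj
open scoped ComplexConjugate

namespace CfsgH4

universe u
variable {G : Type u} [Group G] [Finite G] {M : Ideal AlgInt} {B : Set (IrrCharacter G)}
  {p : ℕ} [hM : PMod p M] [hp : Fact p.Prime]

theorem Cfsg.IsPBlock.exists_pim (hB : IsPBlock M B) (hl : blockRank p B = 1) :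
    ∃ j : Pim G M, j.In B ∧ (∀ k : Pim G M, k.In B → k = j) ∧
      (∀ χ ∈ B, 0 < j.1 χ ∧ charDegree χ.1 = j.1 χ * j.deg) ∧
      ∑ χ, j.1 χ * j.1 χ = p ^ blockDefect p B := by
  classical
  have := Fintype.ofFinite G
  obtain ⟨φ, d, h1, -, -, h2, -, h3, -⟩ := hB.exists_cartan hl
  rw [Pim.blockRank_eq hB.fB_mem, Nat.card_eq_one_iff_exists] at hl
  obtain ⟨⟨j, hj⟩, h4⟩ := hl
  have h5 : ∀ k : Pim G M, k.In B → k = j := fun k hk => congrArg Subtype.val (h4 ⟨k, hk⟩)
  refine ⟨j, hj, h5, fun χ hχ => ?_, ?_⟩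
  · have h6 : charDegree χ.1 = j.1 χ * j.deg := by
      rw [Pim.deg_irr (M := M), Finset.sum_eq_single j (fun k _ hk => by
        rw [Pim.eq_zero_of_not_in (fun h => hk (h5 k h)) hχ, zero_mul]) (by simp)]
    exact ⟨Nat.pos_of_mul_pos_right (h6 ▸ irr_deg_pos χ), h6⟩
  obtain ⟨n, hn⟩ := h1.exists_int_classInner j.isChar_Phi.isGen
  have h6 : ∀ χ ∈ B, (j.1 χ : ℤ) = d χ * n := fun χ hχ => by
    have := congrArg (ev · j.i) (h2 χ hχ)
    simp only [ev_smul_fun, ev_rg j.prim.mem j.prim.idem h1.isClassFunction, Pim.ev_i,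
      ev_rg j.prim.mem j.prim.idem χ.2.isCharacter.isClassFunction,
      j.ev_class h1.isClassFunction, hn] at this
    exact_mod_cast this
  choose m hm using fun χ : IrrCharacter G =>
    j.isGen_br.exists_int_classInner χ.2.isCharacter.isGen
  have h7 := j.ev_br j
  rw [j.isGen_br.isClassFunction.eq_sum_irr, ev_sum_fun] at h7
  simp only [ev_smul_fun, hm, Pim.ev_i, if_true] at h7
  have h8 : ∑ ξ, m ξ * j.1 ξ = 1 := by exact_mod_cast h7
  have h9 : n * n = 1 := Int.isUnit_mul_self (isUnit_of_dvd_one (h8 ▸ Finset.dvd_sum fun χ _ => by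
    by_cases h : χ ∈ B
    · rw [h6 χ h]; exact ((dvd_mul_left _ _).mul_left _)
    · simp [hj.eq_zero hB.fB_mem h]))
  rw [← h3, finsum_mem_eq_finite_toFinset_sum _ (Set.toFinite B), ← Finset.sum_subset
    (Finset.subset_univ (Set.toFinite B).toFinset) fun χ _ h => by
      simp [hj.eq_zero hB.fB_mem (by simpa using h)]]
  refine Finset.sum_congr rfl fun χ h => Nat.cast_injective (R := ℤ) ?_
  push_cast
  rw [h6 χ (by simpa using h), mul_mul_mul_comm, h9, mul_one, sq]

omit hp in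
theorem finrank_le_of_central {V : Submodule (Res M) (Res M)[G]} (hB : fB B ∈ LG G M)
    (h : ∀ z ∈ V, Inv ⊤ z ∧ z * eB M B = z) : finrank (Res M) V ≤ Nat.card B := by
  classical
  have := Fintype.ofFinite B
  have h1 : Lat M (Submodule.span ℂ (Set.range fun χ : B => fB {χ.1})) := Submodule.span_le.2 (by
    rintro _ ⟨χ, rfl⟩
    obtain ⟨c, h1, h2⟩ := ql_fB (M := M) {χ.1}
    rw [SetLike.mem_coe, ← Submodule.smul_mem_iff _ h1]
    exact Submodule.subset_span ⟨Submodule.smul_mem _ _ (Submodule.subset_span ⟨χ, rfl⟩), h2⟩)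
  rw [Nat.card_eq_fintype_card]
  refine le_trans ?_ (finrank_range_le_card (R := ℂ) fun χ : B => fB {χ.1})
  rw [Set.finrank, ← h1.finrank_redS]
  refine Submodule.finrank_mono fun z hz => ?_
  obtain ⟨w, h2, h3, rfl⟩ := exists_lift_inv (h z hz).1
  refine ⟨w * fB B, ?_, mul_mem h2 hB, by rw [redG_mul h2 hB]; exact (h _ hz).2⟩
  rw [fB_eq_sum, Finset.mul_sum]
  refine Submodule.sum_mem _ fun χ hχ => ?_
  rw [central_mul_fB h3]
  exact Submodule.smul_mem _ _ (Submodule.subset_span ⟨⟨χ, by simpa using hχ⟩, rfl⟩)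

omit hp in
theorem Pim.finrank_cor (j : Pim G M) :
    finrank (Res M) (Cor (Res M) j.prim.red_idem) = ∑ χ, j.1 χ * j.1 χ := by
  have h1 := finrank_redS_two j.prim.idem j.prim.idem (ql_of_mem j.prim.mem) (ql_of_mem j.prim.mem)
  simp only [Pim.ev_i] at h1
  rw [← LinearMap.finrank_range_of_inj (Cor.val_injective _)]
  suffices LinearMap.range (Cor.val j.prim.red_idem) = redS M (LinearMap.range (two j.i j.i)) by
    rw [this]; exact_mod_cast h1
  refine le_antisymm ?_ ?_
  · rintro _ ⟨z, rfl⟩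
    have h2 := mul_mem (liftG_mem z.1) j.prim.mem
    refine ⟨_, ⟨liftG M z.1, rfl⟩, mul_mem j.prim.mem h2, ?_⟩
    rw [two_apply, redG_mul j.prim.mem h2, redG_mul (liftG_mem _) j.prim.mem, redG_liftG, z.2.2,
      z.2.1]
    rfl
  · rintro _ ⟨_, ⟨a, rfl⟩, h2, rfl⟩
    refine ⟨⟨redG M (two j.i j.i a), ?_, ?_⟩, rfl⟩
    · rw [← redG_mul j.prim.mem h2, two_apply, ← mul_assoc, j.prim.idem]
    · rw [← redG_mul h2 j.prim.mem, two_apply, mul_assoc, mul_assoc, j.prim.idem]

omit hp in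
theorem Pim.exists_sla (j : Pim G M) :
    ∃ (J : Submodule (Res M) (Cor (Res M) j.prim.red_idem)) (τ : _), SLA J τ := by
  classical
  have := Fintype.ofFinite G
  have : Nontrivial (Cor (Res M) j.prim.red_idem) :=
    ⟨1, 0, fun h => j.prim.red_ne (congrArg Subtype.val h)⟩
  let τ : (Res M)[G] →ₗ[Res M] Res M := (Finsupp.lapply 1).comp (coeffLinearEquiv _).toLinearMap
  have h1 : ∀ a b, τ (a * b) = τ (b * a) := fun a b => by
    change (a * b).coeff 1 = (b * a).coeff 1
    rw [coeff_mul_sum, coeff_mul_sum']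
    simp [mul_comm]
  obtain ⟨J, h⟩ := CfsgH4.exists_sla (τ := τ.comp (Cor.val j.prim.red_idem)) (fun z => by
    rcases j.prim.loc z.1 (by rw [z.2.1, z.2.2]) with ⟨n, h⟩ | ⟨z', h⟩
    · exact .inl ⟨n + 1, Subtype.ext (by rw [Cor.val_pow, pow_succ, h, zero_mul]; rfl)⟩
    · refine .inr ⟨⟨redG M j.i * z' * redG M j.i, by simp only [← mul_assoc, j.prim.red_idem],
        by rw [mul_assoc, j.prim.red_idem]⟩, Subtype.ext ?_⟩
      change z.1 * (_ * z' * _) = redG M j.i
      rw [← mul_assoc, ← mul_assoc, z.2.2, h, j.prim.red_idem]) (fun a b => h1 a.1 b.1)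
    fun a ha => Subtype.ext (MonoidAlgebra.ext (Finsupp.ext fun g => by
      have := ha ⟨redG M j.i * single g⁻¹ 1 * redG M j.i, by
        simp only [← mul_assoc, j.prim.red_idem], by rw [mul_assoc, j.prim.red_idem]⟩
      change τ (a.1 * (_ * _ * _)) = 0 at this
      rw [← mul_assoc, ← mul_assoc, a.2.2, h1, ← mul_assoc, a.2.1] at this
      change (a.1 * single g⁻¹ 1).coeff 1 = 0 at this
      change _ = (0 : Res M)
      simpa using this))
  exact ⟨J, _, h⟩

omit hp in
theorem Pim.finrank_center (hB : fB B ∈ LG G M) {j : Pim G M} (hj : j.In B)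
    (h : ∀ k : Pim G M, k.In B → k = j) :
    finrank (Res M) (Subalgebra.center (Res M) (Cor (Res M) j.prim.red_idem)) ≤ Nat.card B := by
  classical
  obtain ⟨s, h1, h2⟩ := exists_prim_sum hB (fB_idem B)
  set e := redG M j.i
  have he : e * e = e := j.prim.red_idem
  have h3 : ∀ t : s.ToType, ∃ y x, y * e * x = redG M t.1 := fun t => by
    obtain ⟨h3, h4, -⟩ := h2 t.1 Multiset.coe_mem
    obtain ⟨k, hk⟩ := Pim.of_prim h3
    obtain ⟨χ, h5⟩ := k.exists_ne
    obtain rfl := h k ⟨χ, by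
      by_contra h6
      exact h5 (by exact_mod_cast (hk χ).symm.trans (h4 ▸ ev_fB_mul_of_notMem h6 _)), h5⟩
    obtain ⟨a, ha, b, hb, h6, h7⟩ := Pim.ieq h3 hk
    refine ⟨redG M b, redG M a, ?_⟩
    rw [← redG_mul hb k.prim.mem, ← redG_mul (mul_mem hb k.prim.mem) ha, ← h3.idem, ← h7, ← h6]
    simp only [mul_assoc]
  choose y x hxy using h3
  have h4 : ∑ t, y t * e * x t = eB M B := by
    rw [eB, ← h1, Multiset.sum_eq_sum_coe, redG_sum _ _ fun t _ => (h2 t.1 Multiset.coe_mem).1.mem]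
    exact Finset.sum_congr rfl fun t _ => hxy t
  have h5 : ∀ a, eB M B * a = a * eB M B := fun a => ((eB_mem_ZA B).2.commute a).symm
  have h6 : eB M B * e = e := by rw [eB, ← redG_mul hB j.prim.mem, hj.fB_mul hB]
  let T : Subalgebra.center (Res M) (Cor (Res M) he) →ₗ[Res M] (Res M)[G] :=
    (∑ t, two (y t) (x t)).comp ((Cor.val he).comp (Subalgebra.val _).toLinearMap)
  have hT : ∀ w, T w = ∑ t, y t * w.1.1 * x t := fun w => by
    simp only [T, LinearMap.comp_apply, LinearMap.sum_apply, two_apply, mul_assoc]; rfl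
  have hc : ∀ (w : Subalgebra.center (Res M) (Cor (Res M) he)) a,
      e * a * w.1.1 = w.1.1 * a * e := fun w a => by
    have := congrArg Subtype.val (Subalgebra.mem_center_iff.1 w.2 ⟨e * a * e, by
      simp only [← mul_assoc, he], by rw [mul_assoc, he]⟩)
    change e * a * e * w.1.1 = w.1.1 * (e * a * e) at this
    rwa [mul_assoc _ e, w.1.2.1, ← mul_assoc, ← mul_assoc, w.1.2.2] at this
  have h7 : ∀ w, T w * eB M B = T w := fun w => by
    rw [hT, Finset.sum_mul]
    refine Finset.sum_congr rfl fun t _ => ?_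
    rw [mul_assoc, ← h5, ← mul_assoc, ← w.1.2.2, ← mul_assoc, mul_assoc _ e, ← h5, h6]
  rw [← LinearMap.finrank_range_of_inj (f := T) ((injective_iff_map_eq_zero _).2 fun w hw => ?_)]
  · refine finrank_le_of_central hB ?_
    rintro _ ⟨w, rfl⟩
    suffices ∀ a, a * T w = T w * a from ⟨fun g _ => by
      rw [cnj_eq_mul, this, mul_assoc, single_mul_single]; simp [← one_def], h7 w⟩
    intro a
    calc a * T w = eB M B * a * T w := by rw [h5, mul_assoc, h5, h7]
      _ = T w * a * eB M B := by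
        rw [← h4, hT]
        simp only [Finset.sum_mul, Finset.mul_sum]
        conv_rhs => rw [Finset.sum_comm]
        conv_lhs => rw [Finset.sum_comm]
        conv_rhs => rw [Finset.sum_comm]
        rw [Finset.sum_comm]
        refine Finset.sum_congr rfl fun t' _ => Finset.sum_congr rfl fun t _ => ?_
        have := congrArg (fun z => y t * z * x t') (hc w (x t * a * y t'))
        simpa only [mul_assoc] using this
      _ = _ := by rw [mul_assoc, ← h5, ← mul_assoc, h7]
  · have h8 := congrArg (fun z => e * z * e) hw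
    simp only [hT, Finset.mul_sum, Finset.sum_mul, mul_zero, zero_mul, ← mul_assoc, hc] at h8
    refine Subtype.ext (Subtype.ext ?_)
    change w.1.1 = 0
    have h9 := congrArg (fun z => w.1.1 * (z * e)) h4
    simp only [h6, w.1.2.2, Finset.mul_sum, Finset.sum_mul, ← mul_assoc] at h9
    rw [← h9, h8]

theorem Cfsg.IsPBlock.exists_basic (hB : IsPBlock M B) (hl : blockRank p B = 1) :
    ∃ (A : Type u) (_ : Ring A) (_ : Algebra (Res M) A) (_ : FiniteDimensional (Res M) A)
      (J : Submodule (Res M) A) (τ : _), SLA J τ ∧ finrank (Res M) A = p ^ blockDefect p B ∧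
      finrank (Res M) (Subalgebra.center (Res M) A) ≤ Nat.card B := by
  obtain ⟨j, h1, h2, -, h3⟩ := hB.exists_pim hl
  obtain ⟨J, τ, h⟩ := j.exists_sla
  exact ⟨_, _, _, inferInstance, J, τ, h, j.finrank_cor.trans h3, Pim.finrank_center hB.fB_mem h1 h2⟩

theorem Cfsg.IsPBlock.deg_eq_of_le (hB : IsPBlock M B) (hl : blockRank p B = 1)
    (h : p ^ blockDefect p B ≤ Nat.card B) : p ^ blockDefect p B = Nat.card B ∧
      ∃ d, ∀ χ ∈ B, charDegree χ.1 = d := by
  classical
  obtain ⟨j, h1, -, h2, h3⟩ := hB.exists_pim hl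
  rw [← Finset.sum_subset (Finset.subset_univ (Finset.univ.filter (· ∈ B))) fun χ _ h => by
    simp [h1.eq_zero hB.fB_mem (by simpa using h)]] at h3
  rw [Nat.card_eq_fintype_card, Fintype.card_subtype, Finset.card_eq_sum_ones, ← h3] at h ⊢
  have h4 : ∀ χ ∈ Finset.univ.filter (· ∈ B), 1 ≤ j.1 χ * j.1 χ := fun χ h =>
    Nat.mul_pos (h2 χ (by simpa using h)).1 (h2 χ (by simpa using h)).1
  have h5 := (Finset.sum_le_sum h4).antisymm h
  refine ⟨h5.symm, j.deg, fun χ hχ => ?_⟩
  rw [(h2 χ hχ).2, Nat.eq_one_of_mul_eq_one_left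
    ((Finset.sum_eq_sum_iff_of_le h4).1 h5 χ (by simpa)).symm, one_mul]

theorem Cfsg.IsPBlock.small (hB : IsPBlock M B) (hl : blockRank p B = 1) (hk : Nat.card B ≤ 4) :
    p ^ blockDefect p B = Nat.card B ∧ ∃ d, ∀ χ ∈ B, charDegree χ.1 = d := by
  obtain ⟨A, _, _, _, J, τ, h1, h2, h3⟩ := hB.exists_basic hl
  refine hB.deg_eq_of_le hl (le_trans ?_ h3)
  rw [← h2, show Subalgebra.center (Res M) A = ⊤ from eq_top_iff.2 fun a _ =>
    Subalgebra.mem_center_iff.2 fun b => h1.comm (h3.trans hk) b a]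
  exact (Subalgebra.topEquiv.toLinearEquiv.finrank_eq).ge

end CfsgH4
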